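import Mathlib

/-!
Helper library for S0891: existence of the double cover of the alternating group.
Part II: from a ring with anticommuting square-one elements to the double cover.
-/

namespace Cfsg.Agent.Helper10

section DCAbstract

variable {A : Type} [Ring A] {N : ℕ} (e : Fin N → A)

/-- `dc_t e k l = e k - e l`. -/
def dc_t (k l : Fin N) : A := e k - e l

theorem dc_t_sq (h1 : ∀ k, e k * e k = 1) (h2 : ∀ k l, k ≠ l → e k * e l = -(e l * e k))
    (h3 : (3 : A) = 0) {k l : Fin N} (hkl : k ≠ l) : dc_t e k l * dc_t e k l = -1 := by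
  have h3' : (1 : A) + 1 + 1 = 0 := by rw [← h3]; norm_num
  unfold dc_t
  rw [sub_mul, mul_sub, mul_sub, h1, h1, h2 k l hkl]
  calc (1 : A) - -(e l * e k) - (e l * e k - 1) = (1 + 1 + 1) + (-1) := by abel
    _ = -1 := by rw [h3', zero_add]

theorem dc_t_conj (h1 : ∀ k, e k * e k = 1) (h2 : ∀ k l, k ≠ l → e k * e l = -(e l * e k))
    {k l : Fin N} (hkl : k ≠ l) (m : Fin N) :
    dc_t e k l * e m = -(e (Equiv.swap k l m) * dc_t e k l) := by
  unfold dc_t
  by_cases hmk : m = k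
  · subst hmk
    rw [Equiv.swap_apply_left, sub_mul, mul_sub, h1, h1]
    abel
  · by_cases hml : m = l
    · subst hml
      rw [Equiv.swap_apply_right, sub_mul, mul_sub, h1, h1]
      abel
    · rw [Equiv.swap_apply_of_ne_of_ne hmk hml, sub_mul, mul_sub, h2 k m (Ne.symm hmk),
        h2 l m (Ne.symm hml)]
      abel

/-- The unit `e k - e l`. -/
def dc_tu (h1 : ∀ k, e k * e k = 1) (h2 : ∀ k l, k ≠ l → e k * e l = -(e l * e k))
    (h3 : (3 : A) = 0) {k l : Fin N} (hkl : k ≠ l) : Aˣ :=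
  ⟨dc_t e k l, -dc_t e k l, by rw [mul_neg, dc_t_sq e h1 h2 h3 hkl, neg_neg],
    by rw [neg_mul, dc_t_sq e h1 h2 h3 hkl, neg_neg]⟩

/-- The relation "conjugation by `g` permutes the `e (c i)` as `π` and fixes the others". -/
def dc_rel {n : ℕ} (c : Fin n → Fin N) (g : Aˣ) (π : Equiv.Perm (Fin n)) : Prop :=
  (∀ i, (g : A) * e (c i) = e (c (π i)) * g) ∧
    (∀ m, m ∉ Set.range c → (g : A) * e m = e m * g)

theorem dc_rel_one {n : ℕ} (c : Fin n → Fin N) : dc_rel e c 1 1 := by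
  constructor
  · intro i; simp
  · intro m _; simp

theorem dc_rel_mul {n : ℕ} (c : Fin n → Fin N) {g g' : Aˣ} {π π' : Equiv.Perm (Fin n)}
    (h : dc_rel e c g π) (h' : dc_rel e c g' π') : dc_rel e c (g * g') (π * π') := by
  constructor
  · intro i
    rw [Units.val_mul, mul_assoc, h'.1 i, ← mul_assoc, h.1 (π' i), mul_assoc]
    rfl
  · intro m hm
    rw [Units.val_mul, mul_assoc, h'.2 m hm, ← mul_assoc, h.2 m hm, mul_assoc]

theorem dc_rel_inv {n : ℕ} (c : Fin n → Fin N) {g : Aˣ} {π : Equiv.Perm (Fin n)}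
    (h : dc_rel e c g π) : dc_rel e c g⁻¹ π⁻¹ := by
  constructor
  · intro i
    have h1 := h.1 (π⁻¹ i)
    rw [show π (π⁻¹ i) = i by simp] at h1
    calc ((g⁻¹ : Aˣ) : A) * e (c i) = ((g⁻¹ : Aˣ) : A) * (e (c i) * g) * ((g⁻¹ : Aˣ) : A) := by
          rw [mul_assoc, mul_assoc, Units.mul_inv, mul_one]
      _ = ((g⁻¹ : Aˣ) : A) * ((g : A) * e (c (π⁻¹ i))) * ((g⁻¹ : Aˣ) : A) := by rw [h1]
      _ = e (c (π⁻¹ i)) * ((g⁻¹ : Aˣ) : A) := by
          rw [← mul_assoc, Units.inv_mul, one_mul]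
  · intro m hm
    have h1 := h.2 m hm
    calc ((g⁻¹ : Aˣ) : A) * e m = ((g⁻¹ : Aˣ) : A) * (e m * g) * ((g⁻¹ : Aˣ) : A) := by
          rw [mul_assoc, mul_assoc, Units.mul_inv, mul_one]
      _ = ((g⁻¹ : Aˣ) : A) * ((g : A) * e m) * ((g⁻¹ : Aˣ) : A) := by rw [h1]
      _ = e m * ((g⁻¹ : Aˣ) : A) := by
          rw [← mul_assoc, Units.inv_mul, one_mul]

theorem dc_rel_neg_one {n : ℕ} (c : Fin n → Fin N) : dc_rel e c (-1) 1 := by
  constructor
  · intro i; simp
  · intro m _; simp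

/-- The product of two transposition lifts realises the product of two swaps. -/
theorem dc_rel_swap_swap (h1 : ∀ k, e k * e k = 1)
    (h2 : ∀ k l, k ≠ l → e k * e l = -(e l * e k)) (h3 : (3 : A) = 0) {n : ℕ}
    (c : Fin n → Fin N) (hc : Function.Injective c) {a b x y : Fin n} (hab : a ≠ b)
    (hxy : x ≠ y) :
    dc_rel e c (dc_tu e h1 h2 h3 (hc.ne hab) * dc_tu e h1 h2 h3 (hc.ne hxy))
      (Equiv.swap a b * Equiv.swap x y) := by
  have key : ∀ {a b : Fin n} (hab : a ≠ b), (∀ i, dc_t e (c a) (c b) * e (c i)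
      = -(e (c (Equiv.swap a b i)) * dc_t e (c a) (c b))) ∧
      (∀ m, m ∉ Set.range c → dc_t e (c a) (c b) * e m = -(e m * dc_t e (c a) (c b))) := by
    intro a b hab
    constructor
    · intro i
      rw [dc_t_conj e h1 h2 (hc.ne hab), hc.swap_apply]
    · intro m hm
      rw [dc_t_conj e h1 h2 (hc.ne hab), Equiv.swap_apply_of_ne_of_ne]
      · rintro rfl; exact hm ⟨a, rfl⟩
      · rintro rfl; exact hm ⟨b, rfl⟩
  constructor
  · intro i
    show dc_t e (c a) (c b) * dc_t e (c x) (c y) * e (c i)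
      = e (c ((Equiv.swap a b * Equiv.swap x y) i)) * (dc_t e (c a) (c b) * dc_t e (c x) (c y))
    rw [mul_assoc, (key hxy).1 i, mul_neg, ← mul_assoc, (key hab).1, neg_mul, neg_neg, mul_assoc]
    rfl
  · intro m hm
    show dc_t e (c a) (c b) * dc_t e (c x) (c y) * e m
      = e m * (dc_t e (c a) (c b) * dc_t e (c x) (c y))
    rw [mul_assoc, (key hxy).2 m hm, mul_neg, ← mul_assoc, (key hab).2 m hm, neg_mul, neg_neg,
      mul_assoc]

/-- Every even permutation is realised. -/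
theorem dc_rel_surj (h1 : ∀ k, e k * e k = 1)
    (h2 : ∀ k l, k ≠ l → e k * e l = -(e l * e k)) (h3 : (3 : A) = 0) {n : ℕ}
    (c : Fin n → Fin N) (hc : Function.Injective c) (π : Equiv.Perm (Fin n))
    (hπ : Equiv.Perm.sign π = 1) : ∃ g : Aˣ, dc_rel e c g π := by
  have main : ∀ f : Equiv.Perm (Fin n), (Equiv.Perm.sign f = 1 → ∃ g : Aˣ, dc_rel e c g f) ∧
      (Equiv.Perm.sign f = -1 → ∀ a b : Fin n, a ≠ b →
        ∃ g : Aˣ, dc_rel e c g (Equiv.swap a b * f)) := by
    intro f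
    induction f using Equiv.Perm.swap_induction_on with
    | one =>
      refine ⟨fun _ => ⟨1, dc_rel_one e c⟩, fun h => ?_⟩
      rw [Equiv.Perm.sign_one] at h
      exact absurd h (by decide)
    | swap_mul f x y hxy ih =>
      have hs : Equiv.Perm.sign (Equiv.swap x y * f) = -Equiv.Perm.sign f := by
        rw [Equiv.Perm.sign_mul, Equiv.Perm.sign_swap hxy, neg_one_mul]
      constructor
      · intro h
        rw [hs] at h
        exact ih.2 (by rw [← h, neg_neg]) x y hxy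
      · intro h a b hab
        rw [hs] at h
        obtain ⟨g₀, hg₀⟩ := ih.1 (by rw [← neg_neg (Equiv.Perm.sign f), h, neg_neg])
        refine ⟨dc_tu e h1 h2 h3 (hc.ne hab) * dc_tu e h1 h2 h3 (hc.ne hxy) * g₀, ?_⟩
        rw [← mul_assoc]
        exact dc_rel_mul e c (dc_rel_swap_swap e h1 h2 h3 c hc hab hxy) hg₀
  exact (main π).1 hπ


theorem dc_v4_comm {α : Type} [DecidableEq α] {a b c d : α} (hab : a ≠ b) (hac : a ≠ c)
    (had : a ≠ d) (hbc : b ≠ c) (hbd : b ≠ d) (hcd : c ≠ d) :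
    Equiv.swap a b * Equiv.swap c d * (Equiv.swap a c * Equiv.swap b d)
      = Equiv.swap a c * Equiv.swap b d * (Equiv.swap a b * Equiv.swap c d) := by
  have hba := hab.symm
  have hca := hac.symm
  have hda := had.symm
  have hcb := hbc.symm
  have hdb := hbd.symm
  have hdc := hcd.symm
  refine Equiv.ext fun x => ?_
  simp only [Equiv.Perm.mul_apply]
  by_cases hxa : x = a
  · subst hxa
    simp [Equiv.swap_apply_of_ne_of_ne, *]
  by_cases hxb : x = b
  · subst hxb
    simp [Equiv.swap_apply_of_ne_of_ne, *]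
  by_cases hxc : x = c
  · subst hxc
    simp [Equiv.swap_apply_of_ne_of_ne, *]
  by_cases hxd : x = d
  · subst hxd
    simp [Equiv.swap_apply_of_ne_of_ne, *]
  simp [Equiv.swap_apply_of_ne_of_ne, *]

/-- The graph subgroup: pairs `(g, π)` with `π` even and `g` inducing `π`. -/
def dc_Gam {n : ℕ} (c : Fin n → Fin N) : Subgroup (Aˣ × alternatingGroup (Fin n)) where
  carrier := {p | dc_rel e c p.1 p.2.1}
  mul_mem' := fun {_ _} h h' => dc_rel_mul e c h h'
  one_mem' := dc_rel_one e c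
  inv_mem' := fun {_} h => dc_rel_inv e c h

/-- The anticommutation of the two lifts of the commuting double transpositions. -/
theorem dc_anticomm (h1 : ∀ k, e k * e k = 1)
    (h2 : ∀ k l, k ≠ l → e k * e l = -(e l * e k)) (h3 : (3 : A) = 0) {n : ℕ}
    (c : Fin n → Fin N) (hc : Function.Injective c) {i0 i1 i2 i3 : Fin n} (h01 : i0 ≠ i1)
    (h02 : i0 ≠ i2) (h03 : i0 ≠ i3) (h12 : i1 ≠ i2) (h13 : i1 ≠ i3) (h23 : i2 ≠ i3) :
    (dc_tu e h1 h2 h3 (hc.ne h01) * dc_tu e h1 h2 h3 (hc.ne h23))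
        * (dc_tu e h1 h2 h3 (hc.ne h02) * dc_tu e h1 h2 h3 (hc.ne h13))
      = -1 * ((dc_tu e h1 h2 h3 (hc.ne h02) * dc_tu e h1 h2 h3 (hc.ne h13))
        * (dc_tu e h1 h2 h3 (hc.ne h01) * dc_tu e h1 h2 h3 (hc.ne h23))) := by
  have hrel := dc_rel_swap_swap e h1 h2 h3 c hc h01 h23
  set ga := dc_tu e h1 h2 h3 (hc.ne h01) * dc_tu e h1 h2 h3 (hc.ne h23) with hga
  have hσ0 : (Equiv.swap i0 i1 * Equiv.swap i2 i3) i0 = i1 := by
    rw [Equiv.Perm.mul_apply, Equiv.swap_apply_of_ne_of_ne h02 h03, Equiv.swap_apply_left]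
  have hσ1 : (Equiv.swap i0 i1 * Equiv.swap i2 i3) i1 = i0 := by
    rw [Equiv.Perm.mul_apply, Equiv.swap_apply_of_ne_of_ne h12 h13, Equiv.swap_apply_right]
  have hσ2 : (Equiv.swap i0 i1 * Equiv.swap i2 i3) i2 = i3 := by
    rw [Equiv.Perm.mul_apply, Equiv.swap_apply_left,
      Equiv.swap_apply_of_ne_of_ne h03.symm h13.symm]
  have hσ3 : (Equiv.swap i0 i1 * Equiv.swap i2 i3) i3 = i2 := by
    rw [Equiv.Perm.mul_apply, Equiv.swap_apply_right,
      Equiv.swap_apply_of_ne_of_ne h02.symm h12.symm]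
  have e0 := hrel.1 i0
  have e1 := hrel.1 i1
  have e2 := hrel.1 i2
  have e3 := hrel.1 i3
  rw [hσ0] at e0
  rw [hσ1] at e1
  rw [hσ2] at e2
  rw [hσ3] at e3
  have k1 : (ga : A) * dc_t e (c i0) (c i2) = dc_t e (c i1) (c i3) * ga := by
    unfold dc_t
    rw [mul_sub, e0, e2, sub_mul]
  have k2 : (ga : A) * dc_t e (c i1) (c i3) = dc_t e (c i0) (c i2) * ga := by
    unfold dc_t
    rw [mul_sub, e1, e3, sub_mul]
  have k3 : dc_t e (c i1) (c i3) * dc_t e (c i0) (c i2)
      = -(dc_t e (c i0) (c i2) * dc_t e (c i1) (c i3)) := by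
    unfold dc_t
    rw [sub_mul, mul_sub, mul_sub, sub_mul, mul_sub, mul_sub,
      h2 (c i1) (c i0) (hc.ne h01.symm), h2 (c i1) (c i2) (hc.ne h12),
      h2 (c i3) (c i0) (hc.ne h03.symm), h2 (c i3) (c i2) (hc.ne h23.symm)]
    abel
  apply Units.ext
  show (ga : A) * (dc_t e (c i0) (c i2) * dc_t e (c i1) (c i3))
    = ((-1 : Aˣ) : A) * ((dc_t e (c i0) (c i2) * dc_t e (c i1) (c i3)) * ga)
  rw [← mul_assoc, k1, mul_assoc, k2, ← mul_assoc, k3, Units.val_neg, Units.val_one, neg_mul,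
    neg_mul, one_mul]

theorem dc_main (h1 : ∀ k, e k * e k = 1)
    (h2 : ∀ k l, k ≠ l → e k * e l = -(e l * e k)) (h3 : (3 : A) = 0)
    (h4 : ∀ g : Aˣ, (∀ k, (g : A) * e k = e k * g) → g = 1 ∨ g = -1)
    (h6 : (-1 : Aˣ) ≠ 1) (n : ℕ) (hn : 4 ≤ n) (c : Fin n → Fin N)
    (hc : Function.Injective c) :
    ∃ (Γ : Type) (_ : Group Γ) (_ : Finite Γ) (z : Γ) (_ : z ∈ Subgroup.center Γ),
      orderOf z = 2 ∧ z ∈ commutator Γ ∧ ∃ _ : (Subgroup.zpowers z).Normal,
        Nonempty (Γ ⧸ Subgroup.zpowers z ≃* alternatingGroup (Fin n)) := by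
  classical
  let G := dc_Gam e c
  let f : G →* alternatingGroup (Fin n) := (MonoidHom.snd _ _).comp G.subtype
  have hsurj : Function.Surjective f := by
    intro π
    obtain ⟨g, hg⟩ := dc_rel_surj e h1 h2 h3 c hc π.1 (Equiv.Perm.mem_alternatingGroup.mp π.2)
    exact ⟨⟨(g, π), hg⟩, rfl⟩
  let z : G := ⟨(-1, 1), dc_rel_neg_one e c⟩
  have hzc : z ∈ Subgroup.center G := by
    rw [Subgroup.mem_center_iff]
    intro p
    apply Subtype.ext
    apply Prod.ext
    · show p.1.1 * (-1) = (-1) * p.1.1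
      rw [mul_neg, neg_mul, mul_one, one_mul]
    · show p.1.2 * 1 = 1 * p.1.2
      rw [mul_one, one_mul]
  have hz1 : z ≠ 1 := by
    intro h
    have := congrArg (fun p : G => p.1.1) h
    exact h6 this
  have hz2 : z ^ 2 = 1 := by
    apply Subtype.ext
    apply Prod.ext
    · show ((-1 : Aˣ)) ^ 2 = 1
      simp
    · show (1 : alternatingGroup (Fin n)) ^ 2 = 1
      simp
  have hord : orderOf z = 2 := orderOf_eq_prime hz2 hz1
  have hker : f.ker = Subgroup.zpowers z := by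
    apply le_antisymm
    · intro p hp
      rw [MonoidHom.mem_ker] at hp
      have hp2 : p.1.2 = 1 := hp
      have hrel : dc_rel e c p.1.1 1 := by
        have h' : dc_rel e c p.1.1 p.1.2.1 := p.2
        rw [hp2] at h'
        exact h'
      have hcomm : ∀ k, (p.1.1 : A) * e k = e k * p.1.1 := by
        intro k
        by_cases hk : k ∈ Set.range c
        · obtain ⟨i, rfl⟩ := hk
          have := hrel.1 i
          simpa using this
        · exact hrel.2 k hk
      rcases h4 p.1.1 hcomm with h | h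
      · have : p = 1 := by
          apply Subtype.ext
          apply Prod.ext
          · exact h
          · exact hp2
        rw [this]
        exact Subgroup.one_mem _
      · have : p = z := by
          apply Subtype.ext
          apply Prod.ext
          · exact h
          · exact hp2
        rw [this]
        exact Subgroup.mem_zpowers z
    · rw [Subgroup.zpowers_le, MonoidHom.mem_ker]
      rfl
  have hcommut : z ∈ commutator G := by
    let i0 : Fin n := ⟨0, by omega⟩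
    let i1 : Fin n := ⟨1, by omega⟩
    let i2 : Fin n := ⟨2, by omega⟩
    let i3 : Fin n := ⟨3, by omega⟩
    have h01 : i0 ≠ i1 := by simp [i0, i1, Fin.ext_iff]
    have h02 : i0 ≠ i2 := by simp [i0, i2, Fin.ext_iff]
    have h03 : i0 ≠ i3 := by simp [i0, i3, Fin.ext_iff]
    have h12 : i1 ≠ i2 := by simp [i1, i2, Fin.ext_iff]
    have h13 : i1 ≠ i3 := by simp [i1, i3, Fin.ext_iff]
    have h23 : i2 ≠ i3 := by simp [i2, i3, Fin.ext_iff]
    have hσ : Equiv.swap i0 i1 * Equiv.swap i2 i3 ∈ alternatingGroup (Fin n) := by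
      rw [Equiv.Perm.mem_alternatingGroup, Equiv.Perm.sign_mul, Equiv.Perm.sign_swap h01,
        Equiv.Perm.sign_swap h23]
      decide
    have hρ : Equiv.swap i0 i2 * Equiv.swap i1 i3 ∈ alternatingGroup (Fin n) := by
      rw [Equiv.Perm.mem_alternatingGroup, Equiv.Perm.sign_mul, Equiv.Perm.sign_swap h02,
        Equiv.Perm.sign_swap h13]
      decide
    let a : G := ⟨(dc_tu e h1 h2 h3 (hc.ne h01) * dc_tu e h1 h2 h3 (hc.ne h23),
      ⟨_, hσ⟩), dc_rel_swap_swap e h1 h2 h3 c hc h01 h23⟩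
    let b : G := ⟨(dc_tu e h1 h2 h3 (hc.ne h02) * dc_tu e h1 h2 h3 (hc.ne h13),
      ⟨_, hρ⟩), dc_rel_swap_swap e h1 h2 h3 c hc h02 h13⟩
    have hab : a * b = z * (b * a) := by
      apply Subtype.ext
      apply Prod.ext
      · exact dc_anticomm e h1 h2 h3 c hc h01 h02 h03 h12 h13 h23
      · apply Subtype.ext
        show Equiv.swap i0 i1 * Equiv.swap i2 i3 * (Equiv.swap i0 i2 * Equiv.swap i1 i3)
          = 1 * (Equiv.swap i0 i2 * Equiv.swap i1 i3 * (Equiv.swap i0 i1 * Equiv.swap i2 i3))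
        rw [one_mul]
        exact dc_v4_comm h01 h02 h03 h12 h13 h23
    have hz : z = a * b * a⁻¹ * b⁻¹ := by
      rw [hab]
      group
    rw [hz, commutator_def]
    exact Subgroup.commutator_mem_commutator (Subgroup.mem_top a) (Subgroup.mem_top b)
  haveI hnorm : (Subgroup.zpowers z).Normal := hker ▸ (inferInstance : f.ker.Normal)
  have iso : G ⧸ Subgroup.zpowers z ≃* alternatingGroup (Fin n) :=
    (QuotientGroup.quotientMulEquivOfEq hker.symm).trans
      (QuotientGroup.quotientKerEquivOfSurjective f hsurj)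
  haveI : Finite (Subgroup.zpowers z) :=
    Nat.finite_of_card_ne_zero (by rw [Nat.card_zpowers, hord]; norm_num)
  haveI : Finite (G ⧸ Subgroup.zpowers z) := Finite.of_equiv _ iso.symm.toEquiv
  have hfin : Finite G := Finite.of_subgroup_quotient (Subgroup.zpowers z)
  exact ⟨G, inferInstance, hfin, z, hzc, hord, hcommut, hnorm, ⟨iso⟩⟩

end DCAbstract

end Cfsg.Agent.Helper10
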