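import Mathlib
import Cfsg.Agent.Helper10.DCover

/-!
Helper library for S0891, Part I: the concrete ring.  `DcE N` is a 2-group of order `2^(N+1)`
(pairs of a sign bit and a 0/1-vector, with a bilinear cocycle), `DcR N` its group algebra over
`ZMod 3`, and `DcA N` the quotient in which the central involution becomes `-1`.
-/

namespace Cfsg.Agent.Helper10

/-- The underlying 2-group. -/
@[ext] structure DcE (N : ℕ) where
  a : ZMod 2
  s : Fin N → ZMod 2

/-- The bilinear cocycle. -/
def dc_bet {N : ℕ} (S T : Fin N → ZMod 2) : ZMod 2 :=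
  ∑ i, ∑ j, if j < i then S i * T j else 0

theorem dc_two (t : ZMod 2) : t + t = 0 := by revert t; decide

theorem dc_bet_add_left {N : ℕ} (S S' T : Fin N → ZMod 2) :
    dc_bet (S + S') T = dc_bet S T + dc_bet S' T := by
  unfold dc_bet
  rw [← Finset.sum_add_distrib]
  refine Finset.sum_congr rfl fun i _ => ?_
  rw [← Finset.sum_add_distrib]
  refine Finset.sum_congr rfl fun j _ => ?_
  split_ifs
  · rw [Pi.add_apply, add_mul]
  · rw [add_zero]

theorem dc_bet_add_right {N : ℕ} (S T T' : Fin N → ZMod 2) :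
    dc_bet S (T + T') = dc_bet S T + dc_bet S T' := by
  unfold dc_bet
  rw [← Finset.sum_add_distrib]
  refine Finset.sum_congr rfl fun i _ => ?_
  rw [← Finset.sum_add_distrib]
  refine Finset.sum_congr rfl fun j _ => ?_
  split_ifs
  · rw [Pi.add_apply, mul_add]
  · rw [add_zero]

theorem dc_bet_zero_left {N : ℕ} (T : Fin N → ZMod 2) : dc_bet 0 T = 0 := by
  simp [dc_bet]

theorem dc_bet_zero_right {N : ℕ} (S : Fin N → ZMod 2) : dc_bet S 0 = 0 := by
  simp [dc_bet]

instance dcE_group (N : ℕ) : Group (DcE N) where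
  mul x y := ⟨x.a + y.a + dc_bet x.s y.s, x.s + y.s⟩
  one := ⟨0, 0⟩
  inv x := ⟨x.a + dc_bet x.s x.s, x.s⟩
  mul_assoc x y z := by
    apply DcE.ext
    · show x.a + y.a + dc_bet x.s y.s + z.a + dc_bet (x.s + y.s) z.s
        = x.a + (y.a + z.a + dc_bet y.s z.s) + dc_bet x.s (y.s + z.s)
      rw [dc_bet_add_left, dc_bet_add_right]
      ring
    · show x.s + y.s + z.s = x.s + (y.s + z.s)
      rw [add_assoc]
  one_mul x := by
    apply DcE.ext
    · show 0 + x.a + dc_bet 0 x.s = x.a
      rw [dc_bet_zero_left, zero_add, add_zero]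
    · show 0 + x.s = x.s
      rw [zero_add]
  mul_one x := by
    apply DcE.ext
    · show x.a + 0 + dc_bet x.s 0 = x.a
      rw [dc_bet_zero_right, add_zero, add_zero]
    · show x.s + 0 = x.s
      rw [add_zero]
  inv_mul_cancel x := by
    apply DcE.ext
    · show x.a + dc_bet x.s x.s + x.a + dc_bet x.s x.s = 0
      linear_combination dc_two x.a + dc_two (dc_bet x.s x.s)
    · show x.s + x.s = 0
      funext i
      exact dc_two (x.s i)

theorem dcE_mul_a {N : ℕ} (x y : DcE N) : (x * y).a = x.a + y.a + dc_bet x.s y.s := rfl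
theorem dcE_mul_s {N : ℕ} (x y : DcE N) : (x * y).s = x.s + y.s := rfl
theorem dcE_one_a {N : ℕ} : (1 : DcE N).a = 0 := rfl
theorem dcE_one_s {N : ℕ} : (1 : DcE N).s = 0 := rfl

/-- The central involution. -/
def dc_zt (N : ℕ) : DcE N := ⟨1, 0⟩

/-- The generators. -/
def dc_et {N : ℕ} (k : Fin N) : DcE N := ⟨0, Pi.single k 1⟩

theorem dc_bet_single_left {N : ℕ} (k : Fin N) (T : Fin N → ZMod 2) :
    dc_bet (Pi.single k 1) T = ∑ j, if j < k then T j else 0 := by
  unfold dc_bet
  rw [Finset.sum_eq_single k]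
  · refine Finset.sum_congr rfl fun j _ => ?_
    rw [Pi.single_eq_same, one_mul]
  · intro i _ hik
    refine Finset.sum_eq_zero fun j _ => ?_
    rw [Pi.single_eq_of_ne hik, zero_mul, ite_self]
  · intro h
    exact absurd (Finset.mem_univ k) h

theorem dc_bet_single_right {N : ℕ} (S : Fin N → ZMod 2) (l : Fin N) :
    dc_bet S (Pi.single l 1) = ∑ i, if l < i then S i else 0 := by
  unfold dc_bet
  refine Finset.sum_congr rfl fun i _ => ?_
  rw [Finset.sum_eq_single l]
  · rw [Pi.single_eq_same, mul_one]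
  · intro j _ hjl
    rw [Pi.single_eq_of_ne hjl, mul_zero, ite_self]
  · intro h
    exact absurd (Finset.mem_univ l) h

theorem dc_bet_single_single {N : ℕ} (k l : Fin N) :
    dc_bet (Pi.single k 1) (Pi.single l 1) = if l < k then 1 else 0 := by
  rw [dc_bet_single_left, Finset.sum_eq_single l]
  · rw [Pi.single_eq_same]
  · intro j _ hjl
    rw [Pi.single_eq_of_ne hjl, ite_self]
  · intro h
    exact absurd (Finset.mem_univ l) h

theorem dc_bet_twist {N : ℕ} (S : Fin N → ZMod 2) (k : Fin N) :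
    dc_bet S (Pi.single k 1) + dc_bet (Pi.single k 1) S = (∑ i, S i) + S k := by
  rw [dc_bet_single_right, dc_bet_single_left, ← Finset.sum_add_distrib]
  have h : (∑ i, S i) + S k = ∑ i, (S i + if i = k then S k else 0) := by
    rw [Finset.sum_add_distrib]
    simp
  rw [h]
  refine Finset.sum_congr rfl fun i _ => ?_
  rcases lt_trichotomy i k with h | h | h
  · rw [if_neg (not_lt.mpr h.le), if_pos h, if_neg h.ne, zero_add, add_zero]
  · subst h
    rw [if_neg (lt_irrefl _), if_pos rfl, add_zero, dc_two (S i)]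
  · rw [if_pos h, if_neg (not_lt.mpr h.le), if_neg h.ne', add_zero]

theorem dc_exists_twist {N : ℕ} (hN : Even N) (S : Fin N → ZMod 2) (hS : S ≠ 0) :
    ∃ k, (∑ i, S i) + S k = 1 := by
  have hv : ∀ t : ZMod 2, t = 0 ∨ t = 1 := by decide
  by_cases hw : ∑ i, S i = 0
  · obtain ⟨k, hk⟩ : ∃ k, S k ≠ 0 := by
      by_contra h
      exact hS (funext fun k => by_contra fun hk => h ⟨k, hk⟩)
    refine ⟨k, ?_⟩
    rw [hw, zero_add]
    exact (hv (S k)).resolve_left hk
  · have hw1 : ∑ i, S i = 1 := (hv _).resolve_left hw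
    obtain ⟨k, hk⟩ : ∃ k, S k = 0 := by
      by_contra h
      have hall : ∀ k, S k = 1 := fun k => (hv (S k)).resolve_left (fun hk => h ⟨k, hk⟩)
      have h0 : ∑ i, S i = 0 := by
        rw [Finset.sum_congr rfl (fun i _ => hall i), Finset.sum_const, Finset.card_univ,
          Fintype.card_fin, nsmul_eq_mul, mul_one]
        obtain ⟨r, rfl⟩ := hN
        push_cast
        exact dc_two _
      exact hw h0
    exact ⟨k, by rw [hw1, hk, add_zero]⟩

theorem dc_zt_comm {N : ℕ} (x : DcE N) : dc_zt N * x = x * dc_zt N := by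
  apply DcE.ext
  · show (1 : ZMod 2) + x.a + dc_bet 0 x.s = x.a + 1 + dc_bet x.s 0
    rw [dc_bet_zero_left, dc_bet_zero_right]
    ring
  · show (0 : Fin N → ZMod 2) + x.s = x.s + 0
    rw [zero_add, add_zero]

theorem dc_zt_sq (N : ℕ) : dc_zt N * dc_zt N = 1 := by
  apply DcE.ext
  · show (1 : ZMod 2) + 1 + dc_bet (0 : Fin N → ZMod 2) 0 = 0
    rw [dc_bet_zero_left, add_zero]
    decide
  · show (0 : Fin N → ZMod 2) + 0 = 0
    rw [add_zero]

theorem dc_zt_ne_one (N : ℕ) : dc_zt N ≠ 1 := by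
  intro h
  have := congrArg DcE.a h
  exact absurd this (by show (1 : ZMod 2) ≠ 0; decide)

theorem dc_et_sq {N : ℕ} (k : Fin N) : dc_et k * dc_et k = 1 := by
  apply DcE.ext
  · show (0 : ZMod 2) + 0 + dc_bet (Pi.single k 1) (Pi.single k 1) = 0
    rw [dc_bet_single_single, if_neg (lt_irrefl k), add_zero, add_zero]
  · show (Pi.single k 1 : Fin N → ZMod 2) + Pi.single k 1 = 0
    funext i
    exact dc_two _

theorem dc_et_anti {N : ℕ} {k l : Fin N} (hkl : k ≠ l) :
    dc_et k * dc_et l = dc_zt N * (dc_et l * dc_et k) := by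
  apply DcE.ext
  · show (0 : ZMod 2) + 0 + dc_bet (Pi.single k 1) (Pi.single l 1)
      = 1 + (0 + 0 + dc_bet (Pi.single l 1) (Pi.single k 1))
        + dc_bet 0 ((Pi.single l 1 : Fin N → ZMod 2) + Pi.single k 1)
    rw [dc_bet_single_single, dc_bet_single_single, dc_bet_zero_left]
    rcases lt_or_gt_of_ne hkl with h | h
    · rw [if_neg (not_lt.mpr h.le), if_pos h]
      decide
    · rw [if_pos h, if_neg (not_lt.mpr h.le)]
      decide
  · show (Pi.single k 1 : Fin N → ZMod 2) + Pi.single l 1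
      = 0 + ((Pi.single l 1 : Fin N → ZMod 2) + Pi.single k 1)
    rw [zero_add, add_comm]


noncomputable section

/-- The group algebra over `ZMod 3`. -/
abbrev DcR (N : ℕ) := MonoidAlgebra (ZMod 3) (DcE N)

/-- The central involution in the group algebra. -/
def dc_zR (N : ℕ) : DcR N := MonoidAlgebra.single (dc_zt N) 1

/-- The generators in the group algebra. -/
def dc_eR {N : ℕ} (k : Fin N) : DcR N := MonoidAlgebra.single (dc_et k) 1

/-- The central idempotent `z - 1`. -/
def dc_eps (N : ℕ) : DcR N := dc_zR N - 1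

theorem dc_three (N : ℕ) : (3 : DcR N) = 0 := by
  rw [MonoidAlgebra.ofNat_def]
  have : (3 : ZMod 3) = 0 := by decide
  rw [this, MonoidAlgebra.single_zero]

theorem dc_zR_comm {N : ℕ} (x : DcR N) : dc_zR N * x = x * dc_zR N :=
  (MonoidAlgebra.single_commute (fun m' => dc_zt_comm m') (fun r' => Commute.all _ r') x).eq

theorem dc_zR_sq (N : ℕ) : dc_zR N * dc_zR N = 1 := by
  unfold dc_zR
  rw [MonoidAlgebra.single_mul_single, dc_zt_sq, one_mul]
  rfl

theorem dc_eps_comm {N : ℕ} (x : DcR N) : dc_eps N * x = x * dc_eps N := by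
  unfold dc_eps
  rw [sub_mul, mul_sub, dc_zR_comm, one_mul, mul_one]

theorem dc_eps_z (N : ℕ) : dc_eps N * dc_zR N = -dc_eps N := by
  unfold dc_eps
  rw [sub_mul, dc_zR_sq, one_mul, neg_sub]

theorem dc_eps_idem (N : ℕ) : dc_eps N * dc_eps N = dc_eps N := by
  have h : dc_eps N * dc_eps N = dc_eps N * dc_zR N - dc_eps N := by
    conv_lhs => rw [show dc_eps N = dc_zR N - 1 from rfl]
    rw [mul_sub, mul_one]
    rfl
  rw [h, dc_eps_z]
  have h3 : (3 : DcR N) * dc_eps N = 0 := by rw [dc_three, zero_mul]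
  have h4 : -dc_eps N - dc_eps N - dc_eps N = -((3 : DcR N) * dc_eps N) := by noncomm_ring
  rw [h3, neg_zero, sub_eq_zero] at h4
  exact h4

theorem dc_eps_coeff_one (N : ℕ) : (dc_eps N).coeff 1 = -1 := by
  classical
  unfold dc_eps dc_zR
  rw [MonoidAlgebra.coeff_sub, Finsupp.sub_apply, MonoidAlgebra.coeff_single,
    MonoidAlgebra.one_def, MonoidAlgebra.coeff_single, Finsupp.single_apply, Finsupp.single_apply,
    if_neg (dc_zt_ne_one N), if_pos rfl, zero_sub]

theorem dc_eps_ne (N : ℕ) : dc_eps N ≠ 0 := by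
  intro h
  have h1 := dc_eps_coeff_one N
  rw [h] at h1
  have h2 : ((0 : DcR N)).coeff 1 = 0 := rfl
  rw [h2] at h1
  exact absurd h1 (by decide)

theorem dc_eR_sq {N : ℕ} (k : Fin N) : dc_eR k * dc_eR k = 1 := by
  unfold dc_eR
  rw [MonoidAlgebra.single_mul_single, dc_et_sq, one_mul]
  rfl

theorem dc_eR_anti {N : ℕ} {k l : Fin N} (hkl : k ≠ l) :
    dc_eR k * dc_eR l = dc_zR N * (dc_eR l * dc_eR k) := by
  unfold dc_eR dc_zR
  rw [MonoidAlgebra.single_mul_single, MonoidAlgebra.single_mul_single,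
    MonoidAlgebra.single_mul_single, dc_et_anti hkl, one_mul, one_mul]

/-- The congruence `ε x = ε y`. -/
def dc_con (N : ℕ) : RingCon (DcR N) where
  r x y := dc_eps N * x = dc_eps N * y
  iseqv := ⟨fun _ => rfl, fun h => h.symm, fun h h' => h.trans h'⟩
  mul' := by
    intro w x y z h h'
    have h1 : dc_eps N * w = dc_eps N * x := h
    have h2 : dc_eps N * y = dc_eps N * z := h'
    show dc_eps N * (w * y) = dc_eps N * (x * z)
    calc dc_eps N * (w * y) = dc_eps N * x * y := by rw [← mul_assoc, h1]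
      _ = x * (dc_eps N * y) := by rw [dc_eps_comm x, mul_assoc]
      _ = x * (dc_eps N * z) := by rw [h2]
      _ = dc_eps N * (x * z) := by rw [← mul_assoc, ← dc_eps_comm x, mul_assoc]
  add' := by
    intro w x y z h h'
    have h1 : dc_eps N * w = dc_eps N * x := h
    have h2 : dc_eps N * y = dc_eps N * z := h'
    show dc_eps N * (w + y) = dc_eps N * (x + z)
    rw [mul_add, mul_add, h1, h2]

/-- The quotient ring. -/
abbrev DcA (N : ℕ) := (dc_con N).Quotient

/-- The quotient map. -/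
def dc_q (N : ℕ) : DcR N →+* DcA N := (dc_con N).mk'

theorem dc_q_eq {N : ℕ} (x y : DcR N) :
    dc_q N x = dc_q N y ↔ dc_eps N * x = dc_eps N * y :=
  RingCon.eq (dc_con N)

/-- The generators in the quotient. -/
def dc_eA {N : ℕ} (k : Fin N) : DcA N := dc_q N (dc_eR k)

theorem dc_q_z (N : ℕ) : dc_q N (dc_zR N) = -1 := by
  rw [← map_one (dc_q N), ← map_neg, dc_q_eq, dc_eps_z, mul_neg, mul_one]

theorem dc_eA_sq {N : ℕ} (k : Fin N) : dc_eA k * dc_eA k = 1 := by
  unfold dc_eA
  rw [← map_mul, dc_eR_sq, map_one]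

theorem dc_eA_anti {N : ℕ} (k l : Fin N) (hkl : k ≠ l) :
    dc_eA k * dc_eA l = -(dc_eA l * dc_eA k) := by
  unfold dc_eA
  rw [← map_mul, dc_eR_anti hkl, map_mul, dc_q_z, map_mul]
  exact neg_one_mul (α := DcA N) _

theorem dc_three_A (N : ℕ) : (3 : DcA N) = 0 := by
  rw [← map_ofNat (dc_q N) 3, dc_three, map_zero]

theorem dc_two_A (N : ℕ) : (2 : DcA N) = -1 := by
  have h : (2 : DcA N) + 1 = 3 := by norm_num
  rw [dc_three_A] at h
  exact eq_neg_of_add_eq_zero_left h

theorem dc_one_ne_zero_A (N : ℕ) : (1 : DcA N) ≠ 0 := by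
  intro h
  rw [← map_one (dc_q N), ← map_zero (dc_q N), dc_q_eq, mul_one, mul_zero] at h
  exact dc_eps_ne N h

theorem dc_neg_one_ne (N : ℕ) : (-1 : (DcA N)ˣ) ≠ 1 := by
  intro h
  have h' : (-1 : DcA N) = 1 := by
    have := congrArg Units.val h
    rwa [Units.val_neg, Units.val_one] at this
  have h2 := dc_two_A N
  rw [h'] at h2
  have h3 : (1 : DcA N) + 1 = 1 + 0 := by
    have h4 : (1 : DcA N) + 1 = 2 := by norm_num
    rw [add_zero, h4, h2]
  exact dc_one_ne_zero_A N (add_left_cancel h3)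


theorem dc_coeff_zero {N : ℕ} (hN : Even N) (y : DcR N)
    (hcomm : ∀ k, y * dc_eR k = dc_eR k * y) (hz : dc_zR N * y = -y) (w : DcE N)
    (hw : w.s ≠ 0) : y.coeff w = 0 := by
  obtain ⟨k, hk⟩ := dc_exists_twist hN w.s hw
  have hwk : w * dc_et k = dc_et k * (dc_zt N * w) := by
    apply DcE.ext
    · show w.a + 0 + dc_bet w.s (Pi.single k 1)
        = 0 + (1 + w.a + dc_bet 0 w.s) + dc_bet (Pi.single k 1) (0 + w.s)
      have h5 := dc_bet_twist w.s k
      rw [hk] at h5
      rw [dc_bet_zero_left, zero_add w.s]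
      linear_combination h5 - dc_two (dc_bet (Pi.single k 1) w.s)
    · show w.s + Pi.single k 1 = Pi.single k 1 + (0 + w.s)
      rw [zero_add, add_comm]
  have c1 : (y * dc_eR k).coeff (w * dc_et k) = y.coeff w := by
    unfold dc_eR
    rw [MonoidAlgebra.coeff_mul_single_mul, mul_one]
  have c2 : (dc_eR k * y).coeff (w * dc_et k) = y.coeff (dc_zt N * w) := by
    unfold dc_eR
    rw [hwk, MonoidAlgebra.coeff_single_mul_mul, one_mul]
  have c3 : (dc_zR N * y).coeff (dc_zt N * w) = y.coeff w := by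
    unfold dc_zR
    rw [MonoidAlgebra.coeff_single_mul_mul, one_mul]
  rw [hz, MonoidAlgebra.coeff_neg, Finsupp.neg_apply] at c3
  rw [hcomm k, c2] at c1
  rw [c1] at c3
  have hdec : ∀ t : ZMod 3, -t = t → t = 0 := by decide
  exact hdec _ c3

theorem dc_eps_single (N : ℕ) (d : ZMod 3) :
    dc_eps N * MonoidAlgebra.single 1 d
      = MonoidAlgebra.single (dc_zt N) d - MonoidAlgebra.single 1 d := by
  unfold dc_eps dc_zR
  rw [sub_mul, one_mul, MonoidAlgebra.single_mul_single, mul_one, one_mul]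

theorem dc_center {N : ℕ} (hN : Even N) (g : (DcA N)ˣ)
    (hg : ∀ k : Fin N, (g : DcA N) * dc_eA k = dc_eA k * (g : DcA N)) : g = 1 ∨ g = -1 := by
  classical
  obtain ⟨x, hx⟩ := (dc_con N).mk'_surjective (g : DcA N)
  have hx' : dc_q N x = g := hx
  have hcomm : ∀ k, (dc_eps N * x) * dc_eR k = dc_eR k * (dc_eps N * x) := by
    intro k
    have h := hg k
    rw [← hx'] at h
    unfold dc_eA at h
    rw [← map_mul, ← map_mul, dc_q_eq] at h
    rw [mul_assoc, h, ← mul_assoc, dc_eps_comm (dc_eR k), mul_assoc]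
  have hz : dc_zR N * (dc_eps N * x) = -(dc_eps N * x) := by
    rw [← mul_assoc, ← dc_eps_comm (dc_zR N), dc_eps_z, neg_mul]
  have hcoef := dc_coeff_zero hN (dc_eps N * x) hcomm hz
  have hcz : (dc_eps N * x).coeff (dc_zt N) = -(dc_eps N * x).coeff 1 := by
    have c3 : (dc_zR N * (dc_eps N * x)).coeff (dc_zt N * 1) = (dc_eps N * x).coeff 1 := by
      unfold dc_zR
      rw [MonoidAlgebra.coeff_single_mul_mul, one_mul]
    rw [hz, MonoidAlgebra.coeff_neg, Finsupp.neg_apply, mul_one] at c3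
    rw [← c3, neg_neg]
  have hy2 : dc_eps N * x
      = dc_eps N * MonoidAlgebra.single 1 (-((dc_eps N * x).coeff 1)) := by
    rw [dc_eps_single]
    ext w
    rw [MonoidAlgebra.coeff_sub, Finsupp.sub_apply, MonoidAlgebra.coeff_single,
      MonoidAlgebra.coeff_single, Finsupp.single_apply, Finsupp.single_apply]
    by_cases hw : w.s = 0
    · have hv : ∀ t : ZMod 2, t = 0 ∨ t = 1 := by decide
      rcases hv w.a with ha | ha
      · have h1 : w = 1 := DcE.ext ha hw
        subst h1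
        rw [if_neg (dc_zt_ne_one N), if_pos rfl]
        ring
      · have h1 : w = dc_zt N := DcE.ext ha hw
        subst h1
        rw [if_pos rfl, if_neg (Ne.symm (dc_zt_ne_one N)), hcz]
        ring
    · have n1 : dc_zt N ≠ w := by
        intro h
        apply hw
        rw [← h]
        rfl
      have n2 : (1 : DcE N) ≠ w := by
        intro h
        apply hw
        rw [← h]
        rfl
      rw [hcoef w hw, if_neg n1, if_neg n2]
      ring
  have hq : dc_q N x = dc_q N (MonoidAlgebra.single 1 (-((dc_eps N * x).coeff 1))) :=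
    (dc_q_eq _ _).mpr hy2
  have hd : ∀ d : ZMod 3, d = 0 ∨ d = 1 ∨ d = 2 := by decide
  rcases hd (-((dc_eps N * x).coeff 1)) with h | h | h
  · exfalso
    rw [h, MonoidAlgebra.single_zero, map_zero, hx'] at hq
    have h1 : (g : DcA N) * ((g⁻¹ : (DcA N)ˣ) : DcA N) = 1 := Units.mul_inv g
    rw [hq, zero_mul] at h1
    exact dc_one_ne_zero_A N h1.symm
  · left
    apply Units.ext
    rw [← hx', hq, h, Units.val_one]
    exact map_one (dc_q N)
  · right
    apply Units.ext
    rw [← hx', hq, h, Units.val_neg, Units.val_one, ← dc_two_A N, ← map_ofNat (dc_q N) 2]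
    rfl

theorem dc_exists (n : ℕ) (hn : 4 ≤ n) :
    ∃ (Γ : Type) (_ : Group Γ) (_ : Finite Γ) (z : Γ) (_ : z ∈ Subgroup.center Γ),
      orderOf z = 2 ∧ z ∈ commutator Γ ∧ ∃ _ : (Subgroup.zpowers z).Normal,
        Nonempty (Γ ⧸ Subgroup.zpowers z ≃* alternatingGroup (Fin n)) :=
  dc_main (A := DcA (n + n)) (fun k => dc_eA k) dc_eA_sq dc_eA_anti (dc_three_A (n + n))
    (dc_center ⟨n, rfl⟩) (dc_neg_one_ne (n + n)) n hn (Fin.castAdd n)
    (Fin.castAdd_injective n n)

end

end Cfsg.Agent.Helper10
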