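import Mathlib

/-!
Helper library for S0447 (generic part): normal form in a group generated by two involutions,
and a splitting criterion for a central extension by a group of order two via the transfer.
-/

namespace Cfsg.Agent.Helper10

/-- Normal form in a group generated by two involutions. -/
theorem dh_form {G : Type*} [Group G] {s t : G} (hs : s * s = 1) (ht : t * t = 1) :
    ∀ w ∈ Subgroup.closure ({s, t} : Set G),
      ∃ k : ℤ, w = (s * t) ^ k ∨ w = (s * t) ^ k * s := by
  have hsi : s⁻¹ = s := inv_eq_of_mul_eq_one_left hs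
  have hti : t⁻¹ = t := inv_eq_of_mul_eq_one_left ht
  have hc : s * (s * t) * s⁻¹ = (s * t)⁻¹ := by
    rw [mul_inv_rev, hsi, hti, ← mul_assoc, hs, one_mul]
  have key : ∀ b : ℤ, s * (s * t) ^ b = (s * t) ^ (-b) * s := by
    intro b
    have h1 : (s * (s * t) * s⁻¹) ^ b = s * (s * t) ^ b * s⁻¹ := conj_zpow
    rw [hc, inv_zpow, ← zpow_neg] at h1
    rw [h1, hsi, mul_assoc, mul_assoc, hs, mul_one]
  intro w hw
  induction hw using Subgroup.closure_induction with
  | mem x hx =>
    rcases hx with rfl | rfl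
    · exact ⟨0, Or.inr (by rw [zpow_zero, one_mul])⟩
    · refine ⟨-1, Or.inr ?_⟩
      rw [zpow_neg, zpow_one, mul_inv_rev, hsi, hti, mul_assoc, hs, mul_one]
  | one => exact ⟨0, Or.inl (by rw [zpow_zero])⟩
  | mul x y _ _ hx hy =>
    obtain ⟨a, ha | ha⟩ := hx <;> obtain ⟨b, hb | hb⟩ := hy
    · exact ⟨a + b, Or.inl (by rw [ha, hb, zpow_add])⟩
    · exact ⟨a + b, Or.inr (by rw [ha, hb, zpow_add, mul_assoc])⟩
    · refine ⟨a + -b, Or.inr ?_⟩
      rw [ha, hb, mul_assoc, key b, zpow_add, mul_assoc]
    · refine ⟨a + -b, Or.inl ?_⟩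
      rw [ha, hb, mul_assoc, ← mul_assoc s, key b, zpow_add, mul_assoc ((s * t) ^ (-b)), hs,
        mul_one]
  | inv x _ hx =>
    obtain ⟨a, ha | ha⟩ := hx
    · exact ⟨-a, Or.inl (by rw [ha, zpow_neg])⟩
    · refine ⟨a, Or.inr ?_⟩
      rw [ha, mul_inv_rev, hsi, ← zpow_neg, key, neg_neg]

/-- The order of a group generated by two involutions whose product has order `m`. -/
theorem dh_card {G : Type*} [Group G] {s t : G} (hs : s * s = 1) (ht : t * t = 1) {m : ℕ}
    (hm : 0 < m) (hord : orderOf (s * t) = m) (hnot : s ∉ Subgroup.zpowers (s * t)) :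
    Nat.card (Subgroup.closure ({s, t} : Set G)) = 2 * m := by
  classical
  have hsub : ((Subgroup.closure ({s, t} : Set G) : Subgroup G) : Set G)
      ⊆ (fun p : Fin m × Bool => (s * t) ^ (p.1 : ℕ) * (if p.2 then s else 1)) '' Set.univ := by
    intro w hw
    obtain ⟨k, hk⟩ := dh_form hs ht w hw
    have hk0 : 0 ≤ k % (m : ℤ) := Int.emod_nonneg k (by exact_mod_cast hm.ne')
    have hk1 : k % (m : ℤ) < m := Int.emod_lt_of_pos k (by exact_mod_cast hm)
    have hkm : (s * t) ^ k = (s * t) ^ (k % (m : ℤ)).toNat := by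
      rw [← zpow_natCast, Int.toNat_of_nonneg hk0, ← hord, zpow_mod_orderOf]
    have hlt : (k % (m : ℤ)).toNat < m := by
      have := Int.toNat_of_nonneg hk0
      omega
    rcases hk with hk | hk
    · exact ⟨(⟨_, hlt⟩, false), Set.mem_univ _, by simp [hk, hkm]⟩
    · exact ⟨(⟨_, hlt⟩, true), Set.mem_univ _, by simp [hk, hkm]⟩
  have hfin : ((fun p : Fin m × Bool => (s * t) ^ (p.1 : ℕ) * (if p.2 then s else 1))
      '' Set.univ).Finite := Set.toFinite _
  have hle : Nat.card (Subgroup.closure ({s, t} : Set G)) ≤ 2 * m := by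
    calc Nat.card (Subgroup.closure ({s, t} : Set G))
        = ((Subgroup.closure ({s, t} : Set G) : Subgroup G) : Set G).ncard := rfl
      _ ≤ ((fun p : Fin m × Bool => (s * t) ^ (p.1 : ℕ) * (if p.2 then s else 1))
            '' Set.univ).ncard := Set.ncard_le_ncard hsub hfin
      _ ≤ (Set.univ : Set (Fin m × Bool)).ncard := Set.ncard_image_le (Set.toFinite _)
      _ = 2 * m := by
          rw [Set.ncard_univ, Nat.card_prod, Nat.card_eq_fintype_card, Nat.card_eq_fintype_card,
            Fintype.card_fin, Fintype.card_bool, mul_comm]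
  haveI : Finite (Subgroup.closure ({s, t} : Set G)) := by
    apply Nat.finite_of_card_ne_zero
    intro h0
    have hinf : ¬ ((Subgroup.closure ({s, t} : Set G) : Subgroup G) : Set G).Finite := by
      intro hf
      exact (Set.ncard_ne_zero_of_mem (Subgroup.one_mem _) hf) h0
    exact hinf (hfin.subset hsub)
  have hsm : s ∈ Subgroup.closure ({s, t} : Set G) := Subgroup.subset_closure (by simp)
  have htm : t ∈ Subgroup.closure ({s, t} : Set G) := Subgroup.subset_closure (by simp)
  have hzle : Subgroup.zpowers (s * t) ≤ Subgroup.closure ({s, t} : Set G) := by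
    rw [Subgroup.zpowers_le]
    exact Subgroup.mul_mem _ hsm htm
  have hdvd : m ∣ Nat.card (Subgroup.closure ({s, t} : Set G)) := by
    have := Subgroup.card_dvd_of_le hzle
    rwa [Nat.card_zpowers, hord] at this
  obtain ⟨j, hj⟩ := hdvd
  have hj1 : j ≠ 1 := by
    rintro rfl
    have heq := Subgroup.eq_of_le_of_card_ge hzle (by rw [Nat.card_zpowers, hord, hj, mul_one])
    exact hnot (heq ▸ hsm)
  have hj0 : j ≠ 0 := by
    rintro rfl
    rw [mul_zero] at hj
    exact Nat.card_pos.ne' hj
  have hj2 : 2 ≤ j := by omega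
  have : m * 2 ≤ m * j := Nat.mul_le_mul_left m hj2
  omega

/-- The two elements of a centre of order two. -/
theorem dh_center_two {H : Type*} [Group H] (hcard : Nat.card (Subgroup.center H) = 2) :
    ∃ z : H, z ∈ Subgroup.center H ∧ z ≠ 1 ∧ z * z = 1 ∧
      ∀ w ∈ Subgroup.center H, w = 1 ∨ w = z := by
  obtain ⟨y, hy1, hy2⟩ := (Nat.card_eq_two_iff' (1 : Subgroup.center H)).mp hcard
  have hall : ∀ w ∈ Subgroup.center H, w = 1 ∨ w = (y : H) := by
    intro w hw
    by_cases h : w = 1
    · exact Or.inl h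
    · right
      have := hy2 ⟨w, hw⟩ (fun h' => h (congrArg Subtype.val h'))
      exact congrArg Subtype.val this
  have hy1' : (y : H) ≠ 1 := fun h => hy1 (Subtype.ext h)
  refine ⟨y, y.2, hy1', ?_, hall⟩
  rcases hall _ (Subgroup.mul_mem _ y.2 y.2) with h | h
  · exact h
  · exfalso
    exact hy1' (by simpa using h)

/-- Lifts of conjugates of the image of an involution are involutions. -/
theorem dh_lift {H A : Type*} [Group H] [Group A] (π : H →* A) (hπ : Function.Surjective π)
    (hker : π.ker = Subgroup.center H) (hcard : Nat.card (Subgroup.center H) = 2)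
    {x : H} (hx : x * x = 1) {w : H} {c : A} (hw : π w = c * π x * c⁻¹) : w * w = 1 := by
  obtain ⟨z, hzc, hz1, hzz, hall⟩ := dh_center_two hcard
  obtain ⟨d, rfl⟩ := hπ c
  have hk : w * (d * x * d⁻¹)⁻¹ ∈ Subgroup.center H := by
    rw [← hker, MonoidHom.mem_ker, map_mul, map_inv, hw]
    simp
  have hkk : (w * (d * x * d⁻¹)⁻¹) * (w * (d * x * d⁻¹)⁻¹) = 1 := by
    rcases hall _ hk with h | h
    · rw [h, one_mul]
    · rw [h, hzz]
  have hcomm := Subgroup.mem_center_iff.mp hk
  have hdx : (d * x * d⁻¹) * (d * x * d⁻¹) = 1 := by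
    calc (d * x * d⁻¹) * (d * x * d⁻¹) = d * (x * x) * d⁻¹ := by group
      _ = 1 := by rw [hx]; group
  have hw' : w = (w * (d * x * d⁻¹)⁻¹) * (d * x * d⁻¹) := by group
  calc w * w = (w * (d * x * d⁻¹)⁻¹) * (d * x * d⁻¹) * ((w * (d * x * d⁻¹)⁻¹) * (d * x * d⁻¹)) := by
        rw [← hw']
    _ = ((w * (d * x * d⁻¹)⁻¹) * (w * (d * x * d⁻¹)⁻¹)) * ((d * x * d⁻¹) * (d * x * d⁻¹)) := by
        rw [mul_assoc, ← mul_assoc (d * x * d⁻¹), hcomm (d * x * d⁻¹)]
        group
    _ = 1 := by rw [hkk, hdx, one_mul]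

/-- Splitting criterion: if a dihedral 2-subgroup of odd index lifts to a subgroup avoiding the
centre, the centre (of order two) has a complement. -/
theorem dh_split {H A : Type*} [Group H] [Finite H] [Group A] (π : H →* A)
    (hπ : Function.Surjective π) (hker : π.ker = Subgroup.center H)
    (hcard : Nat.card (Subgroup.center H) = 2) (s t : H) (hs : s * s = 1) (ht : t * t = 1)
    (m : ℕ) (hm : (s * t) ^ m = 1) (hord : orderOf (π s * π t) = m)
    (hnot : π s ∉ Subgroup.zpowers (π s * π t))
    (hodd : Odd ((Subgroup.closure ({π s, π t} : Set A)).index)) :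
    ∃ L : Subgroup H, (Subgroup.center H).IsComplement' L := by
  classical
  obtain ⟨z, hzc, hz1, hzz, hall⟩ := dh_center_two hcard
  have hπz : π z = 1 := by
    rw [← MonoidHom.mem_ker, hker]
    exact hzc
  set N := Subgroup.closure ({s, t} : Set H) with hN
  have hzN : z ∉ N := by
    intro hz
    obtain ⟨k, hk | hk⟩ := dh_form hs ht z hz
    · have h1 := hπz
      rw [hk, map_zpow, map_mul] at h1
      have hdvd : ((orderOf (π s * π t) : ℕ) : ℤ) ∣ k := orderOf_dvd_iff_zpow_eq_one.mpr h1
      rw [hord] at hdvd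
      obtain ⟨j, rfl⟩ := hdvd
      apply hz1
      rw [hk, zpow_mul, zpow_natCast, hm, one_zpow]
    · have h1 := hπz
      rw [hk, map_mul, map_zpow, map_mul] at h1
      have h2 : π s = (π s * π t) ^ (-k) := by
        rw [zpow_neg]
        exact eq_inv_of_mul_eq_one_right h1
      have h3 : (π s * π t) ^ (-k) ∈ Subgroup.zpowers (π s * π t) :=
        Subgroup.zpow_mem_zpowers _ _
      rw [← h2] at h3
      exact hnot h3
  set T := (Subgroup.closure ({π s, π t} : Set A)).comap π with hT
  have hzT : z ∈ T := by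
    rw [hT, Subgroup.mem_comap, hπz]
    exact Subgroup.one_mem _
  have hTidx : Odd T.index := by
    rw [hT, Subgroup.index_comap_of_surjective _ hπ]
    exact hodd
  have hmap : N.map π = Subgroup.closure ({π s, π t} : Set A) := by
    rw [hN, MonoidHom.map_closure, Set.image_pair]
  set N' := N.subgroupOf T with hN'
  have hidx2 : N'.index = 2 := by
    rw [Subgroup.index_eq_two_iff]
    refine ⟨⟨z, hzT⟩, fun b => ?_⟩
    have hb : π b ∈ Subgroup.closure ({π s, π t} : Set A) := b.2
    rw [← hmap] at hb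
    obtain ⟨n, hn, hnb⟩ := hb
    have hk : (b : H) * n⁻¹ ∈ Subgroup.center H := by
      rw [← hker, MonoidHom.mem_ker, map_mul, map_inv, hnb, mul_inv_cancel]
    rcases hall _ hk with h | h
    · have hbn : (b : H) = n := mul_inv_eq_one.mp h
      refine Or.inr ⟨?_, ?_⟩
      · show (b : H) ∈ N
        rw [hbn]
        exact hn
      · intro hbz
        have h3 : (b : H) * z ∈ N := hbz
        rw [hbn] at h3
        exact hzN (by simpa using N.mul_mem (N.inv_mem hn) h3)
    · have hbn : (b : H) = z * n := mul_inv_eq_iff_eq_mul.mp h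
      refine Or.inl ⟨?_, ?_⟩
      · show (b : H) * z ∈ N
        have h4 : z * n * z = n := by
          rw [← Subgroup.mem_center_iff.mp hzc n, mul_assoc, hzz, mul_one]
        rw [hbn, h4]
        exact hn
      · intro hbN
        have h3 : (b : H) ∈ N := hbN
        rw [hbn] at h3
        exact hzN (by simpa using N.mul_mem h3 (N.inv_mem hn))
  haveI hnorm : N'.Normal := Subgroup.normal_of_index_eq_two hidx2
  haveI : Fact (Nat.Prime 2) := ⟨Nat.prime_two⟩
  have hcardQ : Nat.card (T ⧸ N') = 2 := hidx2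
  haveI : IsCyclic (T ⧸ N') := isCyclic_of_prime_card hcardQ
  letI : CommGroup (T ⧸ N') := IsCyclic.commGroup
  let ϕ : T →* T ⧸ N' := QuotientGroup.mk' N'
  let V : H →* T ⧸ N' := MonoidHom.transfer ϕ
  have hVz : V z ≠ 1 := by
    have key : ∀ (k : ℕ) (g₀ : H), g₀⁻¹ * z ^ k * g₀ ∈ T → g₀⁻¹ * z ^ k * g₀ = z ^ k := by
      intro k g₀ _
      have hzk : z ^ k ∈ Subgroup.center H := Subgroup.pow_mem _ hzc k
      rw [mul_assoc, ← Subgroup.mem_center_iff.mp hzk g₀, ← mul_assoc, inv_mul_cancel, one_mul]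
    have h1 := MonoidHom.transfer_eq_pow ϕ z key
    obtain ⟨j, hj⟩ := hTidx
    have hzpow : z ^ T.index = z := by
      rw [hj, pow_succ, pow_mul, sq, hzz, one_pow, one_mul]
    intro h0
    have h0' : MonoidHom.transfer ϕ z = 1 := h0
    rw [h1] at h0'
    have h2 : (⟨z ^ T.index, MonoidHom.transfer_eq_pow_aux z key⟩ : T) ∈ N' :=
      (QuotientGroup.eq_one_iff _).mp h0'
    have h3 : z ^ T.index ∈ N := h2
    rw [hzpow] at h3
    exact hzN h3
  refine ⟨V.ker, ?_⟩
  apply Subgroup.isComplement'_of_card_mul_and_disjoint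
  · have hi : V.ker.index = 2 := by
      rw [Subgroup.index_ker]
      have hle : Nat.card V.range ≤ 2 := by
        have := Subgroup.card_le_card_group V.range
        rwa [hcardQ] at this
      have hne : Nat.card V.range ≠ 1 := by
        intro h
        have hb : V.range = ⊥ := Subgroup.card_eq_one.mp h
        have hmem : V z ∈ V.range := ⟨z, rfl⟩
        rw [hb, Subgroup.mem_bot] at hmem
        exact hVz hmem
      have hpos : 0 < Nat.card V.range := Nat.card_pos
      omega
    have := Subgroup.card_mul_index V.ker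
    rw [hi] at this
    rw [hcard]
    omega
  · rw [Subgroup.disjoint_def]
    intro w hw1 hw2
    rcases hall w hw1 with h | h
    · exact h
    · exfalso
      rw [h] at hw2
      exact hVz (MonoidHom.mem_ker.mp hw2)

end Cfsg.Agent.Helper10
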