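import Mathlib
import Cfsg.Prelude
import Cfsg.Agent.Helper10.DCover3

/-!
Helper library for S0447, alternating-group part: explicit dihedral 2-subgroups of `A_n`
(`4 ≤ n ≤ 7`) and the uniqueness of the involution in a non-split double cover.
-/

namespace Cfsg.Agent.Helper10

open Equiv

theorem dh_even2 {n : ℕ} {a b c d : Fin n} (hab : a ≠ b) (hcd : c ≠ d) :
    swap a b * swap c d ∈ alternatingGroup (Fin n) := by
  rw [Equiv.Perm.mem_alternatingGroup, Equiv.Perm.sign_mul, Equiv.Perm.sign_swap hab,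
    Equiv.Perm.sign_swap hcd]
  decide

theorem dh_odd_index {A : Type*} [Group A] [Finite A] {s t : A} (hs : s * s = 1)
    (ht : t * t = 1) {m : ℕ} (hm : 0 < m) (hord : orderOf (s * t) = m)
    (hnot : s ∉ Subgroup.zpowers (s * t)) (q : ℕ) (hq : Nat.card A = 2 * m * q)
    (hqodd : Odd q) : Odd ((Subgroup.closure ({s, t} : Set A)).index) := by
  have h1 := dh_card hs ht hm hord hnot
  have h2 := Subgroup.index_mul_card (Subgroup.closure ({s, t} : Set A))
  rw [h1, hq] at h2
  have h3 : (Subgroup.closure ({s, t} : Set A)).index = q := by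
    have hpos : 0 < 2 * m := by omega
    exact Nat.eq_of_mul_eq_mul_right hpos (by rw [h2, mul_comm])
  rw [h3]
  exact hqodd

/-- The data needed for the splitting argument in `A_n`. -/
def DhData (n : ℕ) : Prop :=
  ∃ (u s t : alternatingGroup (Fin n)) (m : ℕ),
    (u : Equiv.Perm (Fin n)).cycleType = {2, 2} ∧
    (∃ c : alternatingGroup (Fin n), s = c * u * c⁻¹) ∧
    (∃ c : alternatingGroup (Fin n), t = c * u * c⁻¹) ∧
    ((m = 2 ∧ ∃ c : alternatingGroup (Fin n), s * t = c * u * c⁻¹) ∨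
      (m = 4 ∧ ∃ c : alternatingGroup (Fin n), (s * t) ^ 2 = c * u * c⁻¹)) ∧
    orderOf (s * t) = m ∧ s ∉ Subgroup.zpowers (s * t) ∧
    Odd ((Subgroup.closure ({s, t} : Set (alternatingGroup (Fin n)))).index)

def dh_u4 : alternatingGroup (Fin 4) := ⟨swap 0 1 * swap 2 3, dh_even2 (by decide) (by decide)⟩
def dh_t4 : alternatingGroup (Fin 4) := ⟨swap 0 2 * swap 1 3, dh_even2 (by decide) (by decide)⟩
def dh_ct4 : alternatingGroup (Fin 4) := ⟨swap 1 2 * swap 2 3, dh_even2 (by decide) (by decide)⟩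
def dh_cst4 : alternatingGroup (Fin 4) := ⟨swap 1 3 * swap 3 2, dh_even2 (by decide) (by decide)⟩

theorem dh_data4 : DhData 4 := by
  have hord : orderOf (dh_u4 * dh_t4) = 2 := orderOf_eq_prime (by decide) (by decide)
  have hnot : dh_u4 ∉ Subgroup.zpowers (dh_u4 * dh_t4) := by
    rw [mem_zpowers_iff_mem_range_orderOf, hord]
    decide
  have hcard : Nat.card (alternatingGroup (Fin 4)) = 2 * 2 * 3 := by
    have h := two_mul_nat_card_alternatingGroup (α := Fin 4)
    rw [Nat.card_perm, Nat.card_fin] at h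
    have hf : Nat.factorial 4 = 24 := by decide
    omega
  have hidx := dh_odd_index (s := dh_u4) (t := dh_t4) (by decide) (by decide) (by norm_num)
    hord hnot 3 hcard (by decide)
  exact ⟨dh_u4, dh_u4, dh_t4, 2, Equiv.Perm.cycleType_swap_mul_swap_of_nodup (by decide),
    ⟨1, by decide⟩, ⟨dh_ct4, by decide⟩, Or.inl ⟨rfl, ⟨dh_cst4, by decide⟩⟩, hord, hnot, hidx⟩

def dh_u5 : alternatingGroup (Fin 5) := ⟨swap 0 1 * swap 2 3, dh_even2 (by decide) (by decide)⟩
def dh_t5 : alternatingGroup (Fin 5) := ⟨swap 0 2 * swap 1 3, dh_even2 (by decide) (by decide)⟩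
def dh_ct5 : alternatingGroup (Fin 5) := ⟨swap 1 2 * swap 2 3, dh_even2 (by decide) (by decide)⟩
def dh_cst5 : alternatingGroup (Fin 5) := ⟨swap 1 3 * swap 3 2, dh_even2 (by decide) (by decide)⟩

theorem dh_data5 : DhData 5 := by
  have hord : orderOf (dh_u5 * dh_t5) = 2 := orderOf_eq_prime (by decide) (by decide)
  have hnot : dh_u5 ∉ Subgroup.zpowers (dh_u5 * dh_t5) := by
    rw [mem_zpowers_iff_mem_range_orderOf, hord]
    decide
  have hcard : Nat.card (alternatingGroup (Fin 5)) = 2 * 2 * 15 := by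
    have h := two_mul_nat_card_alternatingGroup (α := Fin 5)
    rw [Nat.card_perm, Nat.card_fin] at h
    have hf : Nat.factorial 5 = 120 := by decide
    omega
  have hidx := dh_odd_index (s := dh_u5) (t := dh_t5) (by decide) (by decide) (by norm_num)
    hord hnot 15 hcard (by decide)
  exact ⟨dh_u5, dh_u5, dh_t5, 2, Equiv.Perm.cycleType_swap_mul_swap_of_nodup (by decide),
    ⟨1, by decide⟩, ⟨dh_ct5, by decide⟩, Or.inl ⟨rfl, ⟨dh_cst5, by decide⟩⟩, hord, hnot, hidx⟩

def dh_u6 : alternatingGroup (Fin 6) := ⟨swap 0 1 * swap 2 3, dh_even2 (by decide) (by decide)⟩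
def dh_s6 : alternatingGroup (Fin 6) := ⟨swap 0 2 * swap 4 5, dh_even2 (by decide) (by decide)⟩
def dh_cs6 : alternatingGroup (Fin 6) :=
  ⟨swap 1 2 * swap 2 4, dh_even2 (by decide) (by decide)⟩ *
    ⟨swap 4 3 * swap 3 5, dh_even2 (by decide) (by decide)⟩
def dh_c26 : alternatingGroup (Fin 6) := ⟨swap 1 2 * swap 4 5, dh_even2 (by decide) (by decide)⟩

theorem dh_data6 : DhData 6 := by
  have hord : orderOf (dh_s6 * dh_u6) = 4 :=
    orderOf_eq_prime_pow (p := 2) (n := 1) (by decide) (by decide)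
  have hnot : dh_s6 ∉ Subgroup.zpowers (dh_s6 * dh_u6) := by
    rw [mem_zpowers_iff_mem_range_orderOf, hord]
    decide
  have hcard : Nat.card (alternatingGroup (Fin 6)) = 2 * 4 * 45 := by
    have h := two_mul_nat_card_alternatingGroup (α := Fin 6)
    rw [Nat.card_perm, Nat.card_fin] at h
    have hf : Nat.factorial 6 = 720 := by decide
    omega
  have hidx := dh_odd_index (s := dh_s6) (t := dh_u6) (by decide) (by decide) (by norm_num)
    hord hnot 45 hcard (by decide)
  exact ⟨dh_u6, dh_s6, dh_u6, 4, Equiv.Perm.cycleType_swap_mul_swap_of_nodup (by decide),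
    ⟨dh_cs6, by decide⟩, ⟨1, by decide⟩, Or.inr ⟨rfl, ⟨dh_c26, by decide⟩⟩, hord, hnot, hidx⟩

def dh_u7 : alternatingGroup (Fin 7) := ⟨swap 0 1 * swap 2 3, dh_even2 (by decide) (by decide)⟩
def dh_s7 : alternatingGroup (Fin 7) := ⟨swap 0 2 * swap 4 5, dh_even2 (by decide) (by decide)⟩
def dh_cs7 : alternatingGroup (Fin 7) :=
  ⟨swap 1 2 * swap 2 4, dh_even2 (by decide) (by decide)⟩ *
    ⟨swap 3 5 * swap 5 6, dh_even2 (by decide) (by decide)⟩
def dh_c27 : alternatingGroup (Fin 7) := ⟨swap 1 2 * swap 5 6, dh_even2 (by decide) (by decide)⟩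

theorem dh_data7 : DhData 7 := by
  have hord : orderOf (dh_s7 * dh_u7) = 4 :=
    orderOf_eq_prime_pow (p := 2) (n := 1) (by decide) (by decide)
  have hnot : dh_s7 ∉ Subgroup.zpowers (dh_s7 * dh_u7) := by
    rw [mem_zpowers_iff_mem_range_orderOf, hord]
    decide
  have hcard : Nat.card (alternatingGroup (Fin 7)) = 2 * 4 * 315 := by
    have h := two_mul_nat_card_alternatingGroup (α := Fin 7)
    rw [Nat.card_perm, Nat.card_fin] at h
    have hf : Nat.factorial 7 = 5040 := by decide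
    omega
  have hidx := dh_odd_index (s := dh_s7) (t := dh_u7) (by decide) (by decide) (by norm_num)
    hord hnot 315 hcard (by decide)
  exact ⟨dh_u7, dh_s7, dh_u7, 4, Equiv.Perm.cycleType_swap_mul_swap_of_nodup (by decide),
    ⟨dh_cs7, by decide⟩, ⟨1, by decide⟩, Or.inr ⟨rfl, ⟨dh_c27, by decide⟩⟩, hord, hnot, hidx⟩

theorem dh_data (n : ℕ) (h4 : 4 ≤ n) (h7 : n ≤ 7) : DhData n := by
  interval_cases n
  · exact dh_data4
  · exact dh_data5
  · exact dh_data6
  · exact dh_data7

/-- An involution of `A_n`, `n ≤ 7`, has cycle type `2, 2` (and so `4 ≤ n`). -/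
theorem dh_invol_type (n : ℕ) (h7 : n ≤ 7) (σ : Equiv.Perm (Fin n))
    (hσ : σ ∈ alternatingGroup (Fin n)) (h1 : σ ≠ 1) (h2 : σ * σ = 1) :
    σ.cycleType = {2, 2} ∧ 4 ≤ n := by
  have hord : orderOf σ = 2 := orderOf_eq_prime (by rw [sq]; exact h2) h1
  obtain ⟨k, hk⟩ := Equiv.Perm.cycleType_prime_order (σ := σ) (by rw [hord]; exact Nat.prime_two)
  rw [hord] at hk
  have hsum := Equiv.Perm.sum_cycleType_le σ
  rw [hk, Multiset.sum_replicate, Fintype.card_fin, smul_eq_mul] at hsum
  have hsign := Equiv.Perm.sign_of_cycleType σ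
  rw [Equiv.Perm.mem_alternatingGroup.mp hσ, hk, Multiset.sum_replicate, Multiset.card_replicate,
    smul_eq_mul] at hsign
  have hk2 : k ≤ 2 := by omega
  interval_cases k
  · exact absurd hsign (by decide)
  · refine ⟨by rw [hk]; rfl, by omega⟩
  · exact absurd hsign (by decide)

/-- In a double cover of `A_n` (`n ≤ 7`) with a non-central involution, the centre has a
complement. -/
theorem dh_complement (n : ℕ) (h7 : n ≤ 7) (H : Type) [Group H] [Finite H]
    (hcard : Nat.card (Subgroup.center H) = 2)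
    (e : H ⧸ Subgroup.center H ≃* alternatingGroup (Fin n)) (x : H) (hx : x * x = 1)
    (hxc : x ∉ Subgroup.center H) :
    ∃ L : Subgroup H, (Subgroup.center H).IsComplement' L := by
  classical
  let π₀ : H →* alternatingGroup (Fin n) :=
    e.toMonoidHom.comp (QuotientGroup.mk' (Subgroup.center H))
  have hπ₀ : Function.Surjective π₀ :=
    e.surjective.comp (QuotientGroup.mk'_surjective _)
  have hker₀ : π₀.ker = Subgroup.center H := by
    ext w
    rw [MonoidHom.mem_ker]
    show e (QuotientGroup.mk' (Subgroup.center H) w) = 1 ↔ _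
    rw [map_eq_one_iff e e.injective]
    exact QuotientGroup.eq_one_iff w
  have hσ1 : (π₀ x : Equiv.Perm (Fin n)) ≠ 1 := by
    intro h
    apply hxc
    rw [← hker₀, MonoidHom.mem_ker]
    exact Subtype.ext h
  have hσ2 : (π₀ x : Equiv.Perm (Fin n)) * (π₀ x : Equiv.Perm (Fin n)) = 1 := by
    have : π₀ x * π₀ x = 1 := by rw [← map_mul, hx, map_one]
    exact congrArg Subtype.val this
  obtain ⟨hct, h4⟩ := dh_invol_type n h7 _ (π₀ x).2 hσ1 hσ2
  obtain ⟨u, sb, tb, m, hu, ⟨cs, hcs⟩, ⟨ct, hct'⟩, hm, hord, hnot, hodd⟩ := dh_data n h4 h7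
  have hconj : IsConj (π₀ x : Equiv.Perm (Fin n)) (u : Equiv.Perm (Fin n)) := by
    rw [Equiv.Perm.isConj_iff_cycleType_eq, hct, hu]
  obtain ⟨τ, hτ⟩ := isConj_iff.mp hconj
  let π : H →* alternatingGroup (Fin n) :=
    (MulAut.conjNormal τ : alternatingGroup (Fin n) ≃* alternatingGroup (Fin n)).toMonoidHom.comp π₀
  have hπ : Function.Surjective π :=
    (MulAut.conjNormal τ : alternatingGroup (Fin n) ≃* alternatingGroup (Fin n)).surjective.comp
      hπ₀
  have hker : π.ker = Subgroup.center H := by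
    rw [← hker₀]
    ext w
    rw [MonoidHom.mem_ker, MonoidHom.mem_ker]
    show (MulAut.conjNormal τ : alternatingGroup (Fin n) ≃* alternatingGroup (Fin n)) (π₀ w) = 1
      ↔ _
    exact map_eq_one_iff _
      (MulAut.conjNormal τ : alternatingGroup (Fin n) ≃* alternatingGroup (Fin n)).injective
  have hπx : π x = u := by
    apply Subtype.ext
    show ((MulAut.conjNormal τ : alternatingGroup (Fin n) ≃* alternatingGroup (Fin n)) (π₀ x)
      : Equiv.Perm (Fin n)) = u
    rw [MulAut.conjNormal_apply]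
    exact hτ
  obtain ⟨s, hs⟩ := hπ sb
  obtain ⟨t, ht⟩ := hπ tb
  have hs2 : s * s = 1 := dh_lift π hπ hker hcard hx (c := cs) (by rw [hs, hπx]; exact hcs)
  have ht2 : t * t = 1 := dh_lift π hπ hker hcard hx (c := ct) (by rw [ht, hπx]; exact hct')
  have hm' : (s * t) ^ m = 1 := by
    rcases hm with ⟨rfl, c, hc⟩ | ⟨rfl, c, hc⟩
    · have h := dh_lift π hπ hker hcard hx (w := s * t) (c := c)
        (by rw [map_mul, hs, ht, hπx]; exact hc)
      rw [sq]
      exact h
    · have h := dh_lift π hπ hker hcard hx (w := (s * t) ^ 2) (c := c)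
        (by rw [map_pow, map_mul, hs, ht, hπx]; exact hc)
      rw [show (4 : ℕ) = 2 + 2 from rfl, pow_add]
      exact h
  exact dh_split π hπ hker hcard s t hs2 ht2 m hm' (by rw [hs, ht]; exact hord)
    (by rw [hs, ht]; exact hnot) (by rw [hs, ht]; exact hodd)

/-- Part one of S0447. -/
theorem dh_part_one (n : ℕ) (H : Type) [Group H] [Finite H] (h7 : n ≤ 7)
    (hH : Cfsg.IsNonsplitDoubleCover H (alternatingGroup (Fin n))) (x y : H)
    (hx : orderOf x = 2) (hy : orderOf y = 2) : x = y := by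
  obtain ⟨hcard, ⟨e⟩, hno⟩ := hH
  obtain ⟨z, hzc, hz1, hzz, hall⟩ := dh_center_two hcard
  have key : ∀ w : H, orderOf w = 2 → w = z := by
    intro w hw
    have hw2 : w * w = 1 := by
      rw [← sq, ← hw]
      exact pow_orderOf_eq_one w
    have hw1 : w ≠ 1 := by
      rintro rfl
      rw [orderOf_one] at hw
      exact absurd hw (by decide)
    by_cases hwc : w ∈ Subgroup.center H
    · exact (hall w hwc).resolve_left hw1
    · exfalso
      obtain ⟨L, hL⟩ := dh_complement n h7 H hcard e w hw2 hwc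
      exact hno L hL
  rw [key x hx, key y hy]

end Cfsg.Agent.Helper10
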