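import Mathlib
import Cfsg.Prelude
import Cfsg.Agent.Helper10.DCover2
import Cfsg.Agent.Helper10.DCover4

/-!
Helper library for S0447, part two: the double cover of `A_8` from the Clifford-type model is
non-split and has a non-central involution.
-/

namespace Cfsg.Agent.Helper10

section DCStrong

variable {A : Type} [Ring A] {N : ℕ} (e : Fin N → A) {n : ℕ} (c : Fin n → Fin N)

/-- The central involution of the graph subgroup. -/
def dc_z : dc_Gam e c := ⟨(-1, 1), dc_rel_neg_one e c⟩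

/-- The projection of the graph subgroup onto the alternating group. -/
def dc_f : dc_Gam e c →* alternatingGroup (Fin n) :=
  (MonoidHom.snd _ _).comp (dc_Gam e c).subtype

theorem dc_f_surj (h1 : ∀ k, e k * e k = 1) (h2 : ∀ k l, k ≠ l → e k * e l = -(e l * e k))
    (h3 : (3 : A) = 0) (hc : Function.Injective c) : Function.Surjective (dc_f e c) := by
  intro π
  obtain ⟨g, hg⟩ := dc_rel_surj e h1 h2 h3 c hc π.1 (Equiv.Perm.mem_alternatingGroup.mp π.2)
  exact ⟨⟨(g, π), hg⟩, rfl⟩

theorem dc_z_center : dc_z e c ∈ Subgroup.center (dc_Gam e c) := by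
  rw [Subgroup.mem_center_iff]
  intro p
  apply Subtype.ext
  apply Prod.ext
  · show p.1.1 * (-1) = (-1) * p.1.1
    rw [mul_neg, neg_mul, mul_one, one_mul]
  · show p.1.2 * 1 = 1 * p.1.2
    rw [mul_one, one_mul]

theorem dc_z_order (h6 : (-1 : Aˣ) ≠ 1) : orderOf (dc_z e c) = 2 := by
  have hz1 : dc_z e c ≠ 1 := by
    intro h
    have := congrArg (fun p : dc_Gam e c => p.1.1) h
    exact h6 this
  have hz2 : dc_z e c ^ 2 = 1 := by
    apply Subtype.ext
    apply Prod.ext
    · show ((-1 : Aˣ)) ^ 2 = 1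
      simp
    · show (1 : alternatingGroup (Fin n)) ^ 2 = 1
      simp
  exact orderOf_eq_prime hz2 hz1

theorem dc_f_ker (h4 : ∀ g : Aˣ, (∀ k, (g : A) * e k = e k * g) → g = 1 ∨ g = -1) :
    (dc_f e c).ker = Subgroup.zpowers (dc_z e c) := by
  apply le_antisymm
  · intro p hp
    rw [MonoidHom.mem_ker] at hp
    have hp2 : p.1.2 = 1 := hp
    have hrel : dc_rel e c p.1.1 1 := by
      have h' : dc_rel e c p.1.1 p.1.2.1 := p.2
      rw [hp2] at h'
      exact h'
    have hcomm : ∀ k, (p.1.1 : A) * e k = e k * p.1.1 := by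
      intro k
      by_cases hk : k ∈ Set.range c
      · obtain ⟨i, rfl⟩ := hk
        have := hrel.1 i
        simpa using this
      · exact hrel.2 k hk
    rcases h4 p.1.1 hcomm with h | h
    · have : p = 1 := by
        apply Subtype.ext
        apply Prod.ext
        · exact h
        · exact hp2
      rw [this]
      exact Subgroup.one_mem _
    · have : p = dc_z e c := by
        apply Subtype.ext
        apply Prod.ext
        · exact h
        · exact hp2
      rw [this]
      exact Subgroup.mem_zpowers _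
  · rw [Subgroup.zpowers_le, MonoidHom.mem_ker]
    rfl

theorem dc_z_comm (h1 : ∀ k, e k * e k = 1) (h2 : ∀ k l, k ≠ l → e k * e l = -(e l * e k))
    (h3 : (3 : A) = 0) (hc : Function.Injective c) (hn : 4 ≤ n) :
    dc_z e c ∈ commutator (dc_Gam e c) := by
  classical
  let i0 : Fin n := ⟨0, by omega⟩
  let i1 : Fin n := ⟨1, by omega⟩
  let i2 : Fin n := ⟨2, by omega⟩
  let i3 : Fin n := ⟨3, by omega⟩
  have h01 : i0 ≠ i1 := by simp [i0, i1, Fin.ext_iff]
  have h02 : i0 ≠ i2 := by simp [i0, i2, Fin.ext_iff]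
  have h03 : i0 ≠ i3 := by simp [i0, i3, Fin.ext_iff]
  have h12 : i1 ≠ i2 := by simp [i1, i2, Fin.ext_iff]
  have h13 : i1 ≠ i3 := by simp [i1, i3, Fin.ext_iff]
  have h23 : i2 ≠ i3 := by simp [i2, i3, Fin.ext_iff]
  have hσ : Equiv.swap i0 i1 * Equiv.swap i2 i3 ∈ alternatingGroup (Fin n) := dh_even2 h01 h23
  have hρ : Equiv.swap i0 i2 * Equiv.swap i1 i3 ∈ alternatingGroup (Fin n) := dh_even2 h02 h13
  let a : dc_Gam e c := ⟨(dc_tu e h1 h2 h3 (hc.ne h01) * dc_tu e h1 h2 h3 (hc.ne h23),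
    ⟨_, hσ⟩), dc_rel_swap_swap e h1 h2 h3 c hc h01 h23⟩
  let b : dc_Gam e c := ⟨(dc_tu e h1 h2 h3 (hc.ne h02) * dc_tu e h1 h2 h3 (hc.ne h13),
    ⟨_, hρ⟩), dc_rel_swap_swap e h1 h2 h3 c hc h02 h13⟩
  have hab : a * b = dc_z e c * (b * a) := by
    apply Subtype.ext
    apply Prod.ext
    · exact dc_anticomm e h1 h2 h3 c hc h01 h02 h03 h12 h13 h23
    · apply Subtype.ext
      show Equiv.swap i0 i1 * Equiv.swap i2 i3 * (Equiv.swap i0 i2 * Equiv.swap i1 i3)
        = 1 * (Equiv.swap i0 i2 * Equiv.swap i1 i3 * (Equiv.swap i0 i1 * Equiv.swap i2 i3))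
      rw [one_mul]
      exact dc_v4_comm h01 h02 h03 h12 h13 h23
  have hz : dc_z e c = a * b * a⁻¹ * b⁻¹ := by
    rw [hab]
    group
  rw [hz, commutator_def]
  exact Subgroup.commutator_mem_commutator (Subgroup.mem_top a) (Subgroup.mem_top b)

theorem dc_t_orth (h2 : ∀ k l, k ≠ l → e k * e l = -(e l * e k)) {k l k' l' : Fin N}
    (hkk : k ≠ k') (hkl : k ≠ l') (hlk : l ≠ k') (hll : l ≠ l') :
    dc_t e k l * dc_t e k' l' = -(dc_t e k' l' * dc_t e k l) := by
  unfold dc_t
  rw [sub_mul, mul_sub, mul_sub, sub_mul, mul_sub, mul_sub, h2 k k' hkk, h2 k l' hkl,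
    h2 l k' hlk, h2 l l' hll]
  abel

theorem dc_sq_prod {x y : A} (hyx : y * x = -(x * y)) (hx : x * x = -1) (hy : y * y = -1) :
    (x * y) * (x * y) = -1 := by
  calc (x * y) * (x * y) = x * (y * x) * y := by simp only [mul_assoc]
    _ = -((x * x) * (y * y)) := by rw [hyx]; simp only [mul_neg, neg_mul, mul_assoc]
    _ = -1 := by rw [hx, hy]; simp

theorem dc_comm_prod {a x y : A} (hx : a * x = -(x * a)) (hy : a * y = -(y * a)) :
    a * (x * y) = (x * y) * a := by
  calc a * (x * y) = (a * x) * y := by rw [mul_assoc]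
    _ = -(x * (a * y)) := by rw [hx, neg_mul, mul_assoc]
    _ = (x * y) * a := by rw [hy, mul_neg, neg_neg, mul_assoc]

theorem dc_four_sq {a b x y : A} (hba : b * a = -(a * b)) (hyx : y * x = -(x * y))
    (hax : a * x = -(x * a)) (hay : a * y = -(y * a)) (hbx : b * x = -(x * b))
    (hby : b * y = -(y * b)) (ha : a * a = -1) (hb : b * b = -1) (hx : x * x = -1)
    (hy : y * y = -1) : (a * b) * (x * y) * ((a * b) * (x * y)) = 1 := by
  have hPQ : (a * b) * (x * y) = (x * y) * (a * b) := by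
    rw [mul_assoc, dc_comm_prod hbx hby, ← mul_assoc, dc_comm_prod hax hay, mul_assoc]
  calc (a * b) * (x * y) * ((a * b) * (x * y))
      = (a * b) * ((x * y) * (a * b)) * (x * y) := by simp only [mul_assoc]
    _ = ((a * b) * (a * b)) * ((x * y) * (x * y)) := by rw [← hPQ]; simp only [mul_assoc]
    _ = 1 := by rw [dc_sq_prod hba ha hb, dc_sq_prod hyx hx hy]; simp

end DCStrong

/-- Part two of S0447. -/
theorem dh_part_two : ∃ (H : Type) (_ : Group H) (_ : Finite H),
    Cfsg.IsNonsplitDoubleCover H (alternatingGroup (Fin 8)) ∧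
      ∃ x y : H, x ≠ y ∧ orderOf x = 2 ∧ orderOf y = 2 := by
  classical
  have h1 : ∀ k : Fin 16, dc_eA k * dc_eA k = 1 := dc_eA_sq
  have h2 : ∀ k l : Fin 16, k ≠ l → dc_eA k * dc_eA l = -(dc_eA l * dc_eA k) := dc_eA_anti
  have h3 := dc_three_A 16
  have h4 : ∀ g : (DcA 16)ˣ, (∀ k : Fin 16, (g : DcA 16) * dc_eA k = dc_eA k * (g : DcA 16)) →
      g = 1 ∨ g = -1 := dc_center ⟨8, rfl⟩
  have h6 := dc_neg_one_ne 16
  have hc : Function.Injective (Fin.castAdd 8 : Fin 8 → Fin 16) := Fin.castAdd_injective 8 8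
  let e : Fin 16 → DcA 16 := fun k => dc_eA k
  let c : Fin 8 → Fin 16 := Fin.castAdd 8
  have hsurj : Function.Surjective (dc_f e c) := dc_f_surj e c h1 h2 h3 hc
  have hzc := dc_z_center e c
  have hord : orderOf (dc_z e c) = 2 := dc_z_order e c h6
  have hker : (dc_f e c).ker = Subgroup.zpowers (dc_z e c) := dc_f_ker e c h4
  have hcomm : dc_z e c ∈ commutator (dc_Gam e c) := dc_z_comm e c h1 h2 h3 hc (by norm_num)
  have hcenter : Subgroup.center (dc_Gam e c) = Subgroup.zpowers (dc_z e c) := by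
    apply le_antisymm
    · intro w hw
      rw [← hker, MonoidHom.mem_ker]
      have hfw : dc_f e c w ∈ Subgroup.center (alternatingGroup (Fin 8)) := by
        rw [Subgroup.mem_center_iff]
        intro a
        obtain ⟨v, rfl⟩ := hsurj a
        rw [← map_mul, ← map_mul, Subgroup.mem_center_iff.mp hw v]
      rw [alternatingGroup.center_eq_bot (by simp), Subgroup.mem_bot] at hfw
      exact hfw
    · rw [Subgroup.zpowers_le]
      exact hzc
  haveI hfin : Finite (dc_Gam e c) := by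
    haveI : Finite (Subgroup.zpowers (dc_z e c)) :=
      Nat.finite_of_card_ne_zero (by rw [Nat.card_zpowers, hord]; norm_num)
    haveI hn : (Subgroup.zpowers (dc_z e c)).Normal :=
      hker ▸ (inferInstance : (dc_f e c).ker.Normal)
    have iso : dc_Gam e c ⧸ Subgroup.zpowers (dc_z e c) ≃* alternatingGroup (Fin 8) :=
      (QuotientGroup.quotientMulEquivOfEq hker.symm).trans
        (QuotientGroup.quotientKerEquivOfSurjective (dc_f e c) hsurj)
    haveI : Finite (dc_Gam e c ⧸ Subgroup.zpowers (dc_z e c)) :=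
      Finite.of_equiv _ iso.symm.toEquiv
    exact Finite.of_subgroup_quotient (Subgroup.zpowers (dc_z e c))
  have hcard : Nat.card (Subgroup.center (dc_Gam e c)) = 2 := by
    rw [hcenter, Nat.card_zpowers, hord]
  have iso : dc_Gam e c ⧸ Subgroup.center (dc_Gam e c) ≃* alternatingGroup (Fin 8) :=
    (QuotientGroup.quotientMulEquivOfEq (hcenter.trans hker.symm)).trans
      (QuotientGroup.quotientKerEquivOfSurjective (dc_f e c) hsurj)
  have hz1 : dc_z e c ≠ 1 := by
    intro h
    rw [h, orderOf_one] at hord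
    exact absurd hord (by decide)
  have hno : ∀ L : Subgroup (dc_Gam e c), ¬ (Subgroup.center (dc_Gam e c)).IsComplement' L := by
    intro L hL
    have hmul := hL.card_mul_card
    rw [hcard] at hmul
    have hidx : L.index = 2 := by
      have h5 := Subgroup.card_mul_index L
      have hpos : 0 < Nat.card L := Nat.card_pos
      have h7 : Nat.card L * L.index = Nat.card L * 2 := by rw [h5, ← hmul, mul_comm]
      exact Nat.eq_of_mul_eq_mul_left hpos h7
    have hle : commutator (dc_Gam e c) ≤ L := by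
      rw [commutator_def, Subgroup.commutator_le]
      intro a _ b _
      rw [commutatorElement_def, mul_assoc, Subgroup.mul_mem_iff_of_index_two hidx,
        Subgroup.mul_mem_iff_of_index_two hidx, Subgroup.mul_mem_iff_of_index_two hidx,
        inv_mem_iff, inv_mem_iff]
    exact hz1 (Subgroup.disjoint_def.mp hL.disjoint hzc (hle hcomm))
  -- the second involution
  have h01 : (0 : Fin 8) ≠ 1 := by decide
  have h23 : (2 : Fin 8) ≠ 3 := by decide
  have h45 : (4 : Fin 8) ≠ 5 := by decide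
  have h67 : (6 : Fin 8) ≠ 7 := by decide
  let a₁ : dc_Gam e c := ⟨(dc_tu e h1 h2 h3 (hc.ne h01) * dc_tu e h1 h2 h3 (hc.ne h23),
    ⟨_, dh_even2 h01 h23⟩), dc_rel_swap_swap e h1 h2 h3 c hc h01 h23⟩
  let a₂ : dc_Gam e c := ⟨(dc_tu e h1 h2 h3 (hc.ne h45) * dc_tu e h1 h2 h3 (hc.ne h67),
    ⟨_, dh_even2 h45 h67⟩), dc_rel_swap_swap e h1 h2 h3 c hc h45 h67⟩
  have hne : ∀ {i j : Fin 8}, i ≠ j → c i ≠ c j := fun h => hc.ne h
  have hg2 : (a₁ * a₂) * (a₁ * a₂) = 1 := by
    apply Subtype.ext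
    apply Prod.ext
    · apply Units.ext
      show (dc_t e (c 0) (c 1) * dc_t e (c 2) (c 3)) * (dc_t e (c 4) (c 5) * dc_t e (c 6) (c 7))
        * ((dc_t e (c 0) (c 1) * dc_t e (c 2) (c 3))
          * (dc_t e (c 4) (c 5) * dc_t e (c 6) (c 7))) = 1
      exact dc_four_sq
        (dc_t_orth e h2 (hne (by decide)) (hne (by decide)) (hne (by decide)) (hne (by decide)))
        (dc_t_orth e h2 (hne (by decide)) (hne (by decide)) (hne (by decide)) (hne (by decide)))
        (dc_t_orth e h2 (hne (by decide)) (hne (by decide)) (hne (by decide)) (hne (by decide)))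
        (dc_t_orth e h2 (hne (by decide)) (hne (by decide)) (hne (by decide)) (hne (by decide)))
        (dc_t_orth e h2 (hne (by decide)) (hne (by decide)) (hne (by decide)) (hne (by decide)))
        (dc_t_orth e h2 (hne (by decide)) (hne (by decide)) (hne (by decide)) (hne (by decide)))
        (dc_t_sq e h1 h2 h3 (hne h01)) (dc_t_sq e h1 h2 h3 (hne h23))
        (dc_t_sq e h1 h2 h3 (hne h45)) (dc_t_sq e h1 h2 h3 (hne h67))
    · apply Subtype.ext
      show Equiv.swap (0 : Fin 8) 1 * Equiv.swap 2 3 * (Equiv.swap 4 5 * Equiv.swap 6 7)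
        * (Equiv.swap (0 : Fin 8) 1 * Equiv.swap 2 3 * (Equiv.swap 4 5 * Equiv.swap 6 7)) = 1
      decide
  have hgf : dc_f e c (a₁ * a₂) ≠ 1 := by
    intro h
    have h' : (Equiv.swap (0 : Fin 8) 1 * Equiv.swap 2 3 * (Equiv.swap 4 5 * Equiv.swap 6 7))
        = 1 := congrArg Subtype.val h
    revert h'
    decide
  have hg1 : a₁ * a₂ ≠ 1 := by
    intro h
    rw [h, map_one] at hgf
    exact hgf rfl
  have hgz : dc_z e c ≠ a₁ * a₂ := by
    intro h
    apply hgf
    rw [← h]
    rfl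
  have hgord : orderOf (a₁ * a₂) = 2 := orderOf_eq_prime (by rw [sq]; exact hg2) hg1
  exact ⟨dc_Gam e c, inferInstance, hfin, ⟨hcard, ⟨iso⟩, hno⟩, dc_z e c, a₁ * a₂, hgz, hord,
    hgord⟩

end Cfsg.Agent.Helper10
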