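import Mathlib
import Cfsg.Agent.Helper10.Layer
import Cfsg.Agent.Helper10.CopGen2
import Cfsg.Agent.Helper1.Special
import Cfsg.Agent.Helper1.Class2
import Cfsg.Agent.S0027
import Cfsg.Agent.S0055
import Cfsg.Agent.S0056
import Cfsg.Agent.S0119
import Cfsg.Agent.S0120

/-!
# The Hall–Higman reduction for a minimal nontrivial coprime action
-/

set_option autoImplicit false
open Cfsg
open scoped commutatorElement

namespace Cfsg.Agent.Helper10

universe u

/-- The automorphism group induced on `P` by `A ∩ N(P)`. -/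
def autOn {X : Type*} [Group X] (A P : Subgroup X) : Subgroup (MulAut P) :=
  (A.subgroupOf (Subgroup.normalizer (P : Set X))).map P.normalizerMonoidHom

theorem normalizerMonoidHom_coe {X : Type*} [Group X] (P : Subgroup X)
    (a : Subgroup.normalizer (P : Set X)) (x : P) :
    ((P.normalizerMonoidHom a x : P) : X) = a * x * (a : X)⁻¹ := rfl

theorem mem_autOn_of_mem {X : Type*} [Group X] {A P : Subgroup X} {a : X} (ha : a ∈ A)
    (haP : a ∈ Subgroup.normalizer (P : Set X)) : P.normalizerMonoidHom ⟨a, haP⟩ ∈ autOn A P :=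
  ⟨⟨a, haP⟩, ha, rfl⟩

theorem card_autOn_dvd {X : Type*} [Group X] [Finite X] (A P : Subgroup X) :
    Nat.card (autOn A P) ∣ Nat.card A := by
  refine (Subgroup.card_map_dvd _ _).trans ?_
  rw [← Subgroup.inf_subgroupOf_right]
  rw [Nat.card_congr (Subgroup.subgroupOfEquivOfLe (inf_le_right :
    A ⊓ Subgroup.normalizer (P : Set X) ≤ Subgroup.normalizer (P : Set X))).toEquiv]
  exact Subgroup.card_dvd_of_le inf_le_left

/-- A subgroup normalizes the closure of a set it stabilizes by conjugation. -/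
theorem le_normalizer_closure_of_conj {X : Type*} [Group X] (B : Subgroup X) (S : Set X)
    (hS : ∀ b ∈ B, ∀ s ∈ S, b * s * b⁻¹ ∈ S) :
    B ≤ Subgroup.normalizer ((Subgroup.closure S : Subgroup X) : Set X) := by
  have key : ∀ b ∈ B, ∀ x ∈ Subgroup.closure S, b * x * b⁻¹ ∈ Subgroup.closure S := by
    intro b hb x hx
    induction hx using Subgroup.closure_induction with
    | mem y hy => exact Subgroup.subset_closure (hS b hb y hy)
    | one => simp
    | mul y z _ _ ihy ihz =>
      have : b * (y * z) * b⁻¹ = (b * y * b⁻¹) * (b * z * b⁻¹) := by group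
      rw [this]; exact Subgroup.mul_mem _ ihy ihz
    | inv y _ ih =>
      have : b * y⁻¹ * b⁻¹ = (b * y * b⁻¹)⁻¹ := by group
      rw [this]; exact Subgroup.inv_mem _ ih
  intro b hb
  rw [Subgroup.mem_normalizer_iff]
  intro x
  constructor
  · exact key b hb x
  · intro hx
    have := key b⁻¹ (B.inv_mem hb) _ hx
    have h2 : b⁻¹ * (b * x * b⁻¹) * b⁻¹⁻¹ = x := by group
    rwa [h2] at this

/-- The Hall–Higman reduction. -/
theorem hall_higman_reduction {X : Type*} [Group X] [Finite X] {p : ℕ} [hp : Fact p.Prime]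
    (B A P : Subgroup X) (hP : IsPGroup p P) (hBP : B ≤ Subgroup.normalizer (P : Set X))
    (hAB : A ≤ B) (hAn : B ≤ Subgroup.normalizer (A : Set X)) (hAp : (Nat.card A).Coprime p)
    (hnt : ⁅P, A⁆ ≠ ⊥)
    (hmin : ∀ U : Subgroup X, U < P → B ≤ Subgroup.normalizer (U : Set X) → ⁅U, A⁆ = ⊥) :
    ⁅P, A⁆ = P ∧ (Cfsg.IsElementaryAbelian p P ∨ Cfsg.IsSpecial p ↥P) ∧
    (∀ U : Subgroup X, (frattini ↥P).map P.subtype ≤ U → U ≤ P →
      B ≤ Subgroup.normalizer (U : Set X) → U = (frattini ↥P).map P.subtype ∨ U = P) ∧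
    (p ≠ 2 → ∀ x ∈ P, x ^ p = 1) := by
  have hAP : A ≤ Subgroup.normalizer (P : Set X) := hAB.trans hBP
  have hcop : (Nat.card A).Coprime (Nat.card P) := by
    obtain ⟨n, hn⟩ := IsPGroup.iff_card.mp hP
    rw [hn]; exact Nat.Coprime.pow_right n hAp
  have hsolv : Group.IsSolvable A ∨ Group.IsSolvable P :=
    Or.inr (by haveI := hP.isNilpotent; infer_instance)
  have hcentA : ∀ U : Subgroup X, ⁅U, A⁆ = ⊥ → ∀ u ∈ U, ∀ a ∈ A, a * u * a⁻¹ = u := by
    intro U hU u hu a ha
    have h1 := Subgroup.commutator_eq_bot_iff_le_centralizer.mp hU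
    have h2 := Subgroup.le_centralizer_iff.mp h1 ha
    rw [Subgroup.mem_centralizer_iff] at h2
    rw [← h2 u hu]; group
  -- (1)
  have hPA : ⁅P, A⁆ = P := by
    have hle : ⁅P, A⁆ ≤ P := Subgroup.le_normalizer_iff_commutator_le_left.mp hAP
    by_contra hne
    have hlt : ⁅P, A⁆ < P := lt_of_le_of_ne hle hne
    have hB : B ≤ Subgroup.normalizer ((⁅P, A⁆ : Subgroup X) : Set X) :=
      fun b hb => mem_normalizer_commutator' (hBP hb) (hAn hb)
    have := hmin _ hlt hB
    rw [Cfsg.Agent.S0027.result A P hAP hcop hsolv] at this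
    exact hnt this
  -- the subgroup generated by the elements of order dividing `p`
  obtain ⟨Ω, hΩ⟩ : ∃ Ω : Subgroup X, Ω = Subgroup.closure {y : X | y ∈ P ∧ y ^ p = 1} :=
    ⟨_, rfl⟩
  have hΩP : Ω ≤ P := by rw [hΩ, Subgroup.closure_le]; exact fun y hy => hy.1
  have hΩB : B ≤ Subgroup.normalizer (Ω : Set X) := by
    rw [hΩ]
    apply le_normalizer_closure_of_conj
    rintro b hb s ⟨hs, hsp⟩
    refine ⟨(Subgroup.mem_normalizer_iff.mp (hBP hb) s).mp hs, ?_⟩
    rw [conj_pow, hsp]; group
  by_cases hab : ∀ x ∈ P, ∀ y ∈ P, x * y = y * x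
  · -- abelian case
    haveI hPc : IsMulCommutative P := ⟨⟨fun a b => Subtype.ext (hab a a.2 b b.2)⟩⟩
    have hΩeq : Ω = P := by
      by_contra hne
      have h1 := hmin Ω (lt_of_le_of_ne hΩP hne) hΩB
      have h2 : A ≤ Subgroup.centralizer (P : Set X) := by
        apply Cfsg.Agent.S0056.result A P hAP hcop
        intro v hv hvprime a ha
        have hvp : v ^ p = 1 := by
          obtain ⟨k, hk⟩ := hP ⟨v, hv⟩
          have hk' : v ^ (p ^ k) = 1 := congrArg Subtype.val hk
          have h3 : orderOf v ∣ p ^ k := orderOf_dvd_of_pow_eq_one hk'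
          have h4 : orderOf v = p :=
            (Nat.prime_dvd_prime_iff_eq hvprime hp.out).mp (hvprime.dvd_of_dvd_pow h3)
          rw [← h4]; exact pow_orderOf_eq_one v
        have hvΩ : v ∈ Ω := by rw [hΩ]; exact Subgroup.subset_closure ⟨hv, hvp⟩
        have h5 := hcentA Ω h1 v hvΩ a ha
        calc a * v = a * v * a⁻¹ * a := by group
          _ = v * a := by rw [h5]
      exact hnt (Subgroup.commutator_eq_bot_iff_le_centralizer.mpr
        (Subgroup.le_centralizer_iff.mp h2))
    have hexp : ∀ x ∈ P, x ^ p = 1 := by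
      intro x hx
      rw [← hΩeq, hΩ] at hx
      induction hx using Subgroup.closure_induction with
      | mem y hy => exact hy.2
      | one => exact one_pow _
      | mul y z hy hz ihy ihz =>
        have hyP : y ∈ P := hΩP (hΩ ▸ hy)
        have hzP : z ∈ P := hΩP (hΩ ▸ hz)
        have hc : Commute y z := hab y hyP z hzP
        rw [hc.mul_pow, ihy, ihz, one_mul]
      | inv y _ ih => rw [inv_pow, ih, inv_one]
    refine ⟨hPA, Or.inl ⟨hPc, hexp⟩, ?_, fun _ => hexp⟩
    intro U hΦU hUP hUB
    by_cases hUeq : U = P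
    · exact Or.inr hUeq
    · left
      have h1 := hmin U (lt_of_le_of_ne hUP hUeq) hUB
      have h2 := (Cfsg.Agent.S0055.result A P hAP hcop).1
      rw [hPA, inf_eq_left.mpr inf_le_left] at h2
      have h3 : U ≤ P ⊓ Subgroup.centralizer (A : Set X) :=
        le_inf hUP (Subgroup.commutator_eq_bot_iff_le_centralizer.mp h1)
      rw [h2] at h3
      exact le_antisymm (h3.trans bot_le) hΦU
  · -- nonabelian case: `P` is special
    have hcard : Nat.Coprime (Nat.card (autOn A P)) p :=
      Nat.Coprime.coprime_dvd_left (card_autOn_dvd A P) hAp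
    have hGA : Subgroup.closure {x : P | ∃ g : P, ∃ a ∈ autOn A P, x = g⁻¹ * a g} = ⊤ := by
      rw [eq_top_iff]
      intro x _
      have hle : ⁅P, A⁆ ≤ (Subgroup.closure
          {x : P | ∃ g : P, ∃ a ∈ autOn A P, x = g⁻¹ * a g}).map P.subtype := by
        rw [Subgroup.commutator_le]
        intro g hg a ha
        refine ⟨(⟨g⁻¹, P.inv_mem hg⟩ : P)⁻¹ *
          P.normalizerMonoidHom ⟨a, hAP ha⟩ ⟨g⁻¹, P.inv_mem hg⟩, ?_, ?_⟩
        · exact Subgroup.subset_closure ⟨⟨g⁻¹, P.inv_mem hg⟩, _, mem_autOn_of_mem ha (hAP ha), rfl⟩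
        · show (g⁻¹)⁻¹ * (a * g⁻¹ * a⁻¹) = ⁅g, a⁆
          rw [commutatorElement_def]; group
      have hx : (x : X) ∈ ⁅P, A⁆ := by rw [hPA]; exact x.2
      obtain ⟨y, hy, hyx⟩ := hle hx
      have : y = x := Subtype.ext hyx
      rw [← this]; exact hy
    have hchar : ∀ H : Subgroup P, H.Characteristic → IsMulCommutative H →
        ∀ α ∈ autOn A P, ∀ h ∈ H, α h = h := by
      intro H hHc hHab α hα h hh
      obtain ⟨a', ha', rfl⟩ := hα
      have hUP : H.map P.subtype ≤ P := Subgroup.map_subtype_le _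
      have hUne : H.map P.subtype ≠ P := by
        intro heq
        apply hab
        intro x hx y hy
        rw [← heq] at hx hy
        obtain ⟨h₁, hh₁, rfl⟩ := hx
        obtain ⟨h₂, hh₂, rfl⟩ := hy
        have h3 : (⟨h₁, hh₁⟩ : H) * ⟨h₂, hh₂⟩ = ⟨h₂, hh₂⟩ * ⟨h₁, hh₁⟩ :=
          hHab.is_comm.comm _ _
        exact congrArg (fun z : H => ((z : P) : X)) h3
      have hUB : B ≤ Subgroup.normalizer ((H.map P.subtype : Subgroup X) : Set X) :=
        hBP.trans (char_normalizer' P H)
      have h1 := hmin _ (lt_of_le_of_ne hUP hUne) hUB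
      have h2 := hcentA _ h1 (h : X) ⟨h, hh, rfl⟩ (a' : X) ha'
      exact Subtype.ext h2
    have hspec := Cfsg.Agent.S0119.result hP (autOn A P) hcard hGA hchar
    refine ⟨hPA, Or.inr hspec.1, ?_, ?_⟩
    · intro U hΦU hUP hUB
      by_cases hUeq : U = P
      · exact Or.inr hUeq
      · left
        have h1 := hmin U (lt_of_le_of_ne hUP hUeq) hUB
        apply le_antisymm _ hΦU
        intro u hu
        have hmem : (⟨u, hUP hu⟩ : P) ∈ Subgroup.center P := by
          rw [hspec.2]
          intro α hα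
          obtain ⟨a', ha', rfl⟩ := hα
          exact Subtype.ext (hcentA U h1 u hu (a' : X) ha')
        rw [← hspec.1.2.1] at hmem
        exact ⟨⟨u, hUP hu⟩, hmem, rfl⟩
    · intro hp2 x hx
      have hΩeq : Ω = P := by
        by_contra hne
        have h1 := hmin Ω (lt_of_le_of_ne hΩP hne) hΩB
        have h2 : ∀ a ∈ A, ∀ y ∈ P, a * y * a⁻¹ = y := by
          intro a ha y hy
          have h3 : P.normalizerMonoidHom ⟨a, hAP ha⟩ = 1 := by
            apply Cfsg.Agent.S0120.result hp2 hP
            · have h4 : orderOf (P.normalizerMonoidHom ⟨a, hAP ha⟩) ∣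
                  orderOf (⟨a, hAP ha⟩ : Subgroup.normalizer (P : Set X)) := orderOf_map_dvd _ _
              have h5 : orderOf (⟨a, hAP ha⟩ : Subgroup.normalizer (P : Set X)) = orderOf a :=
                Subgroup.orderOf_mk _ _
              have h6 : orderOf a ∣ Nat.card A := by
                have := orderOf_dvd_natCard (⟨a, ha⟩ : A)
                rwa [Subgroup.orderOf_mk] at this
              rw [h5] at h4
              exact Nat.Coprime.coprime_dvd_left (h4.trans h6) hAp
            · intro z hz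
              have hzΩ : (z : X) ∈ Ω := by
                rw [hΩ]
                exact Subgroup.subset_closure ⟨z.2, by rw [← Subgroup.coe_pow, hz]; rfl⟩
              exact Subtype.ext (hcentA Ω h1 (z : X) hzΩ a ha)
          have h7 : P.normalizerMonoidHom ⟨a, hAP ha⟩ ⟨y, hy⟩ = ⟨y, hy⟩ := by rw [h3]; rfl
          exact congrArg Subtype.val h7
        apply hnt
        rw [Subgroup.commutator_eq_bot_iff_le_centralizer]
        intro y hy
        rw [Subgroup.mem_centralizer_iff]
        intro a ha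
        have := h2 a ha y hy
        calc a * y = a * y * a⁻¹ * a := by group
          _ = y * a := by rw [this]
      have hcen : ∀ a b g : P, Commute ⁅a, b⁆ g := by
        intro a b g
        have h1 : ⁅a, b⁆ ∈ commutator P :=
          Subgroup.commutator_mem_commutator (Subgroup.mem_top a) (Subgroup.mem_top b)
        rw [hspec.1.2.2] at h1
        exact (Subgroup.mem_center_iff.mp h1 g).symm
      have hle : Ω ≤ (Subgroup.closure {x : P | x ^ p = 1}).map P.subtype := by
        rw [hΩ, Subgroup.closure_le]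
        rintro y ⟨hy, hyp⟩
        exact ⟨⟨y, hy⟩, Subgroup.subset_closure (Subtype.ext hyp), rfl⟩
      rw [← hΩeq] at hx
      obtain ⟨g, hg, rfl⟩ := hle hx
      have := Cfsg.Agent.Helper1.pow_eq_one_of_mem_closure_of_class_two hp2 hcen g hg
      rw [← map_pow, this, map_one]

end Cfsg.Agent.Helper10
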