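import Mathlib
import Cfsg.Prelude.Def_Transfer
import Cfsg.Prelude.Def_CaseTheorems
import Cfsg.Agent.Helper1.NormRank2
import Cfsg.Agent.Lead.Quat
import Cfsg.Agent.Helper10.CopGen2

set_option autoImplicit false
open Cfsg

namespace Cfsg.Agent.Helper10

/-- Inside a normal elementary abelian subgroup of order `> p` of a `p`-group there is a normal
subgroup of order `p ^ 2`. -/
theorem normal_sq_of_normal_elem {R : Type*} [Group R] [Finite R] {p : ℕ} [hp : Fact p.Prime]
    (hR : IsPGroup p R) (N : Subgroup R) (hN : N.Normal) (hcard : p < Nat.card N) :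
    ∃ B : Subgroup R, B.Normal ∧ B ≤ N ∧ Nat.card B = p ^ 2 := by
  have hNbot : (⊥ : Subgroup R) ≠ N := by
    intro h
    rw [← h, Subgroup.card_bot] at hcard
    exact absurd hcard (not_lt.mpr hp.out.one_lt.le)
  obtain ⟨B₁, hB₁n, -, hB₁N, hrel₁⟩ :=
    Cfsg.Agent.Helper1.exists_normal_step hR ⊥ N inferInstance hN bot_le hNbot
  rw [Subgroup.relIndex_bot_left] at hrel₁
  have hB₁ne : B₁ ≠ N := by
    intro h
    rw [h] at hrel₁
    omega
  obtain ⟨B₂, hB₂n, hB₁₂, hB₂N, hrel₂⟩ :=
    Cfsg.Agent.Helper1.exists_normal_step hR B₁ N hB₁n hN hB₁N hB₁ne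
  refine ⟨B₂, hB₂n, hB₂N, ?_⟩
  rw [← Subgroup.relIndex_bot_left, ← Subgroup.relIndex_mul_relIndex ⊥ B₁ B₂ bot_le hB₁₂,
    Subgroup.relIndex_bot_left, hrel₁, hrel₂, sq]

/-- In a cyclic subgroup there is at most one involution. -/
theorem cyclic_involution_unique {R : Type*} [Group R] [Finite R] (A : Subgroup R)
    (hA : IsCyclic A) (z c : R) (hz : z ∈ A) (hc : c ∈ A) (hz2 : z ^ 2 = 1) (hc2 : c ^ 2 = 1)
    (hz1 : z ≠ 1) (hc1 : c ≠ 1) : c = z := by
  classical
  have := Fintype.ofFinite A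
  by_contra hne
  have h := IsCyclic.card_pow_eq_one_le (α := A) (n := 2) (by norm_num)
  have hsub : ({1, ⟨z, hz⟩, ⟨c, hc⟩} : Finset A) ⊆ Finset.univ.filter (fun a : A => a ^ 2 = 1) := by
    intro t ht
    rw [Finset.mem_filter]
    refine ⟨Finset.mem_univ _, ?_⟩
    simp only [Finset.mem_insert, Finset.mem_singleton] at ht
    rcases ht with rfl | rfl | rfl
    · simp
    · exact Subtype.ext (by simpa using hz2)
    · exact Subtype.ext (by simpa using hc2)
  have h3 : ({1, ⟨z, hz⟩, ⟨c, hc⟩} : Finset A).card = 3 := by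
    rw [Finset.card_eq_three]
    refine ⟨1, ⟨z, hz⟩, ⟨c, hc⟩, ?_, ?_, ?_, rfl⟩
    · intro h'
      exact hz1 (congrArg Subtype.val h').symm
    · intro h'
      exact hc1 (congrArg Subtype.val h').symm
    · intro h'
      exact hne (congrArg Subtype.val h').symm
  have := Finset.card_le_card hsub
  omega

/-- `p = 2`: a cyclic self-centralizing normal subgroup and an elementary abelian subgroup of
order `> 4` give a normal elementary abelian subgroup of order `> 2`. -/
theorem normal_elem_of_cyclic_two {R : Type*} [Group R] [Finite R] (hR : IsPGroup 2 R)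
    (A : Subgroup R) (hAn : A.Normal) (hA : IsCyclic A)
    (hCA : Subgroup.centralizer (A : Set R) ≤ A)
    (E : Subgroup R) (hE2 : ∀ x ∈ E, x ^ 2 = 1)
    (hEcard : 4 < Nat.card E) :
    ∃ N : Subgroup R, N.Normal ∧ (∀ x ∈ N, ∀ y ∈ N, x * y = y * x) ∧ (∀ x ∈ N, x ^ 2 = 1) ∧
      2 < Nat.card N := by
  obtain ⟨g, hg⟩ := hA.exists_generator
  have hgen : ∀ c ∈ A, ∃ i : ℤ, (g : R) ^ i = c := by
    intro c hc
    obtain ⟨i, hi⟩ := hg ⟨c, hc⟩
    exact ⟨i, by have := congrArg Subtype.val hi; simpa using this⟩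
  obtain ⟨n, hn⟩ := (IsPGroup.iff_orderOf.mp hR) (g : R)
  have hsq : ∀ e ∈ E, e * e = 1 := fun e he => by have := hE2 e he; rwa [sq] at this
  have hinv : ∀ e ∈ E, e⁻¹ = e := fun e he => inv_eq_of_mul_eq_one_left (hsq e he)
  -- the intersection `E ⊓ A` has at most two elements
  obtain ⟨d₀, hd₀⟩ : ∃ d₀ : R, ∀ d ∈ E, d ∈ A → d = 1 ∨ d = d₀ := by
    by_cases h : ∃ d ∈ E, d ∈ A ∧ d ≠ 1
    · obtain ⟨d₀, hd₀E, hd₀A, hd₀1⟩ := h
      refine ⟨d₀, fun d hdE hdA => ?_⟩
      by_cases hd1 : d = 1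
      · exact Or.inl hd1
      · exact Or.inr (cyclic_involution_unique A hA d₀ d hd₀A hdA (hE2 d₀ hd₀E) (hE2 d hdE)
          hd₀1 hd1)
    · push Not at h
      exact ⟨1, fun d hdE hdA => Or.inl (h d hdE hdA)⟩
  have hEncard : (E : Set R).ncard = Nat.card E := (Nat.card_coe_set_eq _).symm
  obtain ⟨e₁, he₁E, he₁⟩ : ∃ e₁ ∈ (E : Set R), e₁ ∉ ({1, d₀} : Set R) := by
    apply Set.exists_mem_notMem_of_ncard_lt_ncard _ (Set.toFinite _)
    calc ({1, d₀} : Set R).ncard ≤ 2 := by
          have h1 := Set.ncard_insert_le (1 : R) ({d₀} : Set R)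
          rw [Set.ncard_singleton] at h1
          exact h1
      _ < (E : Set R).ncard := by rw [hEncard]; omega
  have he₁E' : e₁ ∈ E := he₁E
  have he₁A : e₁ ∉ A := fun h => he₁ (by
    rcases hd₀ e₁ he₁E' h with h1 | h1
    · rw [h1]; exact Set.mem_insert _ _
    · rw [h1]; exact Set.mem_insert_of_mem _ rfl)
  obtain ⟨e₂, he₂E, he₂⟩ : ∃ e₂ ∈ (E : Set R), e₂ ∉ ({1, d₀, e₁, e₁ * d₀} : Set R) := by
    apply Set.exists_mem_notMem_of_ncard_lt_ncard _ (Set.toFinite _)
    calc ({1, d₀, e₁, e₁ * d₀} : Set R).ncard ≤ 4 := by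
          have h1 := Set.ncard_insert_le (1 : R) ({d₀, e₁, e₁ * d₀} : Set R)
          have h2 := Set.ncard_insert_le d₀ ({e₁, e₁ * d₀} : Set R)
          have h3 := Set.ncard_insert_le e₁ ({e₁ * d₀} : Set R)
          rw [Set.ncard_singleton] at h3
          omega
      _ < (E : Set R).ncard := by rw [hEncard]; exact hEcard
  have he₂E' : e₂ ∈ E := he₂E
  have he₂A : e₂ ∉ A := fun h => he₂ (by
    rcases hd₀ e₂ he₂E' h with h1 | h1
    · rw [h1]; simp
    · rw [h1]; simp)
  have he₁₂A : e₁ * e₂ ∉ A := by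
    intro h
    have hmem : e₁ * e₂ ∈ E := E.mul_mem he₁E' he₂E'
    have e : e₂ = e₁ * (e₁ * e₂) := by rw [← mul_assoc, hsq e₁ he₁E', one_mul]
    rcases hd₀ _ hmem h with h1 | h1
    · apply he₂; rw [e, h1, mul_one]; simp
    · apply he₂; rw [e, h1]; simp
  -- the generator is nontrivial
  have hn1 : 1 ≤ n := by
    by_contra h0
    have hn0 : n = 0 := by omega
    rw [hn0, pow_zero, orderOf_eq_one_iff] at hn
    apply he₁A
    apply hCA
    rw [Subgroup.mem_centralizer_iff]
    intro c hc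
    obtain ⟨i, hi⟩ := hgen c hc
    rw [← hi, hn, one_zpow, one_mul, mul_one]
  -- involutions act by a power `k` with `k * k ≡ 1`
  have hkk : ∀ e ∈ E, ∀ k : ℕ, (∀ c ∈ A, e * c * e⁻¹ = c ^ k) → ∀ c ∈ A, c ^ (k * k) = c := by
    intro e heE k hk c hc
    have h1 := hk c hc
    have h2 := hk (c ^ k) (A.pow_mem hc k)
    calc c ^ (k * k) = (c ^ k) ^ k := pow_mul c k k
      _ = e * c ^ k * e⁻¹ := h2.symm
      _ = e * (e * c * e⁻¹) * e⁻¹ := by rw [h1]
      _ = (e * e) * c * (e * e)⁻¹ := by group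
      _ = c := by rw [hsq e heE]; simp
  have hodd : ∀ e ∈ E, ∀ k : ℕ, (∀ c ∈ A, e * c * e⁻¹ = c ^ k) → k % 2 = 1 := by
    intro e heE k hk
    have h1 := hkk e heE k hk (g : R) g.2
    have h2 : (g : R) ^ (k * k) = (g : R) ^ 1 := by rw [h1, pow_one]
    rw [pow_eq_pow_iff_modEq, hn] at h2
    have h3 : (k * k) % 2 = 1 % 2 := by
      have h4 : (2 : ℕ) ∣ 2 ^ n := dvd_pow_self 2 (by omega)
      exact (Nat.ModEq.of_dvd h4 h2)
    rcases Nat.mod_two_eq_zero_or_one k with h0 | h0
    · rw [Nat.mul_mod, h0] at h3; simp at h3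
    · exact h0
  -- choose `x ∈ E`, `x ∉ A`, acting by a power `k ≡ 1 mod 4`
  obtain ⟨x, hxE, hxA, k, hk, hk4⟩ : ∃ x ∈ E, x ∉ A ∧ ∃ k : ℕ,
      (∀ c ∈ A, x * c * x⁻¹ = c ^ k) ∧ k % 4 = 1 := by
    obtain ⟨k₁, hk₁⟩ := Cfsg.Agent.Helper1.conj_pow_of_cyclic A hAn hA e₁
    obtain ⟨k₂, hk₂⟩ := Cfsg.Agent.Helper1.conj_pow_of_cyclic A hAn hA e₂
    have ho₁ := hodd e₁ he₁E' k₁ hk₁
    have ho₂ := hodd e₂ he₂E' k₂ hk₂
    by_cases h1 : k₁ % 4 = 1
    · exact ⟨e₁, he₁E', he₁A, k₁, hk₁, h1⟩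
    · by_cases h2 : k₂ % 4 = 1
      · exact ⟨e₂, he₂E', he₂A, k₂, hk₂, h2⟩
      · refine ⟨e₁ * e₂, E.mul_mem he₁E' he₂E', he₁₂A, k₂ * k₁, ?_, ?_⟩
        · intro c hc
          calc e₁ * e₂ * c * (e₁ * e₂)⁻¹ = e₁ * (e₂ * c * e₂⁻¹) * e₁⁻¹ := by group
            _ = e₁ * c ^ k₂ * e₁⁻¹ := by rw [hk₂ c hc]
            _ = (c ^ k₂) ^ k₁ := hk₁ _ (A.pow_mem hc k₂)
            _ = c ^ (k₂ * k₁) := (pow_mul c k₂ k₁).symm
        · have h3 : k₁ % 4 = 3 := by omega
          have h4 : k₂ % 4 = 3 := by omega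
          rw [Nat.mul_mod, h3, h4]
  obtain ⟨m, hm⟩ : ∃ m, k = 4 * m + 1 := ⟨k / 4, by omega⟩
  have hx2 : x * x = 1 := hsq x hxE
  have hxinv : x⁻¹ = x := hinv x hxE
  -- `g ^ (8 m) = 1`
  have hg8 : (g : R) ^ (8 * m) = 1 := by
    have h1 := hkk x hxE k hk (g : R) g.2
    have h2 : (g : R) ^ (8 * m * (2 * m + 1)) * (g : R) = (g : R) := by
      rw [← pow_succ]
      have : 8 * m * (2 * m + 1) + 1 = k * k := by rw [hm]; ring
      rw [this, h1]
    have h3 : (g : R) ^ (8 * m * (2 * m + 1)) = 1 := mul_eq_right.mp h2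
    have h4 : orderOf (g : R) ∣ 8 * m * (2 * m + 1) := orderOf_dvd_of_pow_eq_one h3
    rw [hn] at h4
    have hcop : Nat.Coprime (2 ^ n) (2 * m + 1) := by
      apply Nat.Coprime.pow_left
      rw [Nat.coprime_two_left]
      exact ⟨m, rfl⟩
    have h5 : 2 ^ n ∣ 8 * m := hcop.dvd_of_dvd_mul_right h4
    rw [← hn] at h5
    exact orderOf_dvd_iff_pow_eq_one.mp h5
  have h8 : ∀ c ∈ A, c ^ (8 * m) = 1 := by
    intro c hc
    obtain ⟨i, hi⟩ := hgen c hc
    rw [← hi, ← zpow_natCast, ← zpow_mul, mul_comm, zpow_mul, zpow_natCast, hg8, one_zpow]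
  have hx4 : ∀ c ∈ A, c ^ 4 = 1 → x * c * x⁻¹ = c := by
    intro c hc hc4
    rw [hk c hc, hm, pow_succ, pow_mul, hc4, one_pow, one_mul]
  obtain ⟨z, hz⟩ : ∃ z : R, z = (g : R) ^ (4 * m) := ⟨_, rfl⟩
  have hzA : z ∈ A := by rw [hz]; exact A.pow_mem g.2 _
  have hz2 : z ^ 2 = 1 := by
    rw [hz, ← pow_mul]
    have : 4 * m * 2 = 8 * m := by ring
    rw [this, hg8]
  have hz1 : z ≠ 1 := by
    intro h1
    apply hxA
    apply hCA
    rw [Subgroup.mem_centralizer_iff]
    have hxg : x * (g : R) * x⁻¹ = (g : R) := by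
      rw [hk (g : R) g.2, hm, pow_succ, ← hz, h1, one_mul]
    have hxg' : x * (g : R) = (g : R) * x := by
      calc x * (g : R) = (x * (g : R) * x⁻¹) * x := by group
        _ = (g : R) * x := by rw [hxg]
    intro c hc
    obtain ⟨i, hi⟩ := hgen c hc
    rw [← hi]
    exact ((Commute.zpow_left (show Commute (g : R) x from hxg'.symm) i)).eq
  have hxz : x * z = z * x := by
    have h4 : z ^ 4 = 1 := by
      have : z ^ 4 = (z ^ 2) ^ 2 := by rw [← pow_mul]
      rw [this, hz2, one_pow]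
    have := hx4 z hzA h4
    calc x * z = (x * z * x⁻¹) * x := by group
      _ = z * x := by rw [this]
  have hzc : ∀ u : R, u * z * u⁻¹ = z := by
    intro u
    obtain ⟨j, hj⟩ := Cfsg.Agent.Helper1.conj_pow_of_cyclic A hAn hA u
    have h1 := hj z hzA
    rw [pow_eq_pow_mod j hz2] at h1
    rcases Nat.mod_two_eq_zero_or_one j with h0 | h0
    · rw [h0, pow_zero] at h1
      exfalso
      apply hz1
      have : z = u⁻¹ * (u * z * u⁻¹) * u := by group
      rw [this, h1]; group
    · rw [h0, pow_one] at h1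
      exact h1
  have hconj : ∀ u : R, u * x * u⁻¹ = x ∨ u * x * u⁻¹ = x * z := by
    intro u
    have hy : ∀ c ∈ A, (u * x * u⁻¹) * c * (u * x * u⁻¹)⁻¹ = c ^ k := by
      intro c hc
      have hc' : u⁻¹ * c * u ∈ A := by
        have := hAn.conj_mem c hc u⁻¹
        rwa [inv_inv] at this
      calc (u * x * u⁻¹) * c * (u * x * u⁻¹)⁻¹ = u * (x * (u⁻¹ * c * u) * x⁻¹) * u⁻¹ := by group
        _ = u * (u⁻¹ * c * u) ^ k * u⁻¹ := by rw [hk _ hc']
        _ = (u * (u⁻¹ * c * u) * u⁻¹) ^ k := (conj_pow).symm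
        _ = c ^ k := by congr 1; group
    have hc₁ : x⁻¹ * (u * x * u⁻¹) ∈ A := by
      apply hCA
      rw [Subgroup.mem_centralizer_iff]
      intro c hc
      have h1 := hk c hc
      have h2 := hy c hc
      have h3 : x * c * x⁻¹ = (u * x * u⁻¹) * c * (u * x * u⁻¹)⁻¹ := by rw [h1, h2]
      calc c * (x⁻¹ * (u * x * u⁻¹)) = x⁻¹ * (x * c * x⁻¹) * (u * x * u⁻¹) := by group
        _ = x⁻¹ * ((u * x * u⁻¹) * c * (u * x * u⁻¹)⁻¹) * (u * x * u⁻¹) := by rw [h3]
        _ = x⁻¹ * (u * x * u⁻¹) * c := by group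
    obtain ⟨c₁, hc₁def⟩ : ∃ c₁ : R, c₁ = x⁻¹ * (u * x * u⁻¹) := ⟨_, rfl⟩
    rw [← hc₁def] at hc₁
    have hyx : u * x * u⁻¹ = x * c₁ := by rw [hc₁def]; group
    have hyy : (x * c₁) * (x * c₁) = 1 := by
      rw [← hyx]
      calc (u * x * u⁻¹) * (u * x * u⁻¹) = u * (x * x) * u⁻¹ := by group
        _ = 1 := by rw [hx2]; group
    have h1 : c₁ ^ k * c₁ = 1 := by
      rw [← hk c₁ hc₁, hxinv]
      calc x * c₁ * x * c₁ = (x * c₁) * (x * c₁) := by group
        _ = 1 := hyy
    have h2 : c₁ ^ (4 * m + 2) = 1 := by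
      rw [hm, ← pow_succ] at h1
      exact h1
    have h3 : c₁ ^ 4 = 1 := by
      have h4 : c₁ ^ (8 * m + 4) = 1 := by
        have : 8 * m + 4 = (4 * m + 2) * 2 := by ring
        rw [this, pow_mul, h2, one_pow]
      rw [pow_add, h8 c₁ hc₁, one_mul] at h4
      exact h4
    have h5 : x * c₁ * x⁻¹ = c₁ := hx4 c₁ hc₁ h3
    have h6 : c₁ ^ 2 = 1 := by
      rw [sq]
      calc c₁ * c₁ = (x * c₁ * x⁻¹) * c₁ := by rw [h5]
        _ = (x * c₁) * (x * c₁) := by rw [hxinv]; group
        _ = 1 := hyy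
    by_cases hc1 : c₁ = 1
    · left; rw [hyx, hc1, mul_one]
    · right
      rw [hyx, cyclic_involution_unique A hA z c₁ hzA hc₁ hz2 h6 hz1 hc1]
  have hScomm : ∀ s ∈ ({x, z} : Set R), ∀ t ∈ ({x, z} : Set R), s * t = t * s := by
    intro s hs t ht
    rcases hs with rfl | rfl <;> rcases ht with rfl | rfl
    · rfl
    · exact hxz
    · exact hxz.symm
    · rfl
  have hxN : x ∈ Subgroup.closure ({x, z} : Set R) := Subgroup.subset_closure (by simp)
  have hzN : z ∈ Subgroup.closure ({x, z} : Set R) := Subgroup.subset_closure (by simp)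
  refine ⟨Subgroup.closure ({x, z} : Set R), ?_, Cfsg.Agent.Helper1.closure_comm _ hScomm, ?_, ?_⟩
  · apply Cfsg.Agent.Helper1.closure_normal_of_conj
    intro u s hs
    rcases hs with rfl | rfl
    · rcases hconj u with h | h
      · rw [h]; exact hxN
      · rw [h]; exact Subgroup.mul_mem _ hxN hzN
    · rw [hzc u]; exact hzN
  · apply Cfsg.Agent.Helper1.closure_pow_eq_one _ hScomm
    intro s hs
    rcases hs with rfl | rfl
    · rw [sq]; exact hx2
    · exact hz2
  · have hlt : Subgroup.zpowers z < Subgroup.closure ({x, z} : Set R) := by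
      refine lt_of_le_of_ne (Subgroup.zpowers_le.mpr hzN) ?_
      intro h
      apply hxA
      have : x ∈ Subgroup.zpowers z := by rw [h]; exact hxN
      exact (Subgroup.zpowers_le.mpr hzA) this
    have h1 := card_lt_card_of_lt hlt
    haveI : Fact (Nat.Prime 2) := ⟨Nat.prime_two⟩
    rw [Nat.card_zpowers, orderOf_eq_prime hz2 hz1] at h1
    exact h1

/-- A finite `2`-group containing a subgroup of exponent `2` and order `> 4` has a normal
elementary abelian subgroup of order `4`. -/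
theorem exists_normal_four {R : Type*} [Group R] [Finite R] (hR : IsPGroup 2 R)
    (E : Subgroup R) (hE2 : ∀ x ∈ E, x ^ 2 = 1) (hEcard : 4 < Nat.card E) :
    ∃ B : Subgroup R, B.Normal ∧ (∀ x ∈ B, ∀ y ∈ B, x * y = y * x) ∧ (∀ x ∈ B, x ^ 2 = 1) ∧
      Nat.card B = 2 ^ 2 := by
  haveI : Fact (Nat.Prime 2) := ⟨Nat.prime_two⟩
  suffices h : ∃ N : Subgroup R, N.Normal ∧ (∀ x ∈ N, ∀ y ∈ N, x * y = y * x) ∧
      (∀ x ∈ N, x ^ 2 = 1) ∧ 2 < Nat.card N by
    obtain ⟨N, hNn, hNc, hN2, hNcard⟩ := h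
    obtain ⟨B, hBn, hBN, hBcard⟩ := normal_sq_of_normal_elem hR N hNn hNcard
    exact ⟨B, hBn, fun x hx y hy => hNc x (hBN hx) y (hBN hy), fun x hx => hN2 x (hBN hx), hBcard⟩
  obtain ⟨A, -, hAmax⟩ := Finite.exists_le_maximal
    (p := fun M : Subgroup R => M.Normal ∧ ∀ x ∈ M, ∀ y ∈ M, x * y = y * x)
    (a := ⊥) ⟨inferInstance, by
      intro x hx y hy
      rw [Subgroup.mem_bot] at hx hy
      rw [hx, hy]⟩
  obtain ⟨⟨hAn, hAc⟩, hAmax'⟩ := hAmax
  have hCA : Subgroup.centralizer (A : Set R) ≤ A := by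
    haveI := hAn
    apply Cfsg.Agent.Lead.centralizer_le_of_maximal_normal_abelian 2 hR A hAc
    intro B hBn hBc hAB
    exact le_antisymm (hAmax' ⟨hBn, hBc⟩ hAB) hAB
  by_cases hAcyc : IsCyclic A
  · exact normal_elem_of_cyclic_two hR A hAn hAcyc hCA E hE2 hEcard
  · haveI hAmc : IsMulCommutative A := ⟨⟨fun a b => Subtype.ext (hAc a a.2 b b.2)⟩⟩
    have hnc : ¬ ∃ a ∈ A, (⊥ : Subgroup R) ⊔ Subgroup.zpowers a = A := by
      rintro ⟨a, ha, hz⟩
      rw [bot_sup_eq] at hz
      apply hAcyc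
      refine ⟨⟨⟨a, ha⟩, fun x => ?_⟩⟩
      have hx : (x : R) ∈ Subgroup.zpowers a := by rw [hz]; exact x.2
      obtain ⟨k, hk⟩ := Subgroup.mem_zpowers_iff.mp hx
      exact Subgroup.mem_zpowers_iff.mpr ⟨k, Subtype.ext (by simpa using hk)⟩
    obtain ⟨q, hq, a₁, ha₁, a₂, ha₂, h₁, h₂, h₃, h₄⟩ := exists_rank_two_rel A ⊥ bot_le hnc
    rw [Subgroup.mem_bot] at h₁ h₂ h₃
    have hq2 : q = 2 := by
      have hord : orderOf a₂ = q := by
        haveI : Fact q.Prime := ⟨hq⟩
        exact orderOf_eq_prime h₂ h₃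
      obtain ⟨j, hj⟩ := (IsPGroup.iff_orderOf.mp hR) a₂
      rw [hord] at hj
      have : q ∣ 2 ^ j := by rw [← hj]
      exact (Nat.prime_dvd_prime_iff_eq hq Nat.prime_two).mp (hq.dvd_of_dvd_pow this)
    subst hq2
    have hScomm : ∀ s ∈ {a : R | a ∈ A ∧ a ^ 2 = 1}, ∀ t ∈ {a : R | a ∈ A ∧ a ^ 2 = 1},
        s * t = t * s := fun s hs t ht => hAc s hs.1 t ht.1
    have ha₁N : a₁ ∈ Subgroup.closure {a : R | a ∈ A ∧ a ^ 2 = 1} :=
      Subgroup.subset_closure ⟨ha₁, h₁⟩
    have ha₂N : a₂ ∈ Subgroup.closure {a : R | a ∈ A ∧ a ^ 2 = 1} :=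
      Subgroup.subset_closure ⟨ha₂, h₂⟩
    refine ⟨Subgroup.closure {a : R | a ∈ A ∧ a ^ 2 = 1}, ?_,
      Cfsg.Agent.Helper1.closure_comm _ hScomm,
      Cfsg.Agent.Helper1.closure_pow_eq_one _ hScomm 2 (fun s hs => hs.2), ?_⟩
    · apply Cfsg.Agent.Helper1.closure_normal_of_conj
      intro u s hs
      apply Subgroup.subset_closure
      exact ⟨hAn.conj_mem s hs.1 u, by rw [conj_pow, hs.2, mul_one, mul_inv_cancel]⟩
    · have hlt : Subgroup.zpowers a₂ < Subgroup.closure {a : R | a ∈ A ∧ a ^ 2 = 1} := by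
        refine lt_of_le_of_ne (Subgroup.zpowers_le.mpr ha₂N) ?_
        intro h
        have hmem : a₁ ∈ Subgroup.zpowers a₂ := by rw [h]; exact ha₁N
        obtain ⟨i, hi⟩ := Subgroup.mem_zpowers_iff.mp hmem
        have hord : orderOf a₂ = 2 := orderOf_eq_prime h₂ h₃
        have h5 : a₂ ^ (i % 2) = a₂ ^ i := by
          have := zpow_mod_orderOf a₂ i
          rw [hord] at this
          exact_mod_cast this
        rcases Int.emod_two_eq_zero_or_one i with h0 | h0
        · rw [h0, zpow_zero] at h5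
          have := h₄ 0
          rw [pow_zero, mul_one, Subgroup.mem_bot] at this
          exact this (by rw [← hi, ← h5])
        · rw [h0, zpow_one] at h5
          have := h₄ 1
          rw [pow_one, Subgroup.mem_bot] at this
          apply this
          rw [← hi, ← h5, ← sq, h₂]
      have h1 := card_lt_card_of_lt hlt
      rw [Nat.card_zpowers, orderOf_eq_prime h₂ h₃] at h1
      exact h1

/-- A finite `p`-group containing an elementary abelian subgroup of order `> p ^ 2` has a normal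
elementary abelian subgroup of order `p ^ 2`. -/
theorem exists_normal_elem_sq {R : Type*} [Group R] [Finite R] {p : ℕ} [hp : Fact p.Prime]
    (hR : IsPGroup p R) (E : Subgroup R)
    (hEp : ∀ x ∈ E, x ^ p = 1) (hEcard : p ^ 2 < Nat.card E) :
    ∃ B : Subgroup R, B.Normal ∧ (∀ x ∈ B, ∀ y ∈ B, x * y = y * x) ∧ (∀ x ∈ B, x ^ p = 1) ∧
      Nat.card B = p ^ 2 := by
  by_cases hp2 : p = 2
  · subst hp2
    exact exists_normal_four hR E hEp (by omega)
  · apply Cfsg.Agent.Helper1.exists_normal_elem_abelian_sq hp2 hR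
    intro hcyc
    have hEcyc : IsCyclic E := inferInstance
    obtain ⟨e, he⟩ := hEcyc.exists_generator
    have h1 : Nat.card E = orderOf e := (orderOf_eq_card_of_forall_mem_zpowers he).symm
    have h2 : e ^ p = 1 := Subtype.ext (by simpa using hEp e e.2)
    have h3 : orderOf e ≤ p := orderOf_le_of_pow_eq_one hp.out.pos h2
    have : p ≤ p ^ 2 := Nat.le_self_pow (by norm_num) p
    omega

/-- For a normal subgroup `U` of order `p ^ 2` of a `p`-group, the centralizer of `U` in any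
subgroup `F` has index at most `p` in `F`. -/
theorem card_le_mul_card_inf_centralizer {R : Type*} [Group R] [Finite R] {p : ℕ}
    [hp : Fact p.Prime] (hR : IsPGroup p R) (U : Subgroup R) [hUn : U.Normal]
    (hU : Nat.card U = p ^ 2) (F : Subgroup R) :
    Nat.card F ≤ p * Nat.card (F ⊓ Subgroup.centralizer (U : Set R) : Subgroup R) := by
  have hUbot : U ≠ ⊥ := by
    intro h
    rw [h, Subgroup.card_bot] at hU
    have := hp.out.one_lt
    have : 1 < p ^ 2 := Nat.one_lt_pow (by norm_num) this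
    omega
  obtain ⟨z, hzU, hz1, hzc⟩ := Cfsg.Agent.Lead.normal_inf_center_ne_bot' p hR U hUbot
  by_cases hUc : U ≤ Subgroup.center R
  · have : F ⊓ Subgroup.centralizer (U : Set R) = F := by
      apply inf_eq_left.mpr
      intro f _
      rw [Subgroup.mem_centralizer_iff]
      intro u hu
      exact (Subgroup.mem_center_iff.mp (hUc hu) f).symm
    rw [this]
    exact Nat.le_mul_of_pos_left _ hp.out.pos
  · obtain ⟨u, huU, huc⟩ := SetLike.not_le_iff_exists.mp hUc
    -- `U` is generated by `z` and `u`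
    have hzu : Subgroup.zpowers z ⊔ Subgroup.zpowers u = U := by
      have hle : Subgroup.zpowers z ⊔ Subgroup.zpowers u ≤ U :=
        sup_le (Subgroup.zpowers_le.mpr hzU) (Subgroup.zpowers_le.mpr huU)
      have hlt : Subgroup.zpowers z < Subgroup.zpowers z ⊔ Subgroup.zpowers u := by
        refine lt_of_le_of_ne le_sup_left ?_
        intro h
        apply huc
        have : u ∈ Subgroup.zpowers z := by
          rw [h]; exact Subgroup.mem_sup_right (Subgroup.mem_zpowers u)
        exact (Subgroup.zpowers_le.mpr hzc) this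
      have h1 := card_lt_card_of_lt hlt
      have h2 : Nat.card (Subgroup.zpowers z ⊔ Subgroup.zpowers u : Subgroup R) ∣ p ^ 2 := by
        rw [← hU]; exact Subgroup.card_dvd_of_le hle
      have h3 : p ≤ Nat.card (Subgroup.zpowers z) := by
        rw [Nat.card_zpowers]
        obtain ⟨j, hj⟩ := (IsPGroup.iff_orderOf.mp hR) z
        rw [hj]
        have hj0 : j ≠ 0 := by
          intro h0
          rw [h0, pow_zero, orderOf_eq_one_iff] at hj
          exact hz1 hj
        exact Nat.le_self_pow hj0 p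
      obtain ⟨i, hi2, hi⟩ := (Nat.dvd_prime_pow hp.out).mp h2
      have hi2' : i = 2 := by
        by_contra hne
        have hi1 : i ≤ 1 := by omega
        have : p ^ i ≤ p ^ 1 := Nat.pow_le_pow_right hp.out.pos hi1
        rw [pow_one] at this
        omega
      apply Subgroup.eq_of_le_of_card_ge hle
      rw [hU, hi, hi2']
    have hcu : Subgroup.centralizer ({u} : Set R) ≤ Subgroup.centralizer (U : Set R) := by
      intro f hf
      have hf' : u * f = f * u := Subgroup.mem_centralizer_iff.mp hf u rfl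
      have hle : Subgroup.zpowers z ⊔ Subgroup.zpowers u ≤ Subgroup.centralizer ({f} : Set R) := by
        apply sup_le
        · rw [Subgroup.zpowers_le, Subgroup.mem_centralizer_iff]
          intro y hy
          rw [Set.mem_singleton_iff] at hy
          subst hy
          exact Subgroup.mem_center_iff.mp hzc y
        · rw [Subgroup.zpowers_le, Subgroup.mem_centralizer_iff]
          intro y hy
          rw [Set.mem_singleton_iff] at hy
          subst hy
          exact hf'.symm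
      rw [hzu] at hle
      rw [Subgroup.mem_centralizer_iff]
      intro v hv
      exact ((Subgroup.mem_centralizer_iff.mp (hle hv)) f rfl).symm
    refine le_trans ?_ (Nat.mul_le_mul_left p
      (Subgroup.card_le_of_le (inf_le_inf_left F hcu)))
    -- orbit counting for the conjugation action of `F` on `R`
    letI : MulAction F R := MulAction.compHom R ((MulAut.conj).comp F.subtype)
    have hsmul : ∀ (f : F) (r : R), f • r = (f : R) * r * (f : R)⁻¹ := fun f r => rfl
    have hidx : (MulAction.stabilizer F u).index = (MulAction.orbit F u).ncard :=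
      MulAction.index_stabilizer F u
    have hFp : IsPGroup p F := hR.to_subgroup F
    obtain ⟨m, hm⟩ := IsPGroup.iff_card.mp hFp
    have hdvd : (MulAction.stabilizer F u).index ∣ p ^ m := by
      rw [← hm]; exact Subgroup.index_dvd_card _
    obtain ⟨j, -, hj⟩ := (Nat.dvd_prime_pow hp.out).mp hdvd
    have horb : MulAction.orbit F u ⊆ (U : Set R) \ {1} := by
      rintro _ ⟨f, rfl⟩
      refine ⟨?_, ?_⟩
      · show f • u ∈ U
        rw [hsmul]
        exact hUn.conj_mem u huU f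
      · intro h1
        rw [Set.mem_singleton_iff] at h1
        have h1' : (f : R) * u * (f : R)⁻¹ = 1 := h1
        apply huc
        have : u = 1 := by
          have : u = (f : R)⁻¹ * ((f : R) * u * (f : R)⁻¹) * (f : R) := by group
          rw [this, h1']; group
        rw [this]; exact Subgroup.one_mem _
    have hlt : (MulAction.orbit F u).ncard < p ^ 2 := by
      have h1 := Set.ncard_le_ncard horb (Set.toFinite _)
      have h2 : ((U : Set R) \ {1}).ncard = (U : Set R).ncard - 1 :=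
        Set.ncard_sdiff_singleton_of_mem (U.one_mem)
      have h3 : (U : Set R).ncard = p ^ 2 := by rw [← hU]; rfl
      have : 0 < p ^ 2 := pow_pos hp.out.pos 2
      omega
    have hj1 : (MulAction.stabilizer F u).index ≤ p := by
      rw [hj]
      have : p ^ j < p ^ 2 := by rw [← hj, hidx]; exact hlt
      have hj2 : j < 2 := (Nat.pow_lt_pow_iff_right hp.out.one_lt).mp this
      calc p ^ j ≤ p ^ 1 := Nat.pow_le_pow_right hp.out.pos (by omega)
        _ = p := pow_one p
    have hcard : Nat.card F = Nat.card (MulAction.stabilizer F u) *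
        (MulAction.stabilizer F u).index := (Subgroup.card_mul_index _).symm
    have hstab : Nat.card (MulAction.stabilizer F u) ≤
        Nat.card (F ⊓ Subgroup.centralizer ({u} : Set R) : Subgroup R) := by
      have hmap : (MulAction.stabilizer F u).map F.subtype ≤
          F ⊓ Subgroup.centralizer ({u} : Set R) := by
        rintro _ ⟨f, hf, rfl⟩
        refine Subgroup.mem_inf.mpr ⟨f.2, ?_⟩
        rw [Subgroup.mem_centralizer_iff]
        intro y hy
        rw [Set.mem_singleton_iff] at hy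
        subst hy
        have h1 : (f : R) * y * (f : R)⁻¹ = y := MulAction.mem_stabilizer_iff.mp hf
        show y * (f : R) = (f : R) * y
        calc y * (f : R) = ((f : R) * y * (f : R)⁻¹) * (f : R) := by rw [h1]
          _ = (f : R) * y := by group
      have := Subgroup.card_le_of_le hmap
      rwa [Subgroup.card_map_of_injective (Subgroup.subtype_injective F)] at this
    calc Nat.card F = Nat.card (MulAction.stabilizer F u) * (MulAction.stabilizer F u).index :=
          hcard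
      _ ≤ Nat.card (F ⊓ Subgroup.centralizer ({u} : Set R) : Subgroup R) * p :=
          Nat.mul_le_mul hstab hj1
      _ = p * Nat.card (F ⊓ Subgroup.centralizer ({u} : Set R) : Subgroup R) := mul_comm _ _

theorem sq_le_card_of_lt {R : Type*} [Group R] [Finite R] {p : ℕ} [hp : Fact p.Prime]
    (hR : IsPGroup p R) (H : Subgroup R) (h : p < Nat.card H) : p ^ 2 ≤ Nat.card H := by
  obtain ⟨i, hi⟩ := IsPGroup.iff_card.mp (hR.to_subgroup H)
  rw [hi] at h ⊢
  have hi2 : 2 ≤ i := by
    by_contra hne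
    have hi1 : i ≤ 1 := by omega
    have : p ^ i ≤ p ^ 1 := Nat.pow_le_pow_right hp.out.pos hi1
    rw [pow_one] at this
    omega
  exact Nat.pow_le_pow_right hp.out.pos hi2

theorem isElementaryAbelian_of_forall {R : Type*} [Group R] {p : ℕ} (A : Subgroup R)
    (hc : ∀ x ∈ A, ∀ y ∈ A, x * y = y * x) (hp : ∀ x ∈ A, x ^ p = 1) :
    Cfsg.IsElementaryAbelian p A :=
  ⟨⟨⟨fun a b => Subtype.ext (hc a a.2 b b.2)⟩⟩, hp⟩

theorem IsElementaryAbelian_comm {R : Type*} [Group R] {p : ℕ} {A : Subgroup R}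
    (h : Cfsg.IsElementaryAbelian p A) : ∀ x ∈ A, ∀ y ∈ A, x * y = y * x := by
  intro x hx y hy
  have := h.1.is_comm.comm (⟨x, hx⟩ : A) ⟨y, hy⟩
  exact congrArg Subtype.val this

theorem isElementaryAbelian_of_le {R : Type*} [Group R] {p : ℕ} {A B : Subgroup R}
    (h : Cfsg.IsElementaryAbelian p A) (hBA : B ≤ A) : Cfsg.IsElementaryAbelian p B :=
  isElementaryAbelian_of_forall B
    (fun x hx y hy => IsElementaryAbelian_comm h x (hBA hx) y (hBA hy))
    (fun x hx => h.2 x (hBA hx))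

theorem isElementaryAbelian_sup {R : Type*} [Group R] {p : ℕ} {A B : Subgroup R}
    (hA : Cfsg.IsElementaryAbelian p A) (hB : Cfsg.IsElementaryAbelian p B)
    (hAB : ∀ a ∈ A, ∀ b ∈ B, a * b = b * a) : Cfsg.IsElementaryAbelian p (A ⊔ B) := by
  have hcl : A ⊔ B = Subgroup.closure ((A : Set R) ∪ (B : Set R)) := by
    rw [Subgroup.closure_union, Subgroup.closure_eq, Subgroup.closure_eq]
  have hS : ∀ s ∈ ((A : Set R) ∪ (B : Set R)), ∀ t ∈ ((A : Set R) ∪ (B : Set R)),
      s * t = t * s := by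
    intro s hs t ht
    rcases hs with hs | hs <;> rcases ht with ht | ht
    · exact IsElementaryAbelian_comm hA s hs t ht
    · exact hAB s hs t ht
    · exact (hAB t ht s hs).symm
    · exact IsElementaryAbelian_comm hB s hs t ht
  rw [hcl]
  apply isElementaryAbelian_of_forall
  · exact Cfsg.Agent.Helper1.closure_comm _ hS
  · apply Cfsg.Agent.Helper1.closure_pow_eq_one _ hS
    intro s hs
    rcases hs with hs | hs
    · exact hA.2 s hs
    · exact hB.2 s hs

/-- Failure of `PRankLE p 2` for a subgroup, expressed inside the ambient group. -/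
theorem not_pRankLE_two_iff {R : Type*} [Group R] [Finite R] (p : ℕ) (C : Subgroup R) :
    ¬ Cfsg.PRankLE p 2 ↥C ↔ ∃ F : Subgroup R, Cfsg.IsElementaryAbelian p F ∧
      p ^ 2 < Nat.card F ∧ F ≤ C := by
  constructor
  · intro h
    unfold Cfsg.PRankLE at h
    push Not at h
    obtain ⟨A', hA'c, hA'p, hA'card⟩ := h
    refine ⟨A'.map C.subtype, ?_, ?_, Subgroup.map_subtype_le _⟩
    · apply isElementaryAbelian_of_forall
      · rintro _ ⟨a, ha, rfl⟩ _ ⟨b, hb, rfl⟩
        have := hA'c.is_comm.comm (⟨a, ha⟩ : A') ⟨b, hb⟩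
        have h2 : a * b = b * a := congrArg Subtype.val this
        rw [← map_mul, ← map_mul, h2]
      · rintro _ ⟨a, ha, rfl⟩
        rw [← map_pow, hA'p a ha, map_one]
    · rw [Subgroup.card_map_of_injective (Subgroup.subtype_injective C)]
      exact hA'card
  · rintro ⟨F, hF, hFcard, hFC⟩ h
    have h1 := h (F.subgroupOf C)
      ⟨⟨fun a b => Subtype.ext (Subtype.ext
        (IsElementaryAbelian_comm hF (a : R) (Subgroup.mem_subgroupOf.mp a.2) (b : R)
          (Subgroup.mem_subgroupOf.mp b.2)))⟩⟩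
      (fun a ha => Subtype.ext (by simpa using hF.2 (a : R) (Subgroup.mem_subgroupOf.mp ha)))
    rw [Nat.card_congr (Subgroup.subgroupOfEquivOfLe hFC).toEquiv] at h1
    omega

/-- The connectivity criterion behind S1337. -/
theorem rank_two_connected_criterion {P : Type*} [Group P] [Finite P] (p : ℕ) [hp : Fact p.Prime]
    (hP : IsPGroup p P) (hrk : ¬ Cfsg.PRankLE p 2 P) :
    ∃ U : Subgroup P, U.Normal ∧ Cfsg.IsElementaryAbelian p U ∧ Nat.card ↥U = p ^ 2 ∧
      ∀ X : Subgroup P, Cfsg.IsElementaryAbelian p X → p ^ 2 ≤ Nat.card ↥X →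
        (Relation.ReflTransGen (fun A B : Subgroup P => Cfsg.IsElementaryAbelian p A ∧
          p ^ 2 ≤ Nat.card ↥A ∧ Cfsg.IsElementaryAbelian p B ∧ p ^ 2 ≤ Nat.card ↥B ∧
          ∀ a ∈ A, ∀ b ∈ B, a * b = b * a) X U ↔
        ¬ Cfsg.PRankLE p 2 ↥(Subgroup.centralizer (X : Set P))) := by
  have hrk' := hrk
  unfold Cfsg.PRankLE at hrk'
  push Not at hrk'
  obtain ⟨E, hEc, hEp, hEcard⟩ := hrk'
  have hEea : Cfsg.IsElementaryAbelian p E := ⟨hEc, hEp⟩
  obtain ⟨U, hUn, hUc, hUp, hUcard⟩ := exists_normal_elem_sq hP E hEp (by omega)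
  have hUea : Cfsg.IsElementaryAbelian p U := isElementaryAbelian_of_forall U hUc hUp
  have hple : p ≤ p ^ 2 := Nat.le_self_pow (by norm_num) p
  -- the centralizer of `U` in an elementary abelian subgroup of order `> p ^ 2`
  have hcent : ∀ F : Subgroup P, p ^ 2 < Nat.card F →
      p ^ 2 ≤ Nat.card (F ⊓ Subgroup.centralizer (U : Set P) : Subgroup P) := by
    intro F hF
    have h1 := card_le_mul_card_inf_centralizer hP U hUcard F
    apply sq_le_card_of_lt hP
    by_contra hle
    push Not at hle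
    have : p * Nat.card (F ⊓ Subgroup.centralizer (U : Set P) : Subgroup P) ≤ p * p :=
      Nat.mul_le_mul_left p hle
    rw [sq] at hF
    omega
  have hUU : U ≤ Subgroup.centralizer (U : Set P) := by
    intro u hu
    rw [Subgroup.mem_centralizer_iff]
    intro v hv
    exact hUc v hv u hu
  -- `U` itself has a centralizer of rank `> 2`
  have hQU : ∃ F : Subgroup P, Cfsg.IsElementaryAbelian p F ∧ p ^ 2 < Nat.card F ∧
      F ≤ Subgroup.centralizer (U : Set P) := by
    by_cases hUE : U ≤ E ⊓ Subgroup.centralizer (U : Set P)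
    · refine ⟨E, hEea, by omega, ?_⟩
      intro e he
      rw [Subgroup.mem_centralizer_iff]
      intro u hu
      exact IsElementaryAbelian_comm hEea u ((hUE hu).1) e he
    · have hE₀ea : Cfsg.IsElementaryAbelian p (E ⊓ Subgroup.centralizer (U : Set P) : Subgroup P) :=
        isElementaryAbelian_of_le hEea inf_le_left
      refine ⟨(E ⊓ Subgroup.centralizer (U : Set P)) ⊔ U, ?_, ?_, sup_le inf_le_right hUU⟩
      · apply isElementaryAbelian_sup hE₀ea hUea
        intro a ha b hb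
        exact ((Subgroup.mem_centralizer_iff.mp ha.2) b hb).symm
      · have hlt : E ⊓ Subgroup.centralizer (U : Set P) <
            (E ⊓ Subgroup.centralizer (U : Set P)) ⊔ U :=
          lt_of_le_of_ne le_sup_left (fun h => hUE (by rw [h]; exact le_sup_right))
        have h1 := card_lt_card_of_lt hlt
        have h2 := hcent E (by omega)
        omega
  have hchain : ∀ X : Subgroup P, Relation.ReflTransGen (fun A B : Subgroup P =>
      Cfsg.IsElementaryAbelian p A ∧
      p ^ 2 ≤ Nat.card ↥A ∧ Cfsg.IsElementaryAbelian p B ∧ p ^ 2 ≤ Nat.card ↥B ∧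
      ∀ a ∈ A, ∀ b ∈ B, a * b = b * a) X U →
      ∃ F : Subgroup P, Cfsg.IsElementaryAbelian p F ∧ p ^ 2 < Nat.card F ∧
        F ≤ Subgroup.centralizer (X : Set P) := by
    intro X hch
    induction hch using Relation.ReflTransGen.head_induction_on with
    | refl => exact hQU
    | @head A B h' _ ih =>
      obtain ⟨hA, hAcard, hB, hBcard, hAB⟩ := h'
      have hAA : A ≤ Subgroup.centralizer (A : Set P) := by
        intro a ha
        rw [Subgroup.mem_centralizer_iff]
        intro v hv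
        exact IsElementaryAbelian_comm hA v hv a ha
      have hBA : B ≤ Subgroup.centralizer (A : Set P) := by
        intro b hb
        rw [Subgroup.mem_centralizer_iff]
        intro v hv
        exact hAB v hv b hb
      by_cases hbig : p ^ 2 < Nat.card (A ⊔ B : Subgroup P)
      · exact ⟨A ⊔ B, isElementaryAbelian_sup hA hB hAB, hbig, sup_le hAA hBA⟩
      · push Not at hbig
        have e1 : A = A ⊔ B := Subgroup.eq_of_le_of_card_ge le_sup_left (by omega)
        have e2 : B = A ⊔ B := Subgroup.eq_of_le_of_card_ge le_sup_right (by omega)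
        have e3 : A = B := e1.trans e2.symm
        rw [e3]
        exact ih
  refine ⟨U, hUn, hUea, hUcard, ?_⟩
  intro X hXea hXcard
  rw [not_pRankLE_two_iff]
  constructor
  · exact hchain X
  · rintro ⟨F, hFea, hFcard, hFX⟩
    have hF₀ea : Cfsg.IsElementaryAbelian p (F ⊓ Subgroup.centralizer (U : Set P) : Subgroup P) :=
      isElementaryAbelian_of_le hFea inf_le_left
    have hF₀card := hcent F hFcard
    refine Relation.ReflTransGen.head (b := F) ⟨hXea, hXcard, hFea, by omega, ?_⟩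
      (Relation.ReflTransGen.head (b := F ⊓ Subgroup.centralizer (U : Set P))
        ⟨hFea, by omega, hF₀ea, hF₀card, ?_⟩
        (Relation.ReflTransGen.single ⟨hF₀ea, hF₀card, hUea, by omega, ?_⟩))
    · intro a ha b hb
      exact (Subgroup.mem_centralizer_iff.mp (hFX hb)) a ha
    · intro a ha b hb
      exact IsElementaryAbelian_comm hFea a ha b hb.1
    · intro a ha b hb
      exact ((Subgroup.mem_centralizer_iff.mp ha.2) b hb).symm

end Cfsg.Agent.Helper10
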