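import Mathlib
import Cfsg.Agent.Helper10.HH
import Cfsg.Agent.Helper10.NormP
import Cfsg.Agent.Lead.Quat
import Cfsg.Agent.S0055

/-!
# Thompson's strengthening of the `P × Q` lemma for odd primes

The symmetrized product of a list in a class-two group of odd exponent (Baer's trick), used to
produce fixed points, and the `P × Q` lemma for `Q` only normalized by `P`.
-/

set_option autoImplicit false
open Cfsg
open scoped commutatorElement

namespace Cfsg.Agent.Helper10

universe u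

section Sig

variable {H : Type*} [Group H]

/-- correction term of the symmetrized product -/
def sigC (m : ℕ) (a : H) : List H → H
  | [] => 1
  | y :: l => ⁅a, y⁆ ^ m * sigC m a l

/-- the symmetrized product of a list -/
def sig (m : ℕ) : List H → H
  | [] => 1
  | a :: l => a * sig m l * sigC m a l

theorem sigC_commute (m : ℕ) (hcen : ∀ a b g : H, Commute ⁅a, b⁆ g) (a : H) (l : List H)
    (g : H) : Commute (sigC m a l) g := by
  induction l with
  | nil => exact Commute.one_left g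
  | cons y l ih => exact ((hcen a y g).pow_left m).mul_left ih

theorem sigC_perm (m : ℕ) (hcen : ∀ a b g : H, Commute ⁅a, b⁆ g) (a : H) {l₁ l₂ : List H}
    (h : l₁.Perm l₂) : sigC m a l₁ = sigC m a l₂ := by
  induction h with
  | nil => rfl
  | cons x _ ih => simp only [sigC, ih]
  | swap x y l =>
    simp only [sigC]
    rw [← mul_assoc, ← mul_assoc, ((hcen a y _).pow_left m).eq]
  | trans _ _ ih1 ih2 => exact ih1.trans ih2

theorem sig_perm (m p : ℕ) (hm : 2 * m + 1 = p) (hcen : ∀ a b g : H, Commute ⁅a, b⁆ g)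
    (hexp : ∀ a b : H, ⁅a, b⁆ ^ p = 1) {l₁ l₂ : List H} (h : l₁.Perm l₂) :
    sig m l₁ = sig m l₂ := by
  induction h with
  | nil => rfl
  | cons x h ih => simp only [sig, ih, sigC_perm m hcen x h]
  | swap x y l =>
    simp only [sig, sigC]
    have hk : ∀ g, Commute ⁅y, x⁆ g := hcen y x
    have hcx : ∀ g, Commute (sigC m x l) g := sigC_commute m hcen x l
    have hcy : ∀ g, Commute (sigC m y l) g := sigC_commute m hcen y l
    have hyx : y * x = ⁅y, x⁆ * (x * y) := by rw [commutatorElement_def]; group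
    have hkk : ⁅y, x⁆ * ⁅y, x⁆ ^ m = ⁅x, y⁆ ^ m := by
      rw [← commutatorElement_inv y x, inv_pow]
      apply eq_inv_of_mul_eq_one_left
      rw [← pow_succ', ← pow_add]
      have : m + 1 + m = p := by omega
      rw [this, hexp]
    have e2 : ⁅y, x⁆ * sigC m x l * (⁅y, x⁆ ^ m * sigC m y l) =
        ⁅y, x⁆ * ⁅y, x⁆ ^ m * (sigC m x l * sigC m y l) := by
      rw [mul_assoc ⁅y, x⁆ (sigC m x l), ← mul_assoc (sigC m x l), (hcx (⁅y, x⁆ ^ m)).eq,
        mul_assoc (⁅y, x⁆ ^ m), ← mul_assoc ⁅y, x⁆]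
    have e3 : sigC m y l * (⁅x, y⁆ ^ m * sigC m x l) =
        ⁅x, y⁆ ^ m * (sigC m x l * sigC m y l) := by
      rw [← mul_assoc, (hcy (⁅x, y⁆ ^ m)).eq, mul_assoc, (hcy (sigC m x l)).eq]
    calc y * (x * sig m l * sigC m x l) * (⁅y, x⁆ ^ m * sigC m y l)
        = y * x * sig m l * sigC m x l * (⁅y, x⁆ ^ m * sigC m y l) := by simp only [mul_assoc]
      _ = ⁅y, x⁆ * (x * y * sig m l) * sigC m x l * (⁅y, x⁆ ^ m * sigC m y l) := by
          rw [hyx]; simp only [mul_assoc]
      _ = x * y * sig m l * (⁅y, x⁆ * sigC m x l * (⁅y, x⁆ ^ m * sigC m y l)) := by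
          rw [(hk (x * y * sig m l)).eq]; simp only [mul_assoc]
      _ = x * y * sig m l * (sigC m y l * (⁅x, y⁆ ^ m * sigC m x l)) := by
          rw [e2, e3, hkk]
      _ = x * (y * sig m l * sigC m y l) * (⁅x, y⁆ ^ m * sigC m x l) := by
          simp only [mul_assoc]
  | trans _ _ ih1 ih2 => exact ih1.trans ih2

theorem sigC_map {H' : Type*} [Group H'] (m : ℕ) (φ : H →* H') (a : H) (l : List H) :
    φ (sigC m a l) = sigC m (φ a) (l.map φ) := by
  induction l with
  | nil => simp [sigC]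
  | cons y l ih => simp only [sigC, List.map_cons, map_mul, map_pow, map_commutatorElement, ih]

theorem sig_map {H' : Type*} [Group H'] (m : ℕ) (φ : H →* H') (l : List H) :
    φ (sig m l) = sig m (l.map φ) := by
  induction l with
  | nil => simp [sig]
  | cons y l ih => simp only [sig, List.map_cons, map_mul, ih, sigC_map]

theorem commutatorElement_mul_central (z : H) (hz : ∀ g : H, Commute z g) (a y : H) :
    ⁅a * z, y * z⁆ = ⁅a, y⁆ := by
  rw [commutatorElement_def, commutatorElement_def]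
  have h1 : a * z * (y * z) * (a * z)⁻¹ * (y * z)⁻¹ = a * (z * (y * a⁻¹)) * z⁻¹ * y⁻¹ := by group
  rw [h1, (hz (y * a⁻¹)).eq]
  group

theorem sigC_mul_central (m : ℕ) (z : H) (hz : ∀ g : H, Commute z g) (a : H) (l : List H) :
    sigC m (a * z) (l.map (· * z)) = sigC m a l := by
  induction l with
  | nil => simp [sigC]
  | cons y l ih => simp only [sigC, List.map_cons, ih, commutatorElement_mul_central z hz]

theorem sig_mul_central (m : ℕ) (hcen : ∀ a b g : H, Commute ⁅a, b⁆ g) (z : H)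
    (hz : ∀ g : H, Commute z g) (l : List H) :
    sig m (l.map (· * z)) = sig m l * z ^ l.length := by
  induction l with
  | nil => simp [sig]
  | cons y l ih =>
    simp only [sig, List.map_cons, ih, sigC_mul_central m z hz, List.length_cons]
    have hc := sigC_commute m hcen y l
    calc y * z * (sig m l * z ^ l.length) * sigC m y l
        = y * (z * (sig m l * z ^ l.length)) * sigC m y l := by simp only [mul_assoc]
      _ = y * (sig m l * z ^ l.length * z) * sigC m y l := by rw [(hz _).eq]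
      _ = y * sig m l * (z ^ (l.length + 1) * sigC m y l) := by
          rw [pow_succ]; simp only [mul_assoc]
      _ = y * sig m l * sigC m y l * z ^ (l.length + 1) := by
          rw [← (hc (z ^ (l.length + 1))).eq]; simp only [mul_assoc]

end Sig

/-- Fixed points in a class-two group of odd prime exponent: if `Qa` is a `p'`-group of
automorphisms whose fixed points are central, and `x` is fixed modulo `Qa`-fixed central elements
by a set `Pa` of automorphisms normalizing `Qa`, then some central translate of `x` is fixed by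
`Pa`. -/
theorem exists_fixed_of_class_two {H : Type*} [Group H] [Finite H] {p : ℕ} [hp : Fact p.Prime]
    (hp2 : p ≠ 2) (hcen : ∀ a b g : H, Commute ⁅a, b⁆ g) (hexp : ∀ a : H, a ^ p = 1)
    (Qa : Subgroup (MulAut H)) (hQa : (Nat.card Qa).Coprime p)
    (hQcen : ∀ y : H, (∀ α ∈ Qa, α y = y) → y ∈ Subgroup.center H)
    (Pa : Set (MulAut H)) (hPQ : ∀ β ∈ Pa, ∀ α ∈ Qa, β * α * β⁻¹ ∈ Qa)
    (x : H) (hx : ∀ β ∈ Pa, x⁻¹ * β x ∈ Subgroup.center H ∧
      ∀ α ∈ Qa, α (x⁻¹ * β x) = x⁻¹ * β x) :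
    ∃ w : H, (∀ β ∈ Pa, β w = w) ∧ x⁻¹ * w ∈ Subgroup.center H := by
  classical
  letI : Fintype Qa := Fintype.ofFinite Qa
  obtain ⟨m, hm⟩ : ∃ m, 2 * m + 1 = p := by
    obtain ⟨m, hm⟩ := hp.out.eq_two_or_odd'.resolve_left hp2
    exact ⟨m, hm.symm⟩
  obtain ⟨L, hL⟩ : ∃ L : List Qa, L = (Finset.univ : Finset Qa).toList := ⟨_, rfl⟩
  have hLnd : L.Nodup := by rw [hL]; exact Finset.nodup_toList _
  have hLlen : L.length = Nat.card Qa := by
    rw [hL, Finset.length_toList, Finset.card_univ, Nat.card_eq_fintype_card]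
  have hLmem : ∀ a : Qa, a ∈ L := fun a => by rw [hL, Finset.mem_toList]; exact Finset.mem_univ a
  have hperm : ∀ e : Qa → Qa, Function.Injective e → (L.map e).Perm L := by
    intro e he
    apply List.Subperm.perm_of_length_le
    · exact List.subperm_of_subset (hLnd.map he) (fun a _ => hLmem a)
    · rw [List.length_map]
  have hcomm : ∀ a b : H, ⁅a, b⁆ ^ p = 1 := fun a b => hexp _
  obtain ⟨τ, hτ⟩ : ∃ τ : H → H, ∀ y, τ y = sig m (L.map (fun α : Qa => (α : MulAut H) y)) :=
    ⟨_, fun _ => rfl⟩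
  have hτfix : ∀ y : H, ∀ α₀ ∈ Qa, α₀ (τ y) = τ y := by
    intro y α₀ hα₀
    have h1 := sig_map m (α₀ : MulAut H).toMonoidHom (L.map (fun α : Qa => (α : MulAut H) y))
    have h2 : (L.map (fun α : Qa => (α : MulAut H) y)).map (α₀ : MulAut H).toMonoidHom =
        (L.map (fun α : Qa => (⟨α₀, hα₀⟩ : Qa) * α)).map (fun α : Qa => (α : MulAut H) y) := by
      rw [List.map_map, List.map_map]
      apply List.map_congr_left
      intro α _
      rfl
    have h3 := sig_perm m p hm hcen hcomm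
      ((hperm _ (mul_right_injective (⟨α₀, hα₀⟩ : Qa))).map (fun α : Qa => (α : MulAut H) y))
    rw [hτ]
    calc α₀ (sig m (L.map (fun α : Qa => (α : MulAut H) y)))
        = sig m ((L.map (fun α : Qa => (α : MulAut H) y)).map (α₀ : MulAut H).toMonoidHom) := h1
      _ = _ := by rw [h2]; exact h3
  have hτeq : ∀ β ∈ Pa, ∀ y : H, β (τ y) = τ (β y) := by
    intro β hβ y
    have h1 := sig_map m (β : MulAut H).toMonoidHom (L.map (fun α : Qa => (α : MulAut H) y))
    obtain ⟨e, he_def⟩ : ∃ e : Qa → Qa, ∀ α : Qa, (e α : MulAut H) = β * (α : MulAut H) * β⁻¹ :=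
      ⟨fun α => ⟨β * α * β⁻¹, hPQ β hβ α α.2⟩, fun _ => rfl⟩
    have he : Function.Injective e := by
      intro a b hab
      have h4 : β * (a : MulAut H) * β⁻¹ = β * (b : MulAut H) * β⁻¹ := by
        rw [← he_def, ← he_def, hab]
      apply Subtype.ext
      exact mul_left_cancel (mul_right_cancel h4)
    have h2 : (L.map (fun α : Qa => (α : MulAut H) y)).map (β : MulAut H).toMonoidHom =
        (L.map e).map (fun α : Qa => (α : MulAut H) (β y)) := by
      rw [List.map_map, List.map_map]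
      apply List.map_congr_left
      intro α _
      show β ((α : MulAut H) y) = (e α : MulAut H) (β y)
      rw [he_def]
      simp [MulAut.mul_apply]
    have h3 := sig_perm m p hm hcen hcomm
      ((hperm e he).map (fun α : Qa => (α : MulAut H) (β y)))
    rw [hτ, hτ]
    calc β (sig m (L.map (fun α : Qa => (α : MulAut H) y)))
        = sig m ((L.map (fun α : Qa => (α : MulAut H) y)).map (β : MulAut H).toMonoidHom) := h1
      _ = _ := by rw [h2]; exact h3
  have hτz : ∀ y z : H, z ∈ Subgroup.center H → (∀ α ∈ Qa, α z = z) →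
      τ (y * z) = τ y * z ^ Nat.card Qa := by
    intro y z hz hzfix
    have hzc : ∀ g : H, Commute z g := fun g => (Subgroup.mem_center_iff.mp hz g).symm
    have h1 : L.map (fun α : Qa => (α : MulAut H) (y * z)) =
        (L.map (fun α : Qa => (α : MulAut H) y)).map (· * z) := by
      rw [List.map_map]
      apply List.map_congr_left
      intro α _
      show (α : MulAut H) (y * z) = (α : MulAut H) y * z
      rw [map_mul, hzfix α α.2]
    rw [hτ, hτ, h1, sig_mul_central m hcen z hzc, List.length_map, hLlen]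
  obtain ⟨e, -, he⟩ := Nat.exists_mul_mod_eq_one_of_coprime hQa hp.out.one_lt
  have hτcen : ∀ y, τ y ∈ Subgroup.center H := fun y => hQcen _ (hτfix y)
  refine ⟨x * ((τ x) ^ e)⁻¹, ?_, ?_⟩
  · intro β hβ
    obtain ⟨hzc, hzfix⟩ := hx β hβ
    obtain ⟨z, hz⟩ : ∃ z : H, z = x⁻¹ * β x := ⟨_, rfl⟩
    rw [← hz] at hzc hzfix
    have hβx : β x = x * z := by rw [hz]; group
    have h1 : β (τ x) = τ x * z ^ Nat.card Qa := by rw [hτeq β hβ, hβx, hτz x z hzc hzfix]
    have hzpow : (z ^ Nat.card Qa) ^ e = z := by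
      rw [← pow_mul, pow_eq_pow_mod _ (hexp z), he, pow_one]
    have hτc : ∀ g : H, Commute (τ x) g :=
      fun g => (Subgroup.mem_center_iff.mp (hτcen x) g).symm
    rw [map_mul, map_inv, map_pow, h1, hβx, (hτc _).mul_pow, hzpow]
    group
  · have : x⁻¹ * (x * ((τ x) ^ e)⁻¹) = ((τ x) ^ e)⁻¹ := by group
    rw [this]
    exact Subgroup.inv_mem _ (Subgroup.pow_mem _ (hτcen x) e)

/-- A `p`-group `P` normalizing a `p`-group `S` has a fixed point on `S/Z`, for `Z < S` normal in
`S` and `P`-invariant. -/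
theorem exists_fixed_mod {X : Type*} [Group X] [Finite X] {p : ℕ} [Fact p.Prime]
    (P S Z : Subgroup X) (hP : IsPGroup p P) (hS : IsPGroup p S)
    (hPS : P ≤ Subgroup.normalizer (S : Set X)) (hZS : Z < S)
    (hSZ : S ≤ Subgroup.normalizer (Z : Set X)) (hPZ : P ≤ Subgroup.normalizer (Z : Set X)) :
    ∃ x ∈ S, x ∉ Z ∧ ∀ t ∈ P, x⁻¹ * (t * x * t⁻¹) ∈ Z := by
  have hR : IsPGroup p (P ⊔ S : Subgroup X) := IsPGroup.to_sup_of_normal_right' hP hS hPS
  obtain ⟨R, hRdef⟩ : ∃ R : Subgroup X, R = P ⊔ S := ⟨_, rfl⟩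
  rw [← hRdef] at hR
  have hPR : P ≤ R := by rw [hRdef]; exact le_sup_left
  have hSR : S ≤ R := by rw [hRdef]; exact le_sup_right
  have hRZ : R ≤ Subgroup.normalizer (Z : Set X) := by rw [hRdef]; exact sup_le hPZ hSZ
  have hRS : R ≤ Subgroup.normalizer (S : Set X) := by
    rw [hRdef]; exact sup_le hPS Subgroup.le_normalizer
  haveI hZn : (Z.subgroupOf R).Normal :=
    (Subgroup.normal_subgroupOf_iff_le_normalizer (hZS.le.trans hSR)).mpr hRZ
  haveI hSn : (S.subgroupOf R).Normal :=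
    (Subgroup.normal_subgroupOf_iff_le_normalizer hSR).mpr hRS
  have hRq : IsPGroup p (R ⧸ Z.subgroupOf R) := hR.to_quotient _
  haveI : ((S.subgroupOf R).map (QuotientGroup.mk' (Z.subgroupOf R))).Normal :=
    hSn.map _ (QuotientGroup.mk'_surjective _)
  have hne : (S.subgroupOf R).map (QuotientGroup.mk' (Z.subgroupOf R)) ≠ ⊥ := by
    intro h
    rw [Subgroup.map_eq_bot_iff, QuotientGroup.ker_mk'] at h
    apply not_le_of_gt hZS
    intro s hs
    exact h (show (⟨s, hSR hs⟩ : R) ∈ S.subgroupOf R from hs)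
  obtain ⟨b, hb, hb1, hbc⟩ := Cfsg.Agent.Lead.normal_inf_center_ne_bot' p hRq _ hne
  obtain ⟨s, hs, rfl⟩ := hb
  refine ⟨(s : X), hs, ?_, ?_⟩
  · intro hsZ
    exact hb1 ((QuotientGroup.eq_one_iff s).mpr hsZ)
  · intro t ht
    have h1 := Subgroup.mem_center_iff.mp hbc (QuotientGroup.mk' _ ⟨t, hPR ht⟩)
    have h2 : QuotientGroup.mk' (Z.subgroupOf R) (s⁻¹ * (⟨t, hPR ht⟩ * s * ⟨t, hPR ht⟩⁻¹)) = 1 := by
      rw [map_mul, map_mul, map_mul, map_inv, map_inv, h1]
      group
    have h3 : (s⁻¹ * (⟨t, hPR ht⟩ * s * ⟨t, hPR ht⟩⁻¹) : R) ∈ Z.subgroupOf R :=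
      (QuotientGroup.eq_one_iff _).mp h2
    exact h3

/-- Thompson's strengthening of the `P × Q` lemma for odd primes. -/
theorem thompson_pq_odd {X : Type*} [Group X] [Finite X] {p : ℕ} [hpf : Fact p.Prime]
    (hp : p ≠ 2) (P Q G : Subgroup X) (hP : IsPGroup p P) (hQ : (Nat.card Q).Coprime p)
    (hPQ : P ≤ Subgroup.normalizer (Q : Set X)) (hG : IsPGroup p G)
    (hPG : P ≤ Subgroup.normalizer (G : Set X)) (hQG : Q ≤ Subgroup.normalizer (G : Set X))
    (hC : G ⊓ Subgroup.centralizer (P : Set X) ≤ Subgroup.centralizer (Q : Set X)) :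
    Q ≤ Subgroup.centralizer (G : Set X) := by
  by_contra hcon
  have hGQ : ⁅G, Q⁆ ≠ ⊥ := fun h => hcon (Subgroup.le_centralizer_iff.mp
    (Subgroup.commutator_eq_bot_iff_le_centralizer.mp h))
  obtain ⟨B, hB⟩ : ∃ B : Subgroup X, B = P ⊔ Q := ⟨_, rfl⟩
  have hPB : P ≤ B := by rw [hB]; exact le_sup_left
  have hQB : Q ≤ B := by rw [hB]; exact le_sup_right
  have hBQ : B ≤ Subgroup.normalizer (Q : Set X) := by
    rw [hB]; exact sup_le hPQ Subgroup.le_normalizer
  have hBG : B ≤ Subgroup.normalizer (G : Set X) := by rw [hB]; exact sup_le hPG hQG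
  obtain ⟨S, hSG, hSmin⟩ := Finite.exists_le_minimal
    (p := fun U : Subgroup X => B ≤ Subgroup.normalizer (U : Set X) ∧ ⁅U, Q⁆ ≠ ⊥) (a := G)
    ⟨hBG, hGQ⟩
  obtain ⟨⟨hBS, hSQ⟩, hSmin'⟩ := hSmin
  have hSp : IsPGroup p S := hG.to_le hSG
  have hmin : ∀ U : Subgroup X, U < S → B ≤ Subgroup.normalizer (U : Set X) → ⁅U, Q⁆ = ⊥ := by
    intro U hU hUB
    by_contra hne
    exact absurd (hSmin' ⟨hUB, hne⟩ hU.le) (not_le_of_gt hU)
  obtain ⟨hSA, hstr, hirr, hexp⟩ := hall_higman_reduction B Q S hSp hBS hQB hBQ hQ hSQ hmin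
  have hexp' := hexp hp
  have hPS : P ≤ Subgroup.normalizer (S : Set X) := hPB.trans hBS
  have hQS : Q ≤ Subgroup.normalizer (S : Set X) := hQB.trans hBS
  have hcop : (Nat.card Q).Coprime (Nat.card S) := by
    obtain ⟨n, hn⟩ := IsPGroup.iff_card.mp hSp
    rw [hn]; exact Nat.Coprime.pow_right n hQ
  have hCS : ∀ w ∈ S, (∀ t ∈ P, t * w * t⁻¹ = w) → ∀ q ∈ Q, q * w * q⁻¹ = w := by
    intro w hw hfix q hq
    have h1 : w ∈ G ⊓ Subgroup.centralizer (P : Set X) := by
      refine Subgroup.mem_inf.mpr ⟨hSG hw, ?_⟩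
      rw [Subgroup.mem_centralizer_iff]
      intro t ht
      have := hfix t ht
      calc t * w = t * w * t⁻¹ * t := by group
        _ = w * t := by rw [this]
    have h2 := hC h1
    rw [Subgroup.mem_centralizer_iff] at h2
    rw [h2 q hq]; group
  have hSbot : S ≠ ⊥ := by
    rintro rfl
    exact hSQ (Subgroup.commutator_bot_left _)
  by_cases hab : ∀ x ∈ S, ∀ y ∈ S, x * y = y * x
  · -- abelian case
    haveI : IsMulCommutative S := ⟨⟨fun a b => Subtype.ext (hab a a.2 b b.2)⟩⟩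
    obtain ⟨x, hxS, hx1, hxfix⟩ := exists_fixed_mod P S ⊥ hP hSp hPS (bot_lt_iff_ne_bot.mpr hSbot)
      (by rw [Subgroup.normalizer_eq_top]; exact le_top)
      (by rw [Subgroup.normalizer_eq_top]; exact le_top)
    have hfix : ∀ t ∈ P, t * x * t⁻¹ = x := by
      intro t ht
      have := hxfix t ht
      rw [Subgroup.mem_bot] at this
      exact (inv_mul_eq_one.mp this).symm
    have hxQ := hCS x hxS hfix
    have h1 := (Cfsg.Agent.S0055.result Q S hQS hcop).1
    rw [hSA, inf_eq_left.mpr inf_le_left] at h1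
    have h2 : x ∈ S ⊓ Subgroup.centralizer (Q : Set X) := by
      refine Subgroup.mem_inf.mpr ⟨hxS, ?_⟩
      rw [Subgroup.mem_centralizer_iff]
      intro q hq
      have := hxQ q hq
      calc q * x = q * x * q⁻¹ * q := by group
        _ = x * q := by rw [this]
    rw [h1] at h2
    exact hx1 h2
  · -- special case
    have hspec : Cfsg.IsSpecial p S := by
      rcases hstr with h | h
      · exfalso
        apply hab
        intro x hx y hy
        have := h.1.is_comm.comm ⟨x, hx⟩ ⟨y, hy⟩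
        exact congrArg Subtype.val this
      · exact h
    obtain ⟨_, hfr, hcomm⟩ := hspec
    obtain ⟨ZS, hZS⟩ : ∃ ZS : Subgroup X, ZS = (Subgroup.center S).map S.subtype := ⟨_, rfl⟩
    have hZSle : ZS ≤ S := by rw [hZS]; exact Subgroup.map_subtype_le _
    have hZSne : ZS ≠ S := by
      intro h
      apply hab
      intro x hx y hy
      rw [← h, hZS] at hx
      obtain ⟨c, hc, rfl⟩ := hx
      have := Subgroup.mem_center_iff.mp hc ⟨y, hy⟩
      exact (congrArg Subtype.val this).symm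
    have hNZS : Subgroup.normalizer (S : Set X) ≤ Subgroup.normalizer (ZS : Set X) := by
      rw [hZS]; exact char_normalizer' S _
    have hZSB : B ≤ Subgroup.normalizer (ZS : Set X) := hBS.trans hNZS
    have hZSQ : ⁅ZS, Q⁆ = ⊥ := hmin ZS (lt_of_le_of_ne hZSle hZSne) hZSB
    have hZScQ : ZS ≤ Subgroup.centralizer (Q : Set X) :=
      Subgroup.commutator_eq_bot_iff_le_centralizer.mp hZSQ
    have hCSQ : S ⊓ Subgroup.centralizer (Q : Set X) = ZS := by
      have h1 : (frattini S).map S.subtype = ZS := by rw [hfr, hZS]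
      have hB' : B ≤ Subgroup.normalizer
          ((S ⊓ Subgroup.centralizer (Q : Set X) : Subgroup X) : Set X) :=
        le_normalizer_inf hBS (hBQ.trans (normalizer_le_normalizer_centralizer Q))
      rcases hirr (S ⊓ Subgroup.centralizer (Q : Set X))
        (by rw [h1]; exact le_inf hZSle hZScQ) inf_le_left hB' with h | h
      · rw [h, h1]
      · exfalso
        apply hSQ
        rw [Subgroup.commutator_eq_bot_iff_le_centralizer, ← h]
        exact inf_le_right
    have hcen : ∀ a b g : S, Commute ⁅a, b⁆ g := by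
      intro a b g
      have h1 : ⁅a, b⁆ ∈ commutator S :=
        Subgroup.commutator_mem_commutator (Subgroup.mem_top a) (Subgroup.mem_top b)
      rw [hcomm] at h1
      exact (Subgroup.mem_center_iff.mp h1 g).symm
    have hexpS : ∀ a : S, a ^ p = 1 := fun a => Subtype.ext (hexp' a a.2)
    have hQa : (Nat.card (autOn Q S)).Coprime p :=
      Nat.Coprime.coprime_dvd_left (card_autOn_dvd Q S) hQ
    have hQcen : ∀ y : S, (∀ α ∈ autOn Q S, α y = y) → y ∈ Subgroup.center S := by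
      intro y hy
      have h1 : (y : X) ∈ S ⊓ Subgroup.centralizer (Q : Set X) := by
        refine Subgroup.mem_inf.mpr ⟨y.2, ?_⟩
        rw [Subgroup.mem_centralizer_iff]
        intro q hq
        have := hy _ (mem_autOn_of_mem hq (hQS hq))
        have h2 : q * (y : X) * q⁻¹ = y := congrArg Subtype.val this
        calc q * (y : X) = q * y * q⁻¹ * q := by group
          _ = y * q := by rw [h2]
      rw [hCSQ, hZS] at h1
      obtain ⟨c, hc, hcy⟩ := h1
      have : c = y := Subtype.ext hcy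
      rw [← this]; exact hc
    obtain ⟨x, hxS, hxZ, hxfix⟩ := exists_fixed_mod P S ZS hP hSp hPS
      (lt_of_le_of_ne hZSle hZSne) (Subgroup.le_normalizer.trans hNZS) (hPB.trans hZSB)
    obtain ⟨Pa, hPa⟩ : ∃ Pa : Set (MulAut S),
      Pa = {β | ∃ t, ∃ ht : t ∈ P, β = S.normalizerMonoidHom ⟨t, hPS ht⟩} := ⟨_, rfl⟩
    have hPaQ : ∀ β ∈ Pa, ∀ α ∈ autOn Q S, β * α * β⁻¹ ∈ autOn Q S := by
      intro β hβ α hα
      rw [hPa] at hβ
      obtain ⟨t, ht, rfl⟩ := hβ
      obtain ⟨a', ha', rfl⟩ := hα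
      refine ⟨⟨t, hPS ht⟩ * a' * ⟨t, hPS ht⟩⁻¹, ?_, ?_⟩
      · show ((⟨t, hPS ht⟩ * a' * ⟨t, hPS ht⟩⁻¹ : Subgroup.normalizer (S : Set X)) : X) ∈ Q
        exact (Subgroup.mem_normalizer_iff.mp (hPQ ht) _).mp ha'
      · rw [map_mul, map_mul, map_inv]
    have hxPa : ∀ β ∈ Pa, (⟨x, hxS⟩ : S)⁻¹ * β ⟨x, hxS⟩ ∈ Subgroup.center S ∧
        ∀ α ∈ autOn Q S, α ((⟨x, hxS⟩ : S)⁻¹ * β ⟨x, hxS⟩) = (⟨x, hxS⟩ : S)⁻¹ * β ⟨x, hxS⟩ := by
      intro β hβ
      rw [hPa] at hβ
      obtain ⟨t, ht, rfl⟩ := hβ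
      have h1 := hxfix t ht
      rw [hZS] at h1
      obtain ⟨c, hc, hceq⟩ := h1
      have hc' : (⟨x, hxS⟩ : S)⁻¹ * S.normalizerMonoidHom ⟨t, hPS ht⟩ ⟨x, hxS⟩ = c :=
        Subtype.ext hceq.symm
      rw [hc']
      refine ⟨hc, ?_⟩
      rintro α ⟨a', ha', rfl⟩
      apply Subtype.ext
      show (a' : X) * c * (a' : X)⁻¹ = c
      have hcZ : (c : X) ∈ ZS := by rw [hZS]; exact ⟨c, hc, rfl⟩
      have h2 := hZScQ hcZ
      rw [Subgroup.mem_centralizer_iff] at h2
      rw [h2 (a' : X) ha']; group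
    obtain ⟨w, hwfix, hwx⟩ := exists_fixed_of_class_two hp hcen hexpS (autOn Q S) hQa hQcen Pa
      hPaQ ⟨x, hxS⟩ hxPa
    have hwQ := hCS (w : X) w.2
      (fun t ht => congrArg Subtype.val (hwfix _ (by rw [hPa]; exact ⟨t, ht, rfl⟩)))
    have hwc : w ∈ Subgroup.center S := hQcen w (by
      rintro α ⟨a', ha', rfl⟩
      exact Subtype.ext (hwQ (a' : X) ha'))
    have hxc : (⟨x, hxS⟩ : S) ∈ Subgroup.center S := by
      have : (⟨x, hxS⟩ : S) = w * ((⟨x, hxS⟩ : S)⁻¹ * w)⁻¹ := by group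
      rw [this]
      exact Subgroup.mul_mem _ hwc (Subgroup.inv_mem _ hwx)
    exact hxZ (by rw [hZS]; exact ⟨⟨x, hxS⟩, hxc, rfl⟩)

end Cfsg.Agent.Helper10
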