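import Mathlib
import Cfsg.Prelude.Def_Solvable
import Cfsg.Agent.Helper17.PReduced
import Cfsg.Agent.Helper10.PComp
import Cfsg.Agent.Helper10.NormP

set_option autoImplicit false
open Cfsg
open scoped Pointwise

namespace Cfsg.Agent.Helper10

/-- Groups with trivial `O_p`, `O_{p'}` and a TI Sylow `p`-subgroup: the unique minimal normal
subgroup is non-abelian simple with trivial centralizer and TI Sylow `p`-subgroups. -/
theorem ti_sylow_structure {H : Type*} [Group H] [Finite H] (p : ℕ) [hpf : Fact p.Prime]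
    (hOp : Cfsg.pCore p H = ⊥) (hOp' : Cfsg.pPrimeCore p H = ⊥) (P : Sylow p H)
    (hP1 : (P : Subgroup H) ≠ ⊥)
    (hTI : ∀ g : H, g ∉ Subgroup.normalizer ((P : Subgroup H) : Set H) →
      (P : Subgroup H) ⊓ (MulAut.conj g • (P : Subgroup H)) = ⊥) :
    ∃ N : Subgroup H, N.Normal ∧ N ≠ ⊥ ∧ (∀ K : Subgroup H, K.Normal → K ≠ ⊥ → N ≤ K) ∧
      IsSimpleGroup N ∧ ¬ IsMulCommutative N ∧ Subgroup.centralizer (N : Set H) = ⊥ ∧
      ∀ Q : Sylow p N, (Q : Subgroup N) ≠ ⊥ ∧
        ∀ n : N, n ∉ Subgroup.normalizer ((Q : Subgroup N) : Set N) →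
          (Q : Subgroup N) ⊓ (MulAut.conj n • (Q : Subgroup N)) = ⊥ := by
  have hpp := hpf.out
  -- TI for `P`, elementwise
  have hT1 : ∀ x : H, x ≠ 1 → x ∈ (P : Subgroup H) → ∀ g : H, g * x * g⁻¹ ∈ (P : Subgroup H) →
      g ∈ Subgroup.normalizer ((P : Subgroup H) : Set H) := by
    intro x hx1 hxP g hg
    by_contra hgn
    have h1 := hTI g hgn
    have h2 : g * x * g⁻¹ ∈ (P : Subgroup H) ⊓ (MulAut.conj g • (P : Subgroup H)) := by
      refine Subgroup.mem_inf.mpr ⟨hg, ?_⟩
      rw [Subgroup.mem_smul_pointwise_iff_exists]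
      exact ⟨x, hxP, rfl⟩
    rw [h1, Subgroup.mem_bot] at h2
    apply hx1
    have : x = g⁻¹ * (g * x * g⁻¹) * g := by group
    rw [this, h2]; group
  -- TI for every Sylow subgroup
  have hT1' : ∀ Q : Sylow p H, ∀ x : H, x ≠ 1 → x ∈ (Q : Subgroup H) → ∀ g : H,
      g * x * g⁻¹ ∈ (Q : Subgroup H) → g ∈ Subgroup.normalizer ((Q : Subgroup H) : Set H) := by
    intro Q x hx1 hxQ g hg
    obtain ⟨h, rfl⟩ := MulAction.exists_smul_eq H P Q
    have hmem : ∀ y : H, y ∈ ((h • P : Sylow p H) : Subgroup H) ↔ h⁻¹ * y * h ∈ (P : Subgroup H) := by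
      intro y
      rw [Sylow.coe_subgroup_smul, Subgroup.mem_smul_pointwise_iff_exists]
      constructor
      · rintro ⟨s, hs, rfl⟩
        have : h⁻¹ * (MulAut.conj h • s) * h = s := by
          rw [MulAut.smul_def, MulAut.conj_apply]; group
        rw [this]; exact hs
      · intro hy
        refine ⟨h⁻¹ * y * h, hy, ?_⟩
        rw [MulAut.smul_def, MulAut.conj_apply]; group
    have hx' : h⁻¹ * x * h ∈ (P : Subgroup H) := (hmem x).mp hxQ
    have hx1' : h⁻¹ * x * h ≠ 1 := by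
      intro h0
      apply hx1
      have : x = h * (h⁻¹ * x * h) * h⁻¹ := by group
      rw [this, h0]; group
    have hg' : (h⁻¹ * g * h) * (h⁻¹ * x * h) * (h⁻¹ * g * h)⁻¹ ∈ (P : Subgroup H) := by
      have : (h⁻¹ * g * h) * (h⁻¹ * x * h) * (h⁻¹ * g * h)⁻¹ = h⁻¹ * (g * x * g⁻¹) * h := by group
      rw [this]; exact (hmem _).mp hg
    have hn := hT1 _ hx1' hx' _ hg'
    rw [Subgroup.mem_normalizer_iff] at hn ⊢
    intro y
    rw [hmem, hmem, hn (h⁻¹ * y * h)]
    have : (h⁻¹ * g * h) * (h⁻¹ * y * h) * (h⁻¹ * g * h)⁻¹ = h⁻¹ * (g * y * g⁻¹) * h := by group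
    rw [this]
  -- nontrivial normal subgroups have order divisible by `p`
  have hF1 : ∀ M : Subgroup H, M.IsSubnormal → M ≠ ⊥ → p ∣ Nat.card M := by
    intro M hM hM1
    by_contra hnd
    have hc : (Nat.card M).Coprime p := (Nat.Coprime.symm ((Nat.Prime.coprime_iff_not_dvd hpp).mpr hnd))
    have := subnormal_coprime_le_pPrimeCore p M hM hc
    rw [hOp', le_bot_iff] at this
    exact hM1 this
  -- the contradiction engine
  have hengine : ∀ M M' N : Subgroup H, N.Normal → M ≤ N → N ≤ Subgroup.normalizer (M : Set H) →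
      (∀ m ∈ M, ∀ m' ∈ M', m * m' = m' * m) → p ∣ Nat.card M → p ∣ Nat.card M' → False := by
    intro M M' N hNn hMN hNM hcomm hpM hpM'
    obtain ⟨y₀', hy₀'⟩ := exists_prime_orderOf_dvd_card' (G := M') p hpM'
    obtain ⟨y₀, hy₀⟩ : ∃ y₀ : H, y₀ = (y₀' : H) := ⟨_, rfl⟩
    have hy₀M' : y₀ ∈ M' := by rw [hy₀]; exact y₀'.2
    have hy₀ord : orderOf y₀ = p := by rw [hy₀, Subgroup.orderOf_coe]; exact hy₀'
    have hy₀1 : y₀ ≠ 1 := by
      intro h
      rw [h, orderOf_one] at hy₀ord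
      exact hpp.one_lt.ne hy₀ord
    have hzp : IsPGroup p (Subgroup.zpowers y₀) := by
      apply IsPGroup.of_card (n := 1)
      rw [Nat.card_zpowers, hy₀ord, pow_one]
    obtain ⟨Q, hQ⟩ := hzp.exists_le_sylow
    have hy₀Q : y₀ ∈ (Q : Subgroup H) := hQ (Subgroup.mem_zpowers y₀)
    have hMQ : M ≤ Subgroup.normalizer ((Q : Subgroup H) : Set H) := by
      intro m hm
      apply hT1' Q y₀ hy₀1 hy₀Q m
      have : m * y₀ * m⁻¹ = y₀ := by
        rw [hcomm m hm y₀ hy₀M']; group
      rw [this]; exact hy₀Q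
    -- `Q ⊓ M` is the set of `p`-elements of `M`
    have hchar : ∀ x : H, x ∈ (Q : Subgroup H) ⊓ M ↔ x ∈ M ∧ ∃ k : ℕ, x ^ p ^ k = 1 := by
      intro x
      constructor
      · rintro ⟨hxQ, hxM⟩
        obtain ⟨k, hk⟩ := Q.isPGroup' ⟨x, hxQ⟩
        exact ⟨hxM, k, by have := congrArg Subtype.val hk; simpa using this⟩
      · rintro ⟨hxM, k, hk⟩
        refine ⟨?_, hxM⟩
        have hxp : IsPGroup p (Subgroup.zpowers x) := by
          apply IsPGroup.of_card (n := (Nat.card (Subgroup.zpowers x)).factorization p)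
          rw [Nat.card_zpowers]
          obtain ⟨j, -, hj⟩ := (Nat.dvd_prime_pow hpp).mp (orderOf_dvd_of_pow_eq_one hk)
          rw [hj, hpp.factorization_pow, Finsupp.single_eq_same]
        have h1 := hxp.inf_normalizer_sylow Q
        have h2 : x ∈ Subgroup.zpowers x ⊓ (Q : Subgroup H) := by
          rw [← h1]
          exact ⟨Subgroup.mem_zpowers x, hMQ hxM⟩
        exact h2.2
    have hTp : IsPGroup p ((Q : Subgroup H) ⊓ M : Subgroup H) := Q.isPGroup'.to_le inf_le_left
    have hNT : N ≤ Subgroup.normalizer (((Q : Subgroup H) ⊓ M : Subgroup H) : Set H) := by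
      have hconj : ∀ n ∈ N, ∀ x ∈ (Q : Subgroup H) ⊓ M, n * x * n⁻¹ ∈ (Q : Subgroup H) ⊓ M := by
        intro n hn x hx
        rw [hchar] at hx ⊢
        obtain ⟨hxM, k, hk⟩ := hx
        refine ⟨(Subgroup.mem_normalizer_iff.mp (hNM hn) x).mp hxM, k, ?_⟩
        rw [conj_pow, hk, mul_one, mul_inv_cancel]
      intro n hn
      rw [Subgroup.mem_normalizer_iff]
      intro x
      constructor
      · exact hconj n hn x
      · intro hx
        have := hconj n⁻¹ (N.inv_mem hn) _ hx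
        have e : n⁻¹ * (n * x * n⁻¹) * n⁻¹⁻¹ = x := by group
        rw [e] at this
        exact this
    have hTbot := Cfsg.Agent.Helper17.le_pCore_of_normal_in_subnormal (p := p) hNn.isSubnormal
      ((Q : Subgroup H) ⊓ M) (inf_le_right.trans hMN) hNT hTp
    rw [hOp, le_bot_iff] at hTbot
    obtain ⟨y', hy'⟩ := exists_prime_orderOf_dvd_card' (G := M) p hpM
    have hyT : (y' : H) ∈ (Q : Subgroup H) ⊓ M := by
      rw [hchar]
      refine ⟨y'.2, 1, ?_⟩
      rw [pow_one]
      have := pow_orderOf_eq_one (y' : H)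
      rw [Subgroup.orderOf_coe, hy'] at this
      exact this
    rw [hTbot, Subgroup.mem_bot] at hyT
    have : orderOf (y' : H) = p := by rw [Subgroup.orderOf_coe]; exact hy'
    rw [hyT, orderOf_one] at this
    exact hpp.one_lt.ne this
  -- a minimal normal subgroup
  obtain ⟨N, -, hNmin⟩ := Finite.exists_le_minimal
    (p := fun K : Subgroup H => K.Normal ∧ K ≠ ⊥) (a := ⊤)
    ⟨inferInstance, fun h => hP1 (by rw [← le_bot_iff, ← h]; exact le_top)⟩
  obtain ⟨⟨hNn, hN1⟩, hNmin'⟩ := hNmin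
  have hNsub : N.IsSubnormal := hNn.isSubnormal
  have hpN : p ∣ Nat.card N := hF1 N hNsub hN1
  have hNN : N ≤ Subgroup.normalizer (N : Set H) := Subgroup.le_normalizer
  have hNncomm : ¬ ∀ m ∈ N, ∀ m' ∈ N, m * m' = m' * m := fun hc =>
    hengine N N N hNn le_rfl hNN hc hpN hpN
  -- uniqueness
  have huniq : ∀ K : Subgroup H, K.Normal → K ≠ ⊥ → N ≤ K := by
    intro K hKn hK1
    by_contra hNK
    have hint : N ⊓ K = ⊥ := by
      by_contra hne
      have hn : (N ⊓ K).Normal := Subgroup.normal_inf_normal N K   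
      exact hNK ((hNmin' ⟨hn, hne⟩ inf_le_left).trans inf_le_right)
    apply hengine N K N hNn le_rfl hNN ?_ hpN (hF1 K hKn.isSubnormal hK1)
    intro m hm k hk
    have h1 : m * k * m⁻¹ * k⁻¹ ∈ N ⊓ K := by
      refine ⟨?_, ?_⟩
      · have : m * k * m⁻¹ * k⁻¹ = m * (k * m⁻¹ * k⁻¹) := by group
        rw [this]
        exact N.mul_mem hm (hNn.conj_mem _ (N.inv_mem hm) k)
      · exact K.mul_mem (hKn.conj_mem _ hk m) (K.inv_mem hk)
    rw [hint, Subgroup.mem_bot] at h1
    calc m * k = (m * k * m⁻¹ * k⁻¹) * k * m := by group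
      _ = k * m := by rw [h1, one_mul]
  -- simplicity
  have hsimple : ∀ M₀ : Subgroup N, M₀.Normal → M₀ = ⊥ ∨ M₀ = ⊤ := by
    intro M₀ hM₀n
    by_contra hcon
    push Not at hcon
    obtain ⟨hM₀1, hM₀top⟩ := hcon
    have hmapN : M₀.map N.subtype ≤ N := Subgroup.map_subtype_le _
    have hmapn : N ≤ Subgroup.normalizer ((M₀.map N.subtype : Subgroup H) : Set H) :=
      le_normalizer_map_subtype N M₀
    have hmap1 : M₀.map N.subtype ≠ ⊥ := by
      intro h
      apply hM₀1
      rw [Subgroup.map_eq_bot_iff_of_injective _ (Subgroup.subtype_injective N)] at h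
      exact h
    have hmapne : M₀.map N.subtype ≠ N := by
      intro h
      apply hM₀top
      rw [eq_top_iff]
      intro x _
      have hx : (x : H) ∈ M₀.map N.subtype := by rw [h]; exact x.2
      obtain ⟨y, hy, hyx⟩ := hx
      have : y = x := Subtype.ext hyx
      rw [← this]; exact hy
    obtain ⟨M, hMle, hMmin⟩ := Finite.exists_le_minimal
      (p := fun M : Subgroup H => M ≤ N ∧ N ≤ Subgroup.normalizer (M : Set H) ∧ M ≠ ⊥)
      (a := M₀.map N.subtype) ⟨hmapN, hmapn, hmap1⟩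
    obtain ⟨⟨hMN, hNM, hM1⟩, hMmin'⟩ := hMmin
    have hMsub : M.IsSubnormal :=
      Subgroup.IsSubnormal.step M N hMN hNsub
        ((Subgroup.normal_subgroupOf_iff_le_normalizer hMN).mpr hNM)
    have hMnn : ¬ M.Normal := by
      intro hMn
      have := huniq M hMn hM1
      exact hmapne (le_antisymm hmapN (this.trans hMle))
    have hex : ∃ h : H, h ∉ Subgroup.normalizer (M : Set H) := by
      by_contra hall
      push Not at hall
      apply hMnn
      exact Subgroup.normalizer_eq_top_iff.mp (eq_top_iff.mpr fun x _ => hall x)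
    obtain ⟨h, hh⟩ := hex
    obtain ⟨M', hM'⟩ : ∃ M' : Subgroup H, M' = M.map (MulAut.conj h).toMonoidHom := ⟨_, rfl⟩
    have hM'N : M' ≤ N := by
      rw [hM']
      rintro _ ⟨m, hm, rfl⟩
      exact hNn.conj_mem m (hMN hm) h
    have hNM' : N ≤ Subgroup.normalizer (M' : Set H) := by
      have hconj : ∀ n ∈ N, ∀ x ∈ M', n * x * n⁻¹ ∈ M' := by
        intro n hn x hx
        rw [hM'] at hx ⊢
        obtain ⟨m, hm, rfl⟩ := hx
        have hn' : h⁻¹ * n * h ∈ N := by
          have := hNn.conj_mem n hn h⁻¹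
          rwa [inv_inv] at this
        refine ⟨(h⁻¹ * n * h) * m * (h⁻¹ * n * h)⁻¹,
          (Subgroup.mem_normalizer_iff.mp (hNM hn') m).mp hm, ?_⟩
        show h * ((h⁻¹ * n * h) * m * (h⁻¹ * n * h)⁻¹) * h⁻¹ = n * (h * m * h⁻¹) * n⁻¹
        group
      intro n hn
      rw [Subgroup.mem_normalizer_iff]
      intro x
      constructor
      · exact hconj n hn x
      · intro hx
        have := hconj n⁻¹ (N.inv_mem hn) _ hx
        have e : n⁻¹ * (n * x * n⁻¹) * n⁻¹⁻¹ = x := by group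
        rw [e] at this
        exact this
    have hcard : Nat.card M' = Nat.card M := by
      rw [hM']
      exact Subgroup.card_map_of_injective (MulAut.conj h).injective
    have hM'ne : M' ≠ M := by
      intro heq
      apply hh
      apply mem_normalizer_of_map_conj_eq
      rw [← hM', heq]
    have hint : M ⊓ M' = ⊥ := by
      by_contra hne
      have h1 := hMmin' ⟨inf_le_left.trans hMN, le_normalizer_inf hNM hNM', hne⟩ inf_le_left
      have h2 : M ≤ M' := h1.trans inf_le_right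
      exact hM'ne (Subgroup.eq_of_le_of_card_ge h2 hcard.le).symm
    have hpM : p ∣ Nat.card M := hF1 M hMsub hM1
    apply hengine M M' N hNn hMN hNM ?_ hpM (by rw [hcard]; exact hpM)
    intro m hm m' hm'
    have h1 : m * m' * m⁻¹ * m'⁻¹ ∈ M ⊓ M' := by
      refine ⟨?_, ?_⟩
      · have : m * m' * m⁻¹ * m'⁻¹ = m * (m' * m⁻¹ * m'⁻¹) := by group
        rw [this]
        exact M.mul_mem hm
          ((Subgroup.mem_normalizer_iff.mp (hNM (hM'N hm')) m⁻¹).mp (M.inv_mem hm))
      · exact M'.mul_mem ((Subgroup.mem_normalizer_iff.mp (hNM' (hMN hm)) m').mp hm')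
          (M'.inv_mem hm')
    rw [hint, Subgroup.mem_bot] at h1
    calc m * m' = (m * m' * m⁻¹ * m'⁻¹) * m' * m := by group
      _ = m' * m := by rw [h1, one_mul]
  have hNnt : Nontrivial N := (Subgroup.nontrivial_iff_ne_bot N).mpr hN1
  refine ⟨N, hNn, hN1, huniq, ⟨hsimple⟩, ?_, ?_, ?_⟩
  · intro hc
    apply hNncomm
    intro m hm m' hm'
    have := hc.is_comm.comm (⟨m, hm⟩ : N) ⟨m', hm'⟩
    exact congrArg Subtype.val this
  · by_contra hC1
    haveI := hNn
    have hCn : (Subgroup.centralizer (N : Set H)).Normal := inferInstance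
    have hle := huniq _ hCn hC1
    apply hNncomm
    intro m hm m' hm'
    exact ((Subgroup.mem_centralizer_iff.mp (hle hm')) m hm)
  · intro Q
    refine ⟨Q.ne_bot_of_dvd_card hpN, ?_⟩
    intro n hn
    rw [eq_bot_iff]
    intro x hx
    rw [Subgroup.mem_bot]
    by_contra hx1
    obtain ⟨hxQ, hxn⟩ := Subgroup.mem_inf.mp hx
    rw [Subgroup.mem_smul_pointwise_iff_exists] at hxn
    obtain ⟨x₁, hx₁Q, hx₁⟩ := hxn
    have hx₁' : n * x₁ * n⁻¹ = x := by
      rw [← hx₁, MulAut.smul_def, MulAut.conj_apply]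
    have hQp : IsPGroup p ((Q : Subgroup N).map N.subtype) := Q.isPGroup'.map _
    obtain ⟨S, hS⟩ := hQp.exists_le_sylow
    have hx₁S : (x₁ : H) ∈ (S : Subgroup H) := hS ⟨x₁, hx₁Q, rfl⟩
    have hxS : (x : H) ∈ (S : Subgroup H) := hS ⟨x, hxQ, rfl⟩
    have hx₁1 : (x₁ : H) ≠ 1 := by
      intro h0
      apply hx1
      have : x₁ = 1 := Subtype.ext h0
      rw [← hx₁', this]; group
    have hnS : (n : H) ∈ Subgroup.normalizer ((S : Subgroup H) : Set H) := by
      apply hT1' S (x₁ : H) hx₁1 hx₁S (n : H)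
      have : (n : H) * (x₁ : H) * (n : H)⁻¹ = ((n * x₁ * n⁻¹ : N) : H) := by simp
      rw [this, hx₁']; exact hxS
    -- `Q` is `S ⊓ N`
    have hQS : ∀ y : N, y ∈ (Q : Subgroup N) ↔ (y : H) ∈ (S : Subgroup H) := by
      intro y
      constructor
      · intro hy
        exact hS ⟨y, hy, rfl⟩
      · intro hy
        have hp' : IsPGroup p ((S : Subgroup H).subgroupOf N) := S.isPGroup'.comap_subtype
        have hle : (Q : Subgroup N) ≤ (S : Subgroup H).subgroupOf N := by
          intro q hq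
          exact Subgroup.mem_subgroupOf.mpr (hS ⟨q, hq, rfl⟩)
        have := Q.is_maximal' hp' hle
        rw [← this]
        exact Subgroup.mem_subgroupOf.mpr hy
    apply hn
    rw [Subgroup.mem_normalizer_iff]
    intro y
    rw [hQS, hQS, (Subgroup.mem_normalizer_iff.mp hnS) (y : H)]
    simp

end Cfsg.Agent.Helper10
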