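import Mathlib
import Cfsg.Prelude.Def_Transfer
import Cfsg.Agent.Helper10.HatLayer

set_option autoImplicit false

open Cfsg

namespace Cfsg.Agent.Helper10

theorem mul_card_le_of_lt {M : Type*} [Group M] [Finite M] (p : ℕ) [Fact p.Prime]
    (hM : IsPGroup p M) {H K : Subgroup M} (h : H < K) : p * Nat.card H ≤ Nat.card K := by
  have hp : p.Prime := Fact.out
  obtain ⟨a, ha⟩ := IsPGroup.iff_card.mp (hM.to_subgroup H)
  obtain ⟨b, hb⟩ := IsPGroup.iff_card.mp (hM.to_subgroup K)
  have hlt := card_lt_card_of_lt h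
  rw [ha, hb] at hlt ⊢
  have hab : a < b := (Nat.pow_lt_pow_iff_right hp.one_lt).mp hlt
  calc p * p ^ a = p ^ (a + 1) := by rw [pow_succ, mul_comm]
    _ ≤ p ^ b := Nat.pow_le_pow_right hp.pos hab

theorem poly_sub_one_pow (p : ℕ) [Fact p.Prime] :
    ((Polynomial.X - 1 : Polynomial (ZMod p)) ^ p = Polynomial.X ^ p - 1) ∧
    ((Polynomial.X - 1 : Polynomial (ZMod p)) ^ (p - 1) =
      ∑ i ∈ Finset.range p, Polynomial.X ^ i) := by
  have hp : p.Prime := Fact.out
  have h1 : (Polynomial.X - 1 : Polynomial (ZMod p)) ^ p = Polynomial.X ^ p - 1 := by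
    rw [sub_pow_char, one_pow]
  refine ⟨h1, ?_⟩
  have h2 : (Polynomial.X - 1 : Polynomial (ZMod p)) * (Polynomial.X - 1) ^ (p - 1) =
      (Polynomial.X - 1) * ∑ i ∈ Finset.range p, Polynomial.X ^ i := by
    rw [← pow_succ', Nat.sub_add_cancel hp.one_le, h1, mul_geom_sum]
  have hne : (Polynomial.X - 1 : Polynomial (ZMod p)) ≠ 0 := by
    have h3 := Polynomial.X_sub_C_ne_zero (1 : ZMod p)
    simpa using h3
  exact mul_left_cancel₀ hne h2

/-- Elementary abelian `M` with an automorphism-like endomorphism `T`, `T^p = 1`: if the norm of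
`x` lies outside the `T`-invariant subgroup `S`, then `S` has index at least `p^p`. -/
theorem card_ge_of_norm_not_mem {M : Type*} [CommGroup M] [Finite M] (p : ℕ) [Fact p.Prime]
    (hpM : ∀ m : M, m ^ p = 1) (T : M →* M) (hT : ∀ m, T^[p] m = m) (S : Subgroup M)
    (hS : ∀ m ∈ S, T m ∈ S) (x : M) (hx : ∏ i ∈ Finset.range p, T^[i] x ∉ S) :
    p ^ p * Nat.card S ≤ Nat.card M := by
  have hp : p.Prime := Fact.out
  haveI : Module (ZMod p) (Additive M) := AddCommGroup.zmodModule (n := p) (fun m => by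
    have h1 := hpM (Additive.toMul m)
    exact congrArg Additive.ofMul h1)
  obtain ⟨Tl, hTl⟩ : ∃ Tl : Additive M →ₗ[ZMod p] Additive M,
      ∀ m : M, Tl (Additive.ofMul m) = Additive.ofMul (T m) :=
    ⟨(MonoidHom.toAdditive T).toZModLinearMap p, fun m => rfl⟩
  have hTk : ∀ (k : ℕ) (m : M), (Tl ^ k) (Additive.ofMul m) = Additive.ofMul (T^[k] m) := by
    intro k
    induction k with
    | zero => intro m; simp
    | succ k ih =>
      intro m
      rw [pow_succ, Module.End.mul_apply, hTl, ih, Function.iterate_succ_apply]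
  obtain ⟨Dm, hDm⟩ : ∃ Dm : M →* M, ∀ m : M, Dm m = T m / m :=
    ⟨T / MonoidHom.id M, fun m => rfl⟩
  have hD1 : ∀ m : M, (Tl - 1) (Additive.ofMul m) = Additive.ofMul (Dm m) := by
    intro m
    rw [LinearMap.sub_apply, hTl, Module.End.one_apply, hDm]
    rfl
  have hDk : ∀ (k : ℕ) (m : M), ((Tl - 1) ^ k) (Additive.ofMul m) = Additive.ofMul (Dm^[k] m) := by
    intro k
    induction k with
    | zero => intro m; simp
    | succ k ih =>
      intro m
      rw [pow_succ, Module.End.mul_apply, hD1, ih, Function.iterate_succ_apply]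
  have hTp : Tl ^ p = 1 := by
    apply LinearMap.ext
    intro m
    have h1 := hTk p (Additive.toMul m)
    rw [hT] at h1
    exact h1
  obtain ⟨hq1, hq2⟩ := poly_sub_one_pow p
  have hE1 : (Tl - 1) ^ p = 0 := by
    have h1 := congrArg (Polynomial.aeval Tl) hq1
    simp only [map_pow, map_sub, Polynomial.aeval_X, map_one] at h1
    rw [h1, hTp, sub_self]
  have hE2 : (Tl - 1) ^ (p - 1) = ∑ i ∈ Finset.range p, Tl ^ i := by
    have h1 := congrArg (Polynomial.aeval Tl) hq2
    simp only [map_pow, map_sub, Polynomial.aeval_X, map_one, map_sum] at h1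
    exact h1
  have hDp : ∀ m : M, Dm^[p] m = 1 := by
    intro m
    have h1 := hDk p m
    rw [hE1] at h1
    exact (Additive.ofMul.injective h1).symm
  have hDx : Dm^[p - 1] x = ∏ i ∈ Finset.range p, T^[i] x := by
    have h1 := hDk (p - 1) x
    rw [hE2, LinearMap.sum_apply] at h1
    simp only [hTk] at h1
    rw [← ofMul_prod] at h1
    exact (Additive.ofMul.injective h1).symm
  -- the chain of subgroups
  let K : ℕ → Subgroup M := fun k =>
    { carrier := {m | Dm^[k] m ∈ S}
      mul_mem' := fun {a b} ha hb => by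
        show Dm^[k] (a * b) ∈ S
        rw [iterate_map_mul]; exact S.mul_mem ha hb
      one_mem' := by
        show Dm^[k] 1 ∈ S
        rw [iterate_map_one]; exact S.one_mem
      inv_mem' := fun {a} ha => by
        show Dm^[k] a⁻¹ ∈ S
        rw [iterate_map_inv]; exact S.inv_mem ha }
  have hKmem : ∀ k m, m ∈ K k ↔ Dm^[k] m ∈ S := fun _ _ => Iff.rfl
  have hSD : ∀ m ∈ S, Dm m ∈ S := fun m hm => by
    rw [hDm]; exact S.div_mem (hS m hm) hm
  have hmono : ∀ k, K k ≤ K (k + 1) := by
    intro k m hm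
    rw [hKmem] at hm ⊢
    rw [Function.iterate_succ_apply']; exact hSD _ hm
  have hstrict : ∀ k, k < p → K k < K (k + 1) := by
    intro k hk
    refine lt_of_le_of_ne (hmono k) ?_
    intro heq
    have h1 : Dm^[p - 1 - k] x ∈ K (k + 1) := by
      rw [hKmem, ← Function.iterate_add_apply]
      have e : k + 1 + (p - 1 - k) = p := by omega
      rw [e, hDp]; exact S.one_mem
    rw [← heq, hKmem, ← Function.iterate_add_apply] at h1
    have e : k + (p - 1 - k) = p - 1 := by omega
    rw [e, hDx] at h1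
    exact hx h1
  have hMp : IsPGroup p M := fun m => ⟨1, by rw [pow_one]; exact hpM m⟩
  have hK0 : K 0 = S := by ext m; exact Iff.rfl
  have hcard : ∀ k, k ≤ p → p ^ k * Nat.card S ≤ Nat.card (K k) := by
    intro k
    induction k with
    | zero => intro _; rw [pow_zero, one_mul, hK0]
    | succ k ih =>
      intro hk
      have h1 := ih (by omega)
      have h2 := mul_card_le_of_lt p hMp (hstrict k (by omega))
      calc p ^ (k + 1) * Nat.card S = p * (p ^ k * Nat.card S) := by ring
        _ ≤ p * Nat.card (K k) := Nat.mul_le_mul_left p h1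
        _ ≤ Nat.card (K (k + 1)) := h2
  exact (hcard p le_rfl).trans (Subgroup.card_le_card_group _)

/-- In a finite elementary abelian `p`-group, a nontrivial element lies outside some subgroup of
index `p`. -/
theorem exists_index_p_not_mem {M : Type*} [CommGroup M] [Finite M] (p : ℕ) [Fact p.Prime]
    (hpM : ∀ m : M, m ^ p = 1) (z : M) (hz1 : z ≠ 1) :
    ∃ H : Subgroup M, z ∉ H ∧ H.index = p := by
  classical
  have hp : p.Prime := Fact.out
  let S : Set (Subgroup M) := {H | z ∉ H}
  have hne : S.Nonempty := ⟨⊥, fun h => hz1 (Subgroup.mem_bot.mp h)⟩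
  obtain ⟨H, hH, hmax⟩ := Set.exists_max_image S (fun H => Nat.card H) (Set.toFinite S) hne
  have hord : ∀ a : M, a ≠ 1 → orderOf a = p := by
    intro a ha
    have h1 := orderOf_dvd_of_pow_eq_one (hpM a)
    rcases (Nat.dvd_prime hp).mp h1 with h | h
    · exact absurd (orderOf_eq_one_iff.mp h) ha
    · exact h
  have hzo : orderOf z = p := hord z hz1
  have htop : H ⊔ Subgroup.zpowers z = ⊤ := by
    rw [eq_top_iff]
    intro a _
    by_cases haH : a ∈ H
    · exact Subgroup.mem_sup_left haH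
    · have hlt : H < H ⊔ Subgroup.zpowers a := by
        refine lt_of_le_of_ne le_sup_left ?_
        intro h
        apply haH
        rw [h]
        exact Subgroup.mem_sup_right (Subgroup.mem_zpowers a)
      have hzH' : z ∈ H ⊔ Subgroup.zpowers a := by
        by_contra hcon
        have h1 := hmax _ hcon
        exact absurd (card_lt_card_of_lt hlt) (not_lt.mpr h1)
      obtain ⟨h, hh, b, hb, hhb⟩ := Subgroup.mem_sup.mp hzH'
      have hao : orderOf a = p := hord a (fun h' => haH (h' ▸ H.one_mem))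
      rw [mem_zpowers_iff_mem_range_orderOf, hao] at hb
      obtain ⟨k, hk, rfl⟩ := Finset.mem_image.mp hb
      have hk' := Finset.mem_range.mp hk
      have hk0 : k ≠ 0 := by
        rintro rfl
        apply hH
        rw [← hhb, pow_zero, mul_one]; exact hh
      have hcop : k.Coprime p := by
        apply Nat.Coprime.symm
        rw [Nat.Prime.coprime_iff_not_dvd hp]
        exact Nat.not_dvd_of_pos_of_lt (Nat.pos_of_ne_zero hk0) hk'
      apply mem_of_pow_mem_of_coprime (H ⊔ Subgroup.zpowers z) hcop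
      · have e : a ^ k = h⁻¹ * z := by rw [← hhb]; group
        rw [e]
        exact Subgroup.mul_mem _ (Subgroup.mem_sup_left (H.inv_mem hh))
          (Subgroup.mem_sup_right (Subgroup.mem_zpowers z))
      · rw [hpM]; exact Subgroup.one_mem _
  have hdisj : Disjoint (Subgroup.zpowers z) H := by
    rw [Subgroup.disjoint_def]
    intro g hgz hgH
    by_contra hg1
    apply hH
    have hle : Subgroup.zpowers g ≤ Subgroup.zpowers z := Subgroup.zpowers_le.mpr hgz
    have heq : Subgroup.zpowers g = Subgroup.zpowers z := by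
      apply Subgroup.eq_of_le_of_card_ge hle
      rw [Nat.card_zpowers, Nat.card_zpowers, hord g hg1, hzo]
    have h1 : z ∈ Subgroup.zpowers g := by rw [heq]; exact Subgroup.mem_zpowers z
    exact (Subgroup.zpowers_le.mpr hgH) h1
  have hcompl : Subgroup.IsComplement' (Subgroup.zpowers z) H := by
    apply Subgroup.isComplement'_of_disjoint_and_mul_eq_univ hdisj
    rw [← Subgroup.normal_mul, sup_comm, htop]; rfl
  refine ⟨H, hH, ?_⟩
  rw [hcompl.index_eq_card, Nat.card_zpowers, hzo]

/-- The group version of `card_ge_of_norm_not_mem`, inside a normal elementary abelian subgroup. -/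
theorem card_ge_of_conj_prod_not_mem {P : Type*} [Group P] [Finite P] (p : ℕ) [Fact p.Prime]
    (A : Subgroup P) [hAn : A.Normal] (hA : IsElementaryAbelian p A) (C : Subgroup P)
    (hCA : C ≤ A) (x y : P) (hx : x ∈ A) (hyp : y ^ p ∈ A) (hyC : ∀ c ∈ C, y⁻¹ * c * y ∈ C)
    (hprod : ((List.range p).map (fun i => (y ^ i)⁻¹ * x * y ^ i)).prod ∉ C) :
    p ^ p * Nat.card C ≤ Nat.card A := by
  have hcomm : ∀ a b : A, a * b = b * a := fun a b => hA.1.is_comm.comm a b
  letI : CommGroup A := { (inferInstance : Group A) with mul_comm := hcomm }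
  obtain ⟨T, hTdef⟩ : ∃ T : A →* A, ∀ a : A, ((T a : A) : P) = y⁻¹ * a * y :=
    ⟨(MulAut.conjNormal y⁻¹ : A ≃* A).toMonoidHom, fun a => by
      show y⁻¹ * (a : P) * y⁻¹⁻¹ = y⁻¹ * a * y
      rw [inv_inv]⟩
  have hTi : ∀ (i : ℕ) (a : A), ((T^[i] a : A) : P) = (y ^ i)⁻¹ * a * y ^ i := by
    intro i
    induction i with
    | zero => intro a; simp
    | succ i ih =>
      intro a
      rw [Function.iterate_succ_apply', hTdef, ih, pow_succ]; group
  have hT : ∀ m : A, T^[p] m = m := by
    intro m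
    apply Subtype.ext
    rw [hTi]
    have h1 := hcomm ⟨y ^ p, hyp⟩ m
    have h2 : y ^ p * (m : P) = m * y ^ p := congrArg Subtype.val h1
    rw [mul_assoc, ← h2]; group
  have hS : ∀ m ∈ C.subgroupOf A, T m ∈ C.subgroupOf A := by
    intro m hm
    rw [Subgroup.mem_subgroupOf] at hm ⊢
    rw [hTdef]; exact hyC _ hm
  have hprodA : ∀ n : ℕ, ((∏ i ∈ Finset.range n, T^[i] (⟨x, hx⟩ : A) : A) : P) =
      ((List.range n).map (fun i => (y ^ i)⁻¹ * x * y ^ i)).prod := by
    intro n
    induction n with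
    | zero => simp
    | succ n ih =>
      rw [Finset.prod_range_succ, Subgroup.coe_mul, ih, List.range_succ, List.map_append,
        List.prod_append, hTi]
      simp
  have hxS : ∏ i ∈ Finset.range p, T^[i] (⟨x, hx⟩ : A) ∉ C.subgroupOf A := by
    rw [Subgroup.mem_subgroupOf, hprodA]; exact hprod
  have key := card_ge_of_norm_not_mem p (fun m : A => Subtype.ext (hA.2 m m.2)) T hT
    (C.subgroupOf A) hS ⟨x, hx⟩ hxS
  rwa [Nat.card_congr (Subgroup.subgroupOfEquivOfLe hCA).toEquiv] at key

theorem factorization_factorial_sq (p : ℕ) [Fact p.Prime] :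
    (Nat.factorial (p ^ 2)).factorization p = p + 1 := by
  have hp : p.Prime := Fact.out
  rw [Nat.factorization_def _ hp, padicValNat_factorial (b := 3)
    (by rw [Nat.log_pow hp.one_lt]; norm_num)]
  have e : Finset.Ico 1 3 = {1, 2} := by decide
  rw [e, Finset.sum_pair (by norm_num)]
  have h1 : p ^ 2 / p ^ 1 = p := by
    rw [pow_one, pow_two]; exact Nat.mul_div_cancel p hp.pos
  have h2 : p ^ 2 / p ^ 2 = 1 := Nat.div_self (pow_pos hp.pos 2)
  rw [h1, h2]

/-- `Z_p ≀ Z_p`, as a Sylow `p`-subgroup of `S_{p²}`, is an image of `P`. -/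
theorem wreath_image {P : Type*} [Group P] [Finite P] (p : ℕ) [Fact p.Prime] (hP : IsPGroup p P)
    (A : Subgroup P) [hAn : A.Normal] (hA : IsElementaryAbelian p A) (hidx : A.index = p)
    (x y : P) (hx : x ∈ A)
    (hprod : ((List.range p).map (fun i => (y ^ i)⁻¹ * x * y ^ i)).prod ≠ 1) :
    ∃ (Q : Sylow p (Equiv.Perm (Fin (p ^ 2))))
      (f : P →* ↥(Q : Subgroup (Equiv.Perm (Fin (p ^ 2))))), Function.Surjective f := by
  classical
  have hp : p.Prime := Fact.out
  obtain ⟨nx, hnx⟩ : ∃ nx, nx = ((List.range p).map (fun i => (y ^ i)⁻¹ * x * y ^ i)).prod :=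
    ⟨_, rfl⟩
  rw [← hnx] at hprod
  have hnxA : nx ∈ A := by
    rw [hnx]
    apply Subgroup.list_prod_mem
    intro c hc
    obtain ⟨i, _, rfl⟩ := List.mem_map.mp hc
    have h1 := hAn.conj_mem x hx (y ^ i)⁻¹
    simpa using h1
  have hcomm : ∀ a b : A, a * b = b * a := fun a b => hA.1.is_comm.comm a b
  obtain ⟨H₀, hH₀z, hH₀i⟩ : ∃ H₀ : Subgroup A, (⟨nx, hnxA⟩ : A) ∉ H₀ ∧ H₀.index = p := by
    letI : CommGroup A := { (inferInstance : Group A) with mul_comm := hcomm }
    exact exists_index_p_not_mem p (fun m : A => Subtype.ext (hA.2 m m.2)) ⟨nx, hnxA⟩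
      (fun h => hprod (congrArg Subtype.val h))
  obtain ⟨H, hH⟩ : ∃ H : Subgroup P, H = H₀.map A.subtype := ⟨_, rfl⟩
  have hHA : H ≤ A := by rw [hH]; rintro _ ⟨a, _, rfl⟩; exact a.2
  have hnxH : nx ∉ H := by
    rw [hH]; rintro ⟨a, ha, hanx⟩
    have e : a = ⟨nx, hnxA⟩ := Subtype.ext hanx
    rw [e] at ha; exact hH₀z ha
  have hHidx : H.index = p ^ 2 := by
    have h1 : H.relIndex A = p := by
      have e : H.subgroupOf A = H₀ := by
        rw [hH]; exact Subgroup.comap_map_eq_self_of_injective A.subtype_injective H₀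
      show (H.subgroupOf A).index = p
      rw [e]; exact hH₀i
    rw [← Subgroup.relIndex_mul_index hHA, h1, hidx, pow_two]
  obtain ⟨C, hC⟩ : ∃ C : Subgroup P, C = H.normalCore := ⟨_, rfl⟩
  have hCH : C ≤ H := by rw [hC]; exact Subgroup.normalCore_le H
  haveI hCn : C.Normal := by rw [hC]; exact Subgroup.normalCore_normal H
  have hyC : ∀ c ∈ C, y⁻¹ * c * y ∈ C := by
    intro c hc
    have h1 := hCn.conj_mem c hc y⁻¹
    simpa using h1
  have hyp : y ^ p ∈ A := by rw [← hidx]; exact Subgroup.pow_index_mem A y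
  have hcard := card_ge_of_conj_prod_not_mem p A hA C (hCH.trans hHA) x y hx hyp hyC
    (by rw [← hnx]; exact fun h => hnxH (hCH h))
  have hPA : Nat.card P = Nat.card A * p := by rw [← hidx]; exact (Subgroup.card_mul_index A).symm
  have hCidx : p ^ (p + 1) ≤ C.index := by
    have h1 : Nat.card C * C.index = Nat.card P := Subgroup.card_mul_index C
    have h2 : Nat.card C * p ^ (p + 1) ≤ Nat.card C * C.index := by
      rw [h1, hPA]
      calc Nat.card C * p ^ (p + 1) = (p ^ p * Nat.card C) * p := by ring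
        _ ≤ Nat.card A * p := Nat.mul_le_mul_right p hcard
    exact Nat.le_of_mul_le_mul_left h2 Nat.card_pos
  -- the permutation representation on the cosets of `H`
  have hcardq : Nat.card (P ⧸ H) = p ^ 2 := hHidx
  obtain ⟨ψ, hψ⟩ : ∃ ψ : P →* Equiv.Perm (Fin (p ^ 2)), ψ.ker = C := by
    refine ⟨((Finite.equivFinOfCardEq hcardq).permCongrHom).toMonoidHom.comp
      (MulAction.toPermHom P (P ⧸ H)), ?_⟩
    rw [hC, Subgroup.normalCore_eq_ker]
    ext g
    rw [MonoidHom.mem_ker, MonoidHom.mem_ker, MonoidHom.comp_apply]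
    exact (Finite.equivFinOfCardEq hcardq).permCongrHom.map_eq_one_iff
  have hrange : Nat.card ψ.range = C.index := by rw [← hψ]; exact (Subgroup.index_ker ψ).symm
  have hPr : IsPGroup p ψ.range := hP.of_surjective ψ.rangeRestrict ψ.rangeRestrict_surjective
  obtain ⟨Q, hQ⟩ := hPr.exists_le_sylow
  have hQcard : Nat.card Q = p ^ (p + 1) := by
    rw [Sylow.card_eq_multiplicity, Nat.card_eq_fintype_card, Fintype.card_perm, Fintype.card_fin,
      factorization_factorial_sq]
  have hQeq : ψ.range = Q := by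
    apply Subgroup.eq_of_le_of_card_ge hQ
    rw [hQcard, hrange]; exact hCidx
  refine ⟨Q, ψ.codRestrict (Q : Subgroup (Equiv.Perm (Fin (p ^ 2)))) (fun g => hQ ⟨g, rfl⟩), ?_⟩
  rintro ⟨q, hq⟩
  have hq' : q ∈ ψ.range := by rw [hQeq]; exact hq
  obtain ⟨g, rfl⟩ := hq'
  exact ⟨g, rfl⟩

end Cfsg.Agent.Helper10
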